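import Mathlib

set_option autoImplicit false

/-! Cossey-Hawkes-Mann: a finite group with the same multiset of class sizes as a nilpotent
group is nilpotent.  Elementary counting proof. -/

namespace Cfsg.Agent.Helper26.CHM

/-- class size of `x`, as the index of its centralizer -/
noncomputable def cs {G : Type*} [Group G] (x : G) : ℕ := (Subgroup.centralizer ({x} : Set G)).index

theorem cs_eq_card {G : Type*} [Group G] [Finite G] (x : G) :
    cs x = Nat.card (ConjClasses.mk x).carrier := by
  unfold cs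
  rw [← ConjAct.orbit_eq_carrier_conjClasses]
  have h1 := Subgroup.card_mul_index (Subgroup.centralizer ({x} : Set G))
  have h2 := Subgroup.card_mul_index (MulAction.stabilizer (ConjAct G) x)
  have h3 := Subgroup.nat_card_centralizer_nat_card_stabilizer x
  have h4 : (MulAction.stabilizer (ConjAct G) x).index = Nat.card (MulAction.orbit (ConjAct G) x) := by
    rw [MulAction.index_stabilizer]; exact (Nat.card_coe_set_eq _).symm
  rw [← h4]
  have hpos : 0 < Nat.card (Subgroup.centralizer ({x} : Set G)) := Nat.card_pos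
  apply Nat.eq_of_mul_eq_mul_left hpos
  have h7 : Nat.card (Subgroup.centralizer ({x} : Set G)) *
      (MulAction.stabilizer (ConjAct G) x).index = Nat.card G := by
    rw [h3]; exact h2
  exact h1.trans h7.symm

theorem cs_conj {G : Type*} [Group G] [Finite G] (g x : G) : cs (g * x * g⁻¹) = cs x := by
  rw [cs_eq_card, cs_eq_card]
  have h : ConjClasses.mk (g * x * g⁻¹) = ConjClasses.mk x :=
    ConjClasses.mk_eq_mk_iff_isConj.mpr (isConj_iff.mpr ⟨g⁻¹, by group⟩)
  rw [h]

theorem comm_mul_center_iff {G : Type*} [Group G] (x w k : G) (hw : w ∈ Subgroup.center G) :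
    x * w * k = k * (x * w) ↔ x * k = k * x := by
  have hwk : w * k = k * w := (Subgroup.mem_center_iff.mp hw k).symm
  constructor
  · intro h
    have h' : x * k * w = k * x * w := by
      calc x * k * w = x * w * k := by rw [mul_assoc, ← hwk, ← mul_assoc]
        _ = k * (x * w) := h
        _ = k * x * w := (mul_assoc _ _ _).symm
    exact mul_right_cancel h'
  · intro h
    calc x * w * k = x * (w * k) := mul_assoc _ _ _
      _ = x * (k * w) := by rw [hwk]
      _ = x * k * w := (mul_assoc _ _ _).symm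
      _ = k * x * w := by rw [h]
      _ = k * (x * w) := mul_assoc _ _ _

theorem cs_mul_center {G : Type*} [Group G] (x z : G) (hz : z ∈ Subgroup.center G) :
    cs (x * z) = cs x := by
  unfold cs
  have : Subgroup.centralizer ({x * z} : Set G) = Subgroup.centralizer ({x} : Set G) := by
    ext k
    rw [Subgroup.mem_centralizer_iff, Subgroup.mem_centralizer_iff]
    simp only [Set.mem_singleton_iff, forall_eq]
    exact comm_mul_center_iff x z k hz
  rw [this]

theorem cs_eq_one_iff {G : Type*} [Group G] (x : G) : cs x = 1 ↔ x ∈ Subgroup.center G := by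
  unfold cs
  simp only [Subgroup.index_eq_one, Subgroup.centralizer_eq_top_iff_subset,
    Set.singleton_subset_iff, SetLike.mem_coe]

theorem fiber_card {G : Type*} [Group G] [Finite G] (k : ℕ) :
    Nat.card {x : G // cs x = k} =
      Nat.card {C : ConjClasses G // Nat.card C.carrier = k} * k := by
  classical
  haveI : Fintype {C : ConjClasses G // Nat.card C.carrier = k} := Fintype.ofFinite _
  let e : {x : G // cs x = k} ≃
      Σ C : {C : ConjClasses G // Nat.card C.carrier = k}, ↥(C.1.carrier) :=
    { toFun := fun x => ⟨⟨ConjClasses.mk x.1, by rw [← cs_eq_card]; exact x.2⟩,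
        ⟨x.1, ConjClasses.mem_carrier_mk⟩⟩
      invFun := fun s => ⟨s.2.1, by
        have h1 := ConjClasses.mem_carrier_iff_mk_eq.mp s.2.2
        rw [cs_eq_card, h1]; exact s.1.2⟩
      left_inv := fun x => rfl
      right_inv := by
        rintro ⟨⟨C, hC⟩, ⟨x, hx⟩⟩
        obtain rfl := ConjClasses.mem_carrier_iff_mk_eq.mp hx
        rfl }
  rw [Nat.card_congr e, Nat.card_sigma]
  rw [Finset.sum_congr rfl (fun C _ => C.2)]
  rw [Finset.sum_const, Finset.card_univ, smul_eq_mul, Nat.card_eq_fintype_card]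

theorem exists_equiv {G H : Type*} [Group G] [Finite G] [Group H] [Finite H]
    (h : ∀ k : ℕ, Nat.card {C : ConjClasses G // Nat.card C.carrier = k} =
      Nat.card {C : ConjClasses H // Nat.card C.carrier = k}) :
    ∃ Θ : G ≃ H, ∀ x, cs (Θ x) = cs x := by
  have hk : ∀ k : ℕ, Nonempty ({x : G // cs x = k} ≃ {y : H // cs y = k}) := fun k =>
    Finite.card_eq.mp (by rw [fiber_card, fiber_card, h k])
  let e : ∀ k : ℕ, {x : G // cs x = k} ≃ {y : H // cs y = k} := fun k => Classical.choice (hk k)
  refine ⟨(Equiv.sigmaFiberEquiv (cs : G → ℕ)).symm.trans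
    ((Equiv.sigmaCongrRight e).trans (Equiv.sigmaFiberEquiv (cs : H → ℕ))), ?_⟩
  intro x
  exact (e (cs x) ⟨x, rfl⟩).2

theorem exists_sylow_le {G : Type*} [Group G] [Finite G] {p : ℕ} [Fact p.Prime] (K : Subgroup G)
    (hK : ¬ p ∣ K.index) : ∃ Q : Sylow p G, (Q : Subgroup G) ≤ K := by
  obtain ⟨P0⟩ : Nonempty (Sylow p K) := inferInstance
  have hidx : K.index ≠ 0 := fun h0 => hK (h0 ▸ dvd_zero p)
  have h3 : (Nat.card K).factorization p = (Nat.card G).factorization p := by
    rw [← K.card_mul_index, Nat.factorization_mul Nat.card_pos.ne' hidx, Finsupp.add_apply,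
      Nat.factorization_eq_zero_of_not_dvd hK, add_zero]
  have hc : Nat.card ((P0 : Subgroup K).map K.subtype) = p ^ (Nat.card G).factorization p := by
    rw [Subgroup.card_map_of_injective K.subtype_injective, ← h3]
    exact P0.card_eq_multiplicity
  refine ⟨Sylow.ofCard _ hc, ?_⟩
  rw [Sylow.coe_ofCard]
  exact Subgroup.map_subtype_le _

theorem pgroup_le_of_normalizes {G : Type*} [Group G] [Finite G] {p : ℕ} [Fact p.Prime]
    {P K : Subgroup G} (hP : IsPGroup p P) (hN : P ≤ Subgroup.normalizer (K : Set G))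
    (hK : ¬ p ∣ K.index) : P ≤ K := by
  have hp : p.Prime := Fact.out
  intro g hg
  have hgN : g ∈ Subgroup.normalizer (K : Set G) := hN hg
  obtain ⟨n, hn⟩ := hP ⟨g, hg⟩
  have hgn : g ^ p ^ n = 1 := by
    have := congrArg Subtype.val hn
    simpa using this
  have h1 : ((⟨g, hgN⟩ : Subgroup.normalizer (K : Set G)) :
      Subgroup.normalizer (K : Set G) ⧸ K.subgroupOf (Subgroup.normalizer (K : Set G))) ^ p ^ n
        = 1 := by
    rw [← QuotientGroup.mk_pow]
    have : (⟨g, hgN⟩ : Subgroup.normalizer (K : Set G)) ^ p ^ n = 1 := Subtype.ext (by simpa using hgn)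
    rw [this]; rfl
  have h2 := orderOf_dvd_of_pow_eq_one h1
  have h3 : orderOf ((⟨g, hgN⟩ : Subgroup.normalizer (K : Set G)) :
      Subgroup.normalizer (K : Set G) ⧸ K.subgroupOf (Subgroup.normalizer (K : Set G)))
        ∣ K.index := by
    have a1 := orderOf_dvd_natCard ((⟨g, hgN⟩ : Subgroup.normalizer (K : Set G)) :
      Subgroup.normalizer (K : Set G) ⧸ K.subgroupOf (Subgroup.normalizer (K : Set G)))
    have a2 : Nat.card (Subgroup.normalizer (K : Set G) ⧸
        K.subgroupOf (Subgroup.normalizer (K : Set G))) ∣ K.index :=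
      Subgroup.relIndex_dvd_index_of_le Subgroup.le_normalizer
    exact a1.trans a2
  have hcop : Nat.gcd (p ^ n) K.index = 1 :=
    Nat.Coprime.pow_left n ((Nat.Prime.coprime_iff_not_dvd hp).mpr hK)
  have h4 : orderOf ((⟨g, hgN⟩ : Subgroup.normalizer (K : Set G)) :
      Subgroup.normalizer (K : Set G) ⧸ K.subgroupOf (Subgroup.normalizer (K : Set G))) = 1 := by
    have := Nat.dvd_gcd h2 h3
    rw [hcop] at this
    exact Nat.dvd_one.mp this
  have h5 := orderOf_eq_one_iff.mp h4
  have h6 := (QuotientGroup.eq_one_iff _).mp h5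
  exact Subgroup.mem_subgroupOf.mp h6

theorem mem_normalizer_centralizer {G : Type*} [Group G] (g x : G)
    (h : x⁻¹ * (g * x * g⁻¹) ∈ Subgroup.center G) :
    g ∈ Subgroup.normalizer ((Subgroup.centralizer ({x} : Set G) : Subgroup G) : Set G) := by
  rw [Subgroup.mem_normalizer_iff'']
  intro k
  rw [Subgroup.mem_centralizer_iff, Subgroup.mem_centralizer_iff]
  simp only [Set.mem_singleton_iff, forall_eq]
  have e1 : x * (g⁻¹ * k * g) = g⁻¹ * (x * (x⁻¹ * (g * x * g⁻¹)) * k) * g := by group
  have e2 : g⁻¹ * k * g * x = g⁻¹ * (k * (x * (x⁻¹ * (g * x * g⁻¹)))) * g := by group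
  rw [e1, e2, mul_left_inj, mul_right_inj]
  exact (comm_mul_center_iff x _ k h).symm

theorem card_fixed_conj {Γ Q : Type*} [Group Γ] [Group Q] [Finite Q] {p : ℕ} [Fact p.Prime]
    (hΓ : IsPGroup p Γ) (f : Γ →* Q) (S : Set Q)
    (hS : ∀ g : Γ, ∀ y ∈ S, f g * y * (f g)⁻¹ ∈ S) :
    Nat.card S ≡ Nat.card {y : Q // y ∈ S ∧ ∀ g : Γ, f g * y * (f g)⁻¹ = y} [MOD p] := by
  letI act : MulAction Γ ↥S :=
    { smul := fun g y => ⟨f g * y.1 * (f g)⁻¹, hS g y.1 y.2⟩
      one_smul := fun y => Subtype.ext (by
        show f 1 * y.1 * (f 1)⁻¹ = y.1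
        simp)
      mul_smul := fun g g' y => Subtype.ext (by
        show f (g * g') * y.1 * (f (g * g'))⁻¹ = f g * (f g' * y.1 * (f g')⁻¹) * (f g)⁻¹
        simp [mul_assoc]) }
  have h1 := hΓ.card_modEq_card_fixedPoints ↥S
  have h2 : Nat.card (MulAction.fixedPoints Γ ↥S) =
      Nat.card {y : Q // y ∈ S ∧ ∀ g : Γ, f g * y * (f g)⁻¹ = y} := by
    apply Nat.card_congr
    exact
      { toFun := fun y => ⟨y.1.1, y.1.2, fun g => congrArg Subtype.val (y.2 g)⟩
        invFun := fun y => ⟨⟨y.1, y.2.1⟩, fun g => Subtype.ext (y.2.2 g)⟩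
        left_inv := fun y => rfl
        right_inv := fun y => rfl }
  rw [← h2]; exact h1

theorem card_diff_add {α : Type*} [Finite α] (s t : Set α) (h : s ⊆ t) :
    Nat.card ↥(t \ s) + Nat.card ↥s = Nat.card ↥t := by
  rw [Nat.card_coe_set_eq, Nat.card_coe_set_eq, Nat.card_coe_set_eq]
  exact Set.ncard_sdiff_add_ncard_of_subset h

theorem arith_A (p : ℕ) (hp : p.Prime) (h c z j : ℕ) (hc : c ≠ 0) (hh : c * p ^ j = h)
    (hv : c.factorization p = z.factorization p) :
    c = p ^ z.factorization p * (h / p ^ h.factorization p) := by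
  have hCm : p ^ c.factorization p * (c / p ^ c.factorization p) = c :=
    Nat.ordProj_mul_ordCompl_eq_self c p
  have hpm : ¬ p ∣ c / p ^ c.factorization p := Nat.not_dvd_ordCompl hp hc
  have hm0 : c / p ^ c.factorization p ≠ 0 := fun h0 => hpm (h0 ▸ dvd_zero p)
  have hH : h = p ^ (c.factorization p + j) * (c / p ^ c.factorization p) := by
    rw [← hh]
    calc c * p ^ j = (p ^ c.factorization p * (c / p ^ c.factorization p)) * p ^ j := by rw [hCm]
      _ = p ^ (c.factorization p + j) * (c / p ^ c.factorization p) := by rw [pow_add]; ring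
  have hva : h.factorization p = c.factorization p + j := by
    rw [hH, Nat.factorization_mul (pow_ne_zero _ hp.ne_zero) hm0, Finsupp.add_apply,
      hp.factorization_pow, Finsupp.single_eq_same, Nat.factorization_eq_zero_of_not_dvd hpm,
      add_zero]
  have hdiv : h / p ^ (c.factorization p + j) = c / p ^ c.factorization p := by
    rw [hH]
    exact Nat.mul_div_cancel_left _ (pow_pos hp.pos _)
  rw [hva, hdiv, ← hv]
  exact hCm.symm

theorem arith_B1 (p : ℕ) (hp : p.Prime) (e z ebar n' : ℕ) (h1 : e = z * ebar)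
    (h2 : e = p ^ z.factorization p * n') (hn : ¬ p ∣ n') : ¬ p ∣ ebar := by
  intro hd
  apply hn
  have hz : p ^ z.factorization p * (z / p ^ z.factorization p) = z :=
    Nat.ordProj_mul_ordCompl_eq_self z p
  have h3 : p ^ z.factorization p * ((z / p ^ z.factorization p) * ebar) =
      p ^ z.factorization p * n' := by
    rw [← mul_assoc, hz, ← h1]; exact h2
  have h4 := Nat.eq_of_mul_eq_mul_left (pow_pos hp.pos _) h3
  rw [← h4]
  exact Dvd.dvd.mul_left hd _

theorem arith_B2 (p : ℕ) (hp : p.Prime) {a nn s g n' c z c' : ℕ} (hN : nn * s = g)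
    (hg : g = p ^ a * n') (hQ : p ^ a ∣ nn) (hC : c ∣ nn) (hc : c = z * c') (hpc : ¬ p ∣ c')
    (hz : z ≠ 0) (hnn : nn ≠ 0) : s * c ≤ p ^ z.factorization p * n' := by
  obtain ⟨z', hzz, hpz⟩ : ∃ z', p ^ z.factorization p * z' = z ∧ ¬ p ∣ z' :=
    ⟨_, Nat.ordProj_mul_ordCompl_eq_self z p, Nat.not_dvd_ordCompl hp hz⟩
  have hpm : ¬ p ∣ z' * c' := fun h => (hp.dvd_mul.mp h).elim hpz hpc
  have hcm : c = p ^ z.factorization p * (z' * c') := by
    rw [hc]
    calc z * c' = (p ^ z.factorization p * z') * c' := by rw [hzz]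
      _ = p ^ z.factorization p * (z' * c') := mul_assoc _ _ _
  have hmn : z' * c' ∣ nn := (Dvd.intro_left _ hcm.symm).trans hC
  have hcop : Nat.Coprime (p ^ a) (z' * c') :=
    Nat.Coprime.pow_left a ((Nat.Prime.coprime_iff_not_dvd hp).mpr hpm)
  obtain ⟨t, ht⟩ := hcop.mul_dvd_of_dvd_of_dvd hQ hmn
  have ht0 : 1 ≤ t := by
    rcases Nat.eq_zero_or_pos t with h0 | h0
    · rw [h0, mul_zero] at ht; exact absurd ht hnn
    · exact h0
  have h3 : p ^ a * (z' * c' * t * s) = p ^ a * n' := by
    rw [← hg, ← hN, ht]; ring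
  have h4 : z' * c' * t * s = n' := Nat.eq_of_mul_eq_mul_left (pow_pos hp.pos _) h3
  calc s * c = p ^ z.factorization p * (z' * c' * 1 * s) := by rw [hcm]; ring
    _ ≤ p ^ z.factorization p * (z' * c' * t * s) := by gcongr
    _ = p ^ z.factorization p * n' := by rw [h4]

/-- elements whose class size is prime to `p` -/
abbrev Eset (G : Type*) [Group G] (p : ℕ) : Set G := {x | ¬ p ∣ cs x}

/-- image of `Eset` in the central quotient -/
abbrev Ebar (G : Type*) [Group G] (p : ℕ) : Set (G ⧸ Subgroup.center G) :=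
  (QuotientGroup.mk : G → G ⧸ Subgroup.center G) '' Eset G p

theorem center_subset_Eset {G : Type*} [Group G] {p : ℕ} [Fact p.Prime] :
    ((Subgroup.center G : Subgroup G) : Set G) ⊆ Eset G p := by
  intro x hx
  show ¬ p ∣ cs x
  rw [(cs_eq_one_iff x).mpr hx]
  exact (Fact.out : p.Prime).not_dvd_one

theorem le_centralizer_singleton {G : Type*} [Group G] (Q : Subgroup G) (x : G)
    (hx : x ∈ Subgroup.centralizer (Q : Set G)) :
    Q ≤ Subgroup.centralizer ({x} : Set G) := by
  intro h hh
  rw [Subgroup.mem_centralizer_iff]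
  intro y hy
  rw [Set.mem_singleton_iff] at hy
  rw [hy]
  exact (Subgroup.mem_centralizer_iff.mp hx h hh).symm

theorem mem_centralizer_of_le {G : Type*} [Group G] (Q : Subgroup G) (x : G)
    (hle : Q ≤ Subgroup.centralizer ({x} : Set G)) :
    x ∈ Subgroup.centralizer (Q : Set G) := by
  rw [Subgroup.mem_centralizer_iff]
  intro h hh
  exact (Subgroup.mem_centralizer_iff.mp (hle hh) x rfl).symm

theorem centralizer_subset_Eset {G : Type*} [Group G] [Finite G] {p : ℕ} [Fact p.Prime]
    (Q : Sylow p G) :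
    ((Subgroup.centralizer ((Q : Subgroup G) : Set G) : Subgroup G) : Set G) ⊆ Eset G p := by
  intro x hx
  show ¬ p ∣ cs x
  intro hdvd
  have hle := le_centralizer_singleton (Q : Subgroup G) x hx
  exact Q.not_dvd_index (hdvd.trans (Subgroup.index_dvd_of_le hle))

theorem key1 {G : Type*} [Group G] [Finite G] {p : ℕ} [Fact p.Prime]
    (hE : Nat.card (Eset G p) = p ^ (Nat.card (Subgroup.center G)).factorization p *
      (Nat.card G / p ^ (Nat.card G).factorization p))
    (Q : Sylow p G) :
    ∃ c' : ℕ, Nat.card (Subgroup.centralizer ((Q : Subgroup G) : Set G)) =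
      Nat.card (Subgroup.center G) * c' ∧ ¬ p ∣ c' := by
  have hp : p.Prime := Fact.out
  have hpre : (QuotientGroup.mk : G → G ⧸ Subgroup.center G) ⁻¹' Ebar G p = Eset G p := by
    ext x
    constructor
    · rintro ⟨e, he, hex⟩
      have h1 : e⁻¹ * x ∈ Subgroup.center G := QuotientGroup.eq.mp hex
      have hx : x = e * (e⁻¹ * x) := by group
      show ¬ p ∣ cs x
      rw [hx, cs_mul_center _ _ h1]
      exact he
    · intro hx
      exact ⟨x, hx, rfl⟩
  have hcardE : Nat.card (Eset G p) = Nat.card (Subgroup.center G) * Nat.card (Ebar G p) := by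
    have h := QuotientGroup.card_preimage_mk (Subgroup.center G) (Ebar G p)
    rw [hpre] at h
    exact h
  have hn' : ¬ p ∣ Nat.card G / p ^ (Nat.card G).factorization p :=
    Nat.not_dvd_ordCompl hp Nat.card_pos.ne'
  have hpEbar : ¬ p ∣ Nat.card (Ebar G p) := arith_B1 p hp _ _ _ _ hcardE hE hn'
  obtain ⟨f, hf⟩ : ∃ f : ↥(Q : Subgroup G) →* G ⧸ Subgroup.center G,
      ∀ g, f g = QuotientGroup.mk (g : G) :=
    ⟨(QuotientGroup.mk' _).comp (Q : Subgroup G).subtype, fun g => rfl⟩
  have hS : ∀ g : ↥(Q : Subgroup G), ∀ y ∈ Ebar G p, f g * y * (f g)⁻¹ ∈ Ebar G p := by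
    rintro g _ ⟨e, he, rfl⟩
    rw [hf]
    refine ⟨(g : G) * e * (g : G)⁻¹, ?_, rfl⟩
    show ¬ p ∣ cs ((g : G) * e * (g : G)⁻¹)
    rw [cs_conj]
    exact he
  have hmod := card_fixed_conj Q.isPGroup' f (Ebar G p) hS
  have hF : {y : G ⧸ Subgroup.center G | y ∈ Ebar G p ∧
        ∀ g : ↥(Q : Subgroup G), f g * y * (f g)⁻¹ = y} =
      (((Subgroup.centralizer ((Q : Subgroup G) : Set G)).map
        (QuotientGroup.mk' (Subgroup.center G)) : Subgroup (G ⧸ Subgroup.center G)) :
          Set (G ⧸ Subgroup.center G)) := by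
    ext y
    constructor
    · rintro ⟨⟨x, hxE, rfl⟩, hfix⟩
      have hle : (Q : Subgroup G) ≤ Subgroup.centralizer ({x} : Set G) := by
        refine pgroup_le_of_normalizes Q.isPGroup' ?_ hxE
        intro g hg
        apply mem_normalizer_centralizer
        have h0 := hfix ⟨g, hg⟩
        rw [hf] at h0
        have h1 : (QuotientGroup.mk (g * x * g⁻¹) : G ⧸ Subgroup.center G) =
            QuotientGroup.mk x := h0
        exact QuotientGroup.eq.mp h1.symm
      exact Subgroup.mem_map.mpr ⟨x, mem_centralizer_of_le _ x hle, rfl⟩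
    · intro hy
      obtain ⟨x, hxC, rfl⟩ := Subgroup.mem_map.mp hy
      refine ⟨⟨x, centralizer_subset_Eset Q hxC, rfl⟩, ?_⟩
      intro g
      have h1 : (g : G) * x * (g : G)⁻¹ = x := by
        rw [Subgroup.mem_centralizer_iff.mp hxC g g.2, mul_inv_cancel_right]
      rw [hf]
      show (QuotientGroup.mk ((g : G) * x * (g : G)⁻¹) : G ⧸ Subgroup.center G) =
        QuotientGroup.mk x
      rw [h1]
  have hFc : Nat.card {y : G ⧸ Subgroup.center G // y ∈ Ebar G p ∧
        ∀ g : ↥(Q : Subgroup G), f g * y * (f g)⁻¹ = y} =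
      Nat.card ((Subgroup.centralizer ((Q : Subgroup G) : Set G)).map
        (QuotientGroup.mk' (Subgroup.center G))) := by
    show Nat.card ↥{y : G ⧸ Subgroup.center G | y ∈ Ebar G p ∧
        ∀ g : ↥(Q : Subgroup G), f g * y * (f g)⁻¹ = y} =
      Nat.card ↥(((Subgroup.centralizer ((Q : Subgroup G) : Set G)).map
        (QuotientGroup.mk' (Subgroup.center G)) : Subgroup (G ⧸ Subgroup.center G)) :
          Set (G ⧸ Subgroup.center G))
    rw [hF]
  refine ⟨Nat.card ((Subgroup.centralizer ((Q : Subgroup G) : Set G)).map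
        (QuotientGroup.mk' (Subgroup.center G))), ?_, ?_⟩
  · have hcm : ((Subgroup.centralizer ((Q : Subgroup G) : Set G)).map
        (QuotientGroup.mk' (Subgroup.center G))).comap (QuotientGroup.mk' (Subgroup.center G)) =
          Subgroup.centralizer ((Q : Subgroup G) : Set G) := by
      apply Subgroup.comap_map_eq_self
      rw [QuotientGroup.ker_mk']
      exact Subgroup.center_le_centralizer _
    have h2 := QuotientGroup.card_preimage_mk (Subgroup.center G)
      (((Subgroup.centralizer ((Q : Subgroup G) : Set G)).map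
        (QuotientGroup.mk' (Subgroup.center G)) : Subgroup (G ⧸ Subgroup.center G)) :
          Set (G ⧸ Subgroup.center G))
    have h3 : (QuotientGroup.mk : G → G ⧸ Subgroup.center G) ⁻¹'
        (((Subgroup.centralizer ((Q : Subgroup G) : Set G)).map
        (QuotientGroup.mk' (Subgroup.center G)) : Subgroup (G ⧸ Subgroup.center G)) :
          Set (G ⧸ Subgroup.center G)) =
        ((Subgroup.centralizer ((Q : Subgroup G) : Set G) : Subgroup G) : Set G) := by
      ext x
      constructor
      · intro hx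
        have : x ∈ ((Subgroup.centralizer ((Q : Subgroup G) : Set G)).map
          (QuotientGroup.mk' (Subgroup.center G))).comap
            (QuotientGroup.mk' (Subgroup.center G)) := hx
        rwa [hcm] at this
      · intro hx
        exact Subgroup.mem_map_of_mem _ hx
    rw [h3] at h2
    exact h2
  · rw [← hFc]
    exact fun hd => hpEbar ((Nat.ModEq.dvd_iff hmod (dvd_refl p)).mpr hd)

theorem key2 {G : Type*} [Group G] [Finite G] {p : ℕ} [Fact p.Prime]
    (hE : Nat.card (Eset G p) = p ^ (Nat.card (Subgroup.center G)).factorization p *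
      (Nat.card G / p ^ (Nat.card G).factorization p))
    (Q : Sylow p G) :
    Nat.card (Sylow p G) * Nat.card (Subgroup.centralizer ((Q : Subgroup G) : Set G)) ≤
      Nat.card (Eset G p) := by
  have hp : p.Prime := Fact.out
  obtain ⟨c', hc, hpc⟩ := key1 hE Q
  have hs : Nat.card (Sylow p G) =
      (Subgroup.normalizer ((Q : Subgroup G) : Set G)).index := Q.card_eq_index_normalizer
  rw [hE, hs]
  refine arith_B2 p hp (Subgroup.card_mul_index _)
    (Nat.ordProj_mul_ordCompl_eq_self _ p).symm ?_ ?_ hc hpc Nat.card_pos.ne' Nat.card_pos.ne'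
  · have h1 : Nat.card (Q : Subgroup G) = p ^ (Nat.card G).factorization p :=
      Q.card_eq_multiplicity
    rw [← h1]
    exact Subgroup.card_dvd_of_le Subgroup.le_normalizer
  · exact Subgroup.card_dvd_of_le (Subgroup.centralizer_le_normalizer _)

theorem sylow_normal_of_count {G : Type*} [Group G] [Finite G] {p : ℕ} [Fact p.Prime]
    (hE : Nat.card (Eset G p) = p ^ (Nat.card (Subgroup.center G)).factorization p *
      (Nat.card G / p ^ (Nat.card G).factorization p))
    (P : Sylow p G) : (P : Subgroup G).Normal := by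
  classical
  haveI : Fintype (Sylow p G) := Fintype.ofFinite _
  have hcov : ∀ x : {x : G // x ∈ Eset G p \ ((Subgroup.center G : Subgroup G) : Set G)},
      ∃ Q : Sylow p G, (x : G) ∈
        ((Subgroup.centralizer ((Q : Subgroup G) : Set G) : Subgroup G) : Set G) \
          ((Subgroup.center G : Subgroup G) : Set G) := by
    rintro ⟨x, hxE, hxZ⟩
    obtain ⟨Q, hQ⟩ := exists_sylow_le (Subgroup.centralizer ({x} : Set G)) hxE
    exact ⟨Q, mem_centralizer_of_le _ x hQ, hxZ⟩
  choose Qf hQf using hcov
  have hφ : Function.Injective (fun x : {x : G // x ∈ Eset G p \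
      ((Subgroup.center G : Subgroup G) : Set G)} =>
      (⟨Qf x, ⟨(x : G), hQf x⟩⟩ : Σ Q : Sylow p G,
        ↥(((Subgroup.centralizer ((Q : Subgroup G) : Set G) : Subgroup G) : Set G) \
          ((Subgroup.center G : Subgroup G) : Set G)))) := by
    intro x y hxy
    have h1 := congrArg (fun s : (Σ Q : Sylow p G,
        ↥(((Subgroup.centralizer ((Q : Subgroup G) : Set G) : Subgroup G) : Set G) \
          ((Subgroup.center G : Subgroup G) : Set G))) => (s.2 : G)) hxy
    exact Subtype.ext h1
  have h1 := Nat.card_le_card_of_injective _ hφ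
  rw [Nat.card_sigma] at h1
  have hd : ∀ Q : Sylow p G,
      Nat.card ↥(((Subgroup.centralizer ((Q : Subgroup G) : Set G) : Subgroup G) : Set G) \
          ((Subgroup.center G : Subgroup G) : Set G)) + Nat.card (Subgroup.center G) =
        Nat.card (Subgroup.centralizer ((Q : Subgroup G) : Set G)) := fun Q =>
    card_diff_add _ _ (Subgroup.center_le_centralizer _)
  have he : Nat.card ↥(Eset G p \ ((Subgroup.center G : Subgroup G) : Set G)) +
      Nat.card (Subgroup.center G) = Nat.card (Eset G p) :=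
    card_diff_add _ _ center_subset_Eset
  have hsum : ∑ Q : Sylow p G, Nat.card (Sylow p G) *
      (Nat.card ↥(((Subgroup.centralizer ((Q : Subgroup G) : Set G) : Subgroup G) : Set G) \
          ((Subgroup.center G : Subgroup G) : Set G)) + Nat.card (Subgroup.center G)) ≤
      ∑ _Q : Sylow p G, Nat.card (Eset G p) := by
    apply Finset.sum_le_sum
    intro Q _
    rw [hd Q]
    exact key2 hE Q
  have hs' : Fintype.card (Sylow p G) = Nat.card (Sylow p G) := Nat.card_eq_fintype_card.symm
  have hL : ∑ Q : Sylow p G, Nat.card (Sylow p G) *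
      (Nat.card ↥(((Subgroup.centralizer ((Q : Subgroup G) : Set G) : Subgroup G) : Set G) \
          ((Subgroup.center G : Subgroup G) : Set G)) + Nat.card (Subgroup.center G)) =
      Nat.card (Sylow p G) * ((∑ Q : Sylow p G,
        Nat.card ↥(((Subgroup.centralizer ((Q : Subgroup G) : Set G) : Subgroup G) : Set G) \
          ((Subgroup.center G : Subgroup G) : Set G))) +
        Nat.card (Sylow p G) * Nat.card (Subgroup.center G)) := by
    rw [← Finset.mul_sum, Finset.sum_add_distrib, Finset.sum_const, Finset.card_univ, hs',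
      smul_eq_mul]
  have hR : ∑ _Q : Sylow p G, Nat.card (Eset G p) =
      Nat.card (Sylow p G) * Nat.card (Eset G p) := by
    rw [Finset.sum_const, Finset.card_univ, hs', smul_eq_mul]
  rw [hL, hR] at hsum
  have hspos : 0 < Nat.card (Sylow p G) := Nat.card_pos
  have hzpos : 0 < Nat.card (Subgroup.center G) := Nat.card_pos
  have h2 := Nat.le_of_mul_le_mul_left hsum hspos
  have h3 : Nat.card (Sylow p G) * Nat.card (Subgroup.center G) ≤
      1 * Nat.card (Subgroup.center G) := by
    rw [one_mul]
    linarith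
  have h4 : Nat.card (Sylow p G) ≤ 1 := Nat.le_of_mul_le_mul_right h3 hzpos
  haveI : Subsingleton (Sylow p G) := Finite.card_le_one_iff_subsingleton.mp h4
  exact Sylow.normal_of_subsingleton P

theorem count_of_nilpotent {H : Type*} [Group H] [Finite H] (hH : Group.IsNilpotent H)
    (p : ℕ) [Fact p.Prime] :
    Nat.card (Eset H p) = p ^ (Nat.card (Subgroup.center H)).factorization p *
      (Nat.card H / p ^ (Nat.card H).factorization p) := by
  have hp : p.Prime := Fact.out
  have hnorm : ∀ (q : ℕ) (_ : Fact q.Prime) (Q : Sylow q H), (Q : Subgroup H).Normal :=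
    ((Group.isNilpotent_of_finite_tfae (G := H)).out 0 3).mp hH
  obtain ⟨P⟩ : Nonempty (Sylow p H) := inferInstance
  have hPn : (P : Subgroup H).Normal := hnorm p inferInstance P
  have huniq : ∀ Q : Sylow p H, Q = P := by
    intro Q
    haveI := Sylow.unique_of_normal P hPn
    exact Subsingleton.elim _ _
  have hcomm : ∀ (q : ℕ) [Fact q.Prime], q ≠ p → ∀ Q : Sylow q H, ∀ a ∈ (P : Subgroup H),
      ∀ b ∈ (Q : Subgroup H), a * b = b * a := by
    intro q _ hqp Q a ha b hb
    exact Subgroup.commute_of_normal_of_disjoint _ _ hPn (hnorm q inferInstance Q)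
      (IsPGroup.disjoint_of_ne p q (Ne.symm hqp) _ _ P.isPGroup' Q.isPGroup') a b ha hb
  -- E = C
  have hEC : ∀ x : H, x ∈ Eset H p ↔ x ∈ Subgroup.centralizer ((P : Subgroup H) : Set H) := by
    intro x
    constructor
    · intro hx
      obtain ⟨Q, hQ⟩ := exists_sylow_le (Subgroup.centralizer ({x} : Set H)) hx
      rw [huniq Q] at hQ
      exact mem_centralizer_of_le _ x hQ
    · intro hx
      exact centralizer_subset_Eset P hx
  have hcardE : Nat.card (Eset H p) =
      Nat.card (Subgroup.centralizer ((P : Subgroup H) : Set H)) :=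
    Nat.card_congr (Equiv.subtypeEquivRight hEC)
  -- index of C is a power of p
  have hQC : ∀ (q : ℕ) [Fact q.Prime], q ≠ p → ∀ Q : Sylow q H,
      (Q : Subgroup H) ≤ Subgroup.centralizer ((P : Subgroup H) : Set H) := by
    intro q _ hqp Q b hb
    rw [Subgroup.mem_centralizer_iff]
    intro a ha
    exact hcomm q hqp Q a ha b hb
  have hidx : ∃ j, (Subgroup.centralizer ((P : Subgroup H) : Set H)).index = p ^ j := by
    have hne : (Subgroup.centralizer ((P : Subgroup H) : Set H)).index ≠ 0 :=
      Subgroup.index_ne_zero_of_finite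
    refine ⟨_, Nat.eq_prime_pow_of_unique_prime_dvd hne ?_⟩
    intro q hq hqd
    by_contra hqp
    haveI : Fact q.Prime := ⟨hq⟩
    obtain ⟨Q⟩ : Nonempty (Sylow q H) := inferInstance
    exact Q.not_dvd_index (hqd.trans (Subgroup.index_dvd_of_le (hQC q hqp Q)))
  -- p-elements of C are central
  have hpc : ∀ x ∈ Subgroup.centralizer ((P : Subgroup H) : Set H), ∀ k : ℕ, x ^ p ^ k = 1 →
      x ∈ Subgroup.center H := by
    intro x hxC k hk
    have hxP : x ∈ (P : Subgroup H) := by
      have hz : IsPGroup p (Subgroup.zpowers x) := by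
        rintro ⟨g, hg⟩
        obtain ⟨n, rfl⟩ := Subgroup.mem_zpowers_iff.mp hg
        refine ⟨k, Subtype.ext ?_⟩
        show (x ^ n) ^ p ^ k = 1
        rw [← zpow_natCast, ← zpow_mul, mul_comm, zpow_mul, zpow_natCast, hk, one_zpow]
      obtain ⟨Q, hQ⟩ := hz.exists_le_sylow
      rw [huniq Q] at hQ
      exact hQ (Subgroup.mem_zpowers x)
    have htop : Subgroup.centralizer ({x} : Set H) = ⊤ := by
      rw [← Subgroup.index_eq_one]
      by_contra hne
      obtain ⟨q, hq, hqd⟩ := Nat.exists_prime_and_dvd hne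
      haveI : Fact q.Prime := ⟨hq⟩
      by_cases hqp : q = p
      · have hle := le_centralizer_singleton (P : Subgroup H) x hxC
        rw [hqp] at hqd
        exact P.not_dvd_index (hqd.trans (Subgroup.index_dvd_of_le hle))
      · obtain ⟨Q⟩ : Nonempty (Sylow q H) := inferInstance
        have hle : (Q : Subgroup H) ≤ Subgroup.centralizer ({x} : Set H) := by
          intro b hb
          rw [Subgroup.mem_centralizer_iff]
          intro y hy
          rw [Set.mem_singleton_iff] at hy
          rw [hy]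
          exact hcomm q hqp Q x hxP b hb
        exact Q.not_dvd_index (hqd.trans (Subgroup.index_dvd_of_le hle))
    apply (cs_eq_one_iff x).mp
    unfold cs
    rw [htop]
    exact Subgroup.index_top
  -- p-parts of |C| and |Z| agree
  have hCpos : Nat.card (Subgroup.centralizer ((P : Subgroup H) : Set H)) ≠ 0 := Nat.card_pos.ne'
  have hZpos : Nat.card (Subgroup.center H) ≠ 0 := Nat.card_pos.ne'
  have hv1 : (Nat.card (Subgroup.centralizer ((P : Subgroup H) : Set H))).factorization p ≤
      (Nat.card (Subgroup.center H)).factorization p := by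
    obtain ⟨S⟩ : Nonempty (Sylow p (Subgroup.centralizer ((P : Subgroup H) : Set H))) :=
      inferInstance
    have hle : (S : Subgroup (Subgroup.centralizer ((P : Subgroup H) : Set H))).map
        (Subgroup.centralizer ((P : Subgroup H) : Set H)).subtype ≤ Subgroup.center H := by
      rintro _ ⟨c, hc, rfl⟩
      obtain ⟨k, hk⟩ := S.isPGroup' ⟨c, hc⟩
      have hk' : (c : H) ^ p ^ k = 1 := by
        have := congrArg Subtype.val (congrArg Subtype.val hk)
        simpa using this
      exact hpc (c : H) c.2 k hk'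
    have hdvd := Subgroup.card_dvd_of_le hle
    rw [Subgroup.card_map_of_injective (Subgroup.subtype_injective _)] at hdvd
    have hS : Nat.card (S : Subgroup (Subgroup.centralizer ((P : Subgroup H) : Set H))) =
        p ^ (Nat.card (Subgroup.centralizer ((P : Subgroup H) : Set H))).factorization p :=
      S.card_eq_multiplicity
    rw [hS] at hdvd
    exact (hp.pow_dvd_iff_le_factorization hZpos).mp hdvd
  have hv2 : (Nat.card (Subgroup.center H)).factorization p ≤
      (Nat.card (Subgroup.centralizer ((P : Subgroup H) : Set H))).factorization p := by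
    apply (hp.pow_dvd_iff_le_factorization hCpos).mp
    exact (Nat.ordProj_dvd _ p).trans
      (Subgroup.card_dvd_of_le (Subgroup.center_le_centralizer _))
  obtain ⟨j, hj⟩ := hidx
  rw [hcardE]
  refine arith_A p hp _ _ _ j hCpos ?_ (le_antisymm hv1 hv2)
  rw [← hj]
  exact Subgroup.card_mul_index _

end Cfsg.Agent.Helper26.CHM
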