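import Mathlib
import Cfsg.Agent.Helper26.FusSat

/-!
helper26: a saturated fusion system over a finite 2-group in which every element is conjugate
to an element of the centre lives over an abelian group.
-/

set_option autoImplicit false

namespace Cfsg.Agent.Helper26

open Cfsg Cfsg.FusionSystem

variable {Ω : Type*} [Group Ω] {S : Subgroup Ω}

theorem cen_zpowers_mem {x g : Ω} :
    g ∈ centralizerIn S (Subgroup.zpowers x) ↔ g ∈ S ∧ g * x = x * g := by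
  rw [mem_centralizerIn_iff]
  constructor
  · rintro ⟨hg, h⟩
    exact ⟨hg, (h x (Subgroup.mem_zpowers x)).symm⟩
  · rintro ⟨hg, h⟩
    refine ⟨hg, fun y hy => ?_⟩
    obtain ⟨n, rfl⟩ := Subgroup.mem_zpowers_iff.1 hy
    have hc : Commute g x := h
    exact (hc.zpow_right n).eq.symm

theorem ch_range_zpowers {x z : Ω} {φ : Subgroup.zpowers x →* Ω}
    (hφx : φ ⟨x, Subgroup.mem_zpowers x⟩ = z) : φ.range = Subgroup.zpowers z := by
  ext w
  constructor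
  · rintro ⟨⟨y, hy⟩, rfl⟩
    obtain ⟨n, hn⟩ := Subgroup.mem_zpowers_iff.1 hy
    have h1 : (⟨y, hy⟩ : Subgroup.zpowers x) = ⟨x, Subgroup.mem_zpowers x⟩ ^ n :=
      Subtype.ext (by rw [Subgroup.coe_zpow]; exact hn.symm)
    rw [h1, map_zpow, hφx]
    exact Subgroup.zpow_mem_zpowers z n
  · intro hw
    obtain ⟨n, rfl⟩ := Subgroup.mem_zpowers_iff.1 hw
    exact ⟨⟨x, Subgroup.mem_zpowers x⟩ ^ n, by rw [map_zpow, hφx]⟩

theorem ch_conj_central {z : Ω} (hz : z ∈ centralizerIn S S) {s w : Ω} (hs : s ∈ S)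
    (hw : w ∈ Subgroup.zpowers z) : s * w * s⁻¹ = w := by
  obtain ⟨n, rfl⟩ := Subgroup.mem_zpowers_iff.1 hw
  have hc : Commute s z := (mem_centralizerIn_iff.1 hz).2 s hs
  rw [(hc.zpow_right n).eq, mul_inv_cancel_right]

theorem ch_fullyNormalized [Finite S] (F : FusionSystem S) {z : Ω}
    (hz : z ∈ centralizerIn S S) : F.IsFullyNormalized (Subgroup.zpowers z) := by
  have hzS : z ∈ S := (mem_centralizerIn_iff.1 hz).1
  have hQS : Subgroup.zpowers z ≤ S := by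
    rw [Subgroup.zpowers_le]; exact hzS
  refine ⟨hQS, fun Q _ => ?_⟩
  have h1 : normalizerIn S (Subgroup.zpowers z) = S := by
    apply le_antisymm inf_le_left
    intro s hs
    refine mem_normalizerIn_iff.2 ⟨hs, fun y => ⟨fun hy => ?_, fun hy => ?_⟩⟩
    · rw [ch_conj_central hz hs hy]; exact hy
    · have h2 := ch_conj_central hz (S.inv_mem hs) hy
      have h3 : s⁻¹ * (s * y * s⁻¹) * s⁻¹⁻¹ = y := by group
      rw [h3] at h2
      rw [h2]; exact hy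
  rw [h1]
  exact Subgroup.card_le_of_le inf_le_left

/-- An `F`-map on `⟨x⟩` sending `x` to a central element extends to `C_S(x)`. -/
theorem ch_ext_central [Finite S] (hS : IsPGroup 2 S) (F : FusionSystem S) (hF : F.IsSaturated 2)
    {x z : Ω} (hz : z ∈ centralizerIn S S)
    {φ : Subgroup.zpowers x →* Ω} (hφ : φ ∈ F.Hom (Subgroup.zpowers x))
    (hφx : φ ⟨x, Subgroup.mem_zpowers x⟩ = z) :
    ∃ χ ∈ F.Hom (centralizerIn S (Subgroup.zpowers x)),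
      ∀ (y : Ω) (hy : y ∈ Subgroup.zpowers x) (hy' : y ∈ centralizerIn S (Subgroup.zpowers x)),
        χ ⟨y, hy'⟩ = φ ⟨y, hy⟩ := by
  have : Fact (Nat.Prime 2) := ⟨Nat.prime_two⟩
  have hrange := ch_range_zpowers hφx
  obtain ⟨-, -, hrec⟩ := sat_of_fullyNormalized hS F hF (ch_fullyNormalized F hz)
  obtain ⟨e, he, hex⟩ := exists_iso_of_hom F hφ hrange
  obtain ⟨χ, hχ, hχx⟩ := receptive_ext F hrec he
  have hle := centralizerIn_le_extender S (Subgroup.zpowers x)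
    ((Subgroup.zpowers z).subtype.comp e.toMonoidHom)
  refine ⟨χ.comp (Subgroup.inclusion hle), fs_restrict F hle hχ, ?_⟩
  intro y hy hy'
  have h3 := hχx ⟨y, hy⟩ (hle hy')
  have h4 := hex ⟨y, hy⟩
  show χ ⟨y, hle hy'⟩ = φ ⟨y, hy⟩
  rw [← h4]; exact h3

/-- `N_S(⟨x⟩) = C_S(x)` for every `x`. -/
theorem ch_norm_cyc [Finite S] (hS : IsPGroup 2 S) (F : FusionSystem S) (hF : F.IsSaturated 2)
    (h : ∀ x ∈ S, ∃ z ∈ centralizerIn S S, F.IsConjElt x z)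
    {x g : Ω} (hx : x ∈ S) (hg : g ∈ S) (hgx : g * x * g⁻¹ ∈ Subgroup.zpowers x) :
    g * x * g⁻¹ = x := by
  have : Fact (Nat.Prime 2) := ⟨Nat.prime_two⟩
  obtain ⟨z, hz, φ, hφ, hφx⟩ := h x hx
  have hPS : Subgroup.zpowers x ≤ S := by
    rw [Subgroup.zpowers_le]; exact hx
  have hQS : Subgroup.zpowers z ≤ S := by
    rw [Subgroup.zpowers_le]; exact (mem_centralizerIn_iff.1 hz).1
  have hfinP : Finite (Subgroup.zpowers x) := finite_of_le hPS
  have hgP : ∀ y : Subgroup.zpowers x, conjHom (Subgroup.zpowers x) g y ∈ Subgroup.zpowers x := by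
    rintro ⟨y, hy⟩
    obtain ⟨n, rfl⟩ := Subgroup.mem_zpowers_iff.1 hy
    show g * x ^ n * g⁻¹ ∈ Subgroup.zpowers x
    rw [← conj_zpow]
    exact Subgroup.zpow_mem _ hgx n
  obtain ⟨α, hα, hαx⟩ := exists_iso_of_hom_of_card F (F.conj_mem hPS hg) hgP le_rfl
  have hα' : ∀ y : Subgroup.zpowers x, ((α y : Subgroup.zpowers x) : Ω) = g * (y : Ω) * g⁻¹ :=
    fun y => hαx y
  obtain ⟨e, he, hex⟩ := exists_iso_of_hom F hφ (ch_range_zpowers hφx)
  obtain ⟨-, haut, -⟩ := sat_of_fullyNormalized hS F hF (ch_fullyNormalized F hz)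
  obtain ⟨β, hβdef⟩ : ∃ β : MulAut (Subgroup.zpowers z), β = e.symm.trans (α.trans e) := ⟨_, rfl⟩
  have hβ : IsIso F β := by
    rw [hβdef]; exact he.symm.trans (hα.trans he)
  have hβmem : β ∈ F.autGroup (Subgroup.zpowers z) := (mem_autGroup_iff F hQS β).2 hβ
  have hβap : ∀ w, β w = e (α (e.symm w)) := by
    intro w; rw [hβdef]; rfl
  have hpow : ∀ n : ℕ, ∀ w, (β ^ n) w = e ((α ^ n) (e.symm w)) := by
    intro n
    induction n with
    | zero => intro w; simp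
    | succ n ih =>
      intro w
      have h1 : (β ^ (n + 1)) w = (β ^ n) (β w) := by rw [pow_succ, MulAut.mul_apply]
      have h2 : (α ^ (n + 1)) (e.symm w) = (α ^ n) (α (e.symm w)) := by
        rw [pow_succ, MulAut.mul_apply]
      rw [h1, ih, h2, hβap, MulEquiv.symm_apply_apply]
  obtain ⟨k, hk⟩ := hS ⟨g, hg⟩
  have hgk : g ^ 2 ^ k = 1 := congrArg Subtype.val hk
  have hαk : α ^ 2 ^ k = 1 := by
    apply MulEquiv.ext
    intro y
    apply Subtype.ext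
    rw [autInducedBy_pow hα' (2 ^ k) y, hgk]
    simp
  have hβk : β ^ 2 ^ k = 1 := by
    apply MulEquiv.ext
    intro w
    rw [hpow, hαk]
    simp
  have hpg : IsPGroup 2 (Subgroup.zpowers β) := by
    obtain ⟨m, -, hm⟩ := (Nat.dvd_prime_pow Nat.prime_two).1 (orderOf_dvd_of_pow_eq_one hβk)
    exact IsPGroup.of_card (n := m) (by rw [Nat.card_zpowers, hm])
  obtain ⟨γ, -, hγc⟩ := fullyAutomized_conj F haut (Subgroup.zpowers β)
    (by rw [Subgroup.zpowers_le]; exact hβmem) hpg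
  have h5 := hγc β (Subgroup.mem_zpowers β)
  obtain ⟨s, hs, has⟩ := (mem_autInducedBy_iff S _ _).1 h5
  have h6 : γ * β * γ⁻¹ = 1 := by
    apply MulEquiv.ext
    intro w
    apply Subtype.ext
    exact (has w).trans (ch_conj_central hz hs w.2)
  have hβ1 : β = 1 := by
    have h7 : γ * β = γ := mul_inv_eq_one.1 h6
    have h8 := congrArg (fun t => γ⁻¹ * t) h7
    simpa using h8
  have h9 : e (α ⟨x, Subgroup.mem_zpowers x⟩) = e ⟨x, Subgroup.mem_zpowers x⟩ := by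
    have h10 := hβap (e ⟨x, Subgroup.mem_zpowers x⟩)
    rw [MulEquiv.symm_apply_apply, hβ1] at h10
    exact h10.symm
  have h11 := hα' ⟨x, Subgroup.mem_zpowers x⟩
  rw [e.injective h9] at h11
  exact h11.symm

/-- involutions commute -/
theorem ch_inv_comm [Finite S] (hS : IsPGroup 2 S) (F : FusionSystem S) (hF : F.IsSaturated 2)
    (h : ∀ x ∈ S, ∃ z ∈ centralizerIn S S, F.IsConjElt x z)
    {s t : Ω} (hs : s ∈ S) (ht : t ∈ S) (hs2 : s ^ 2 = 1) (ht2 : t ^ 2 = 1) : s * t = t * s := by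
  have hsi : s⁻¹ = s := inv_eq_of_mul_eq_one_right (by rw [← pow_two]; exact hs2)
  have hti : t⁻¹ = t := inv_eq_of_mul_eq_one_right (by rw [← pow_two]; exact ht2)
  have h1 : s * (s * t) * s⁻¹ = (s * t)⁻¹ := by
    rw [mul_inv_rev, hsi, hti, ← mul_assoc, ← pow_two, hs2, one_mul]
  have h2 := ch_norm_cyc hS F hF h (S.mul_mem hs ht) hs
    (by rw [h1]; exact Subgroup.inv_mem _ (Subgroup.mem_zpowers _))
  rw [h1, mul_inv_rev, hsi, hti] at h2
  exact h2.symm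

/-- `C_S` of the set of involutions of `S`. -/
def invCen (S : Subgroup Ω) : Subgroup Ω := S ⊓ Subgroup.centralizer {x | x ∈ S ∧ x ^ 2 = 1}

theorem mem_invCen {k : Ω} : k ∈ invCen S ↔ k ∈ S ∧ ∀ x ∈ S, x ^ 2 = 1 → x * k = k * x := by
  unfold invCen
  rw [Subgroup.mem_inf, Subgroup.mem_centralizer_iff]
  constructor
  · rintro ⟨hk, h⟩; exact ⟨hk, fun x hx hx2 => h x ⟨hx, hx2⟩⟩
  · rintro ⟨hk, h⟩; exact ⟨hk, fun x hx => h x hx.1 hx.2⟩

theorem invCen_le : invCen S ≤ S := inf_le_left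

/-- the centre of `invCen S` -/
def invCenZ (S : Subgroup Ω) : Subgroup Ω := invCen S ⊓ Subgroup.centralizer (invCen S : Set Ω)

theorem mem_invCenZ {m : Ω} : m ∈ invCenZ S ↔ m ∈ invCen S ∧ ∀ k ∈ invCen S, k * m = m * k := by
  unfold invCenZ
  rw [Subgroup.mem_inf, Subgroup.mem_centralizer_iff]
  exact Iff.rfl

theorem ch_inv_mem (hinv : ∀ s ∈ S, ∀ t ∈ S, s ^ 2 = 1 → t ^ 2 = 1 → s * t = t * s) {x : Ω}
    (hx : x ∈ S) (hx2 : x ^ 2 = 1) : x ∈ invCenZ S :=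
  mem_invCenZ.2 ⟨mem_invCen.2 ⟨hx, fun y hy hy2 => hinv y hy x hx hy2 hx2⟩,
    fun k hk => ((mem_invCen.1 hk).2 x hx hx2).symm⟩

theorem ch_zc_mem {z : Ω} (hz : z ∈ centralizerIn S S) : z ∈ invCenZ S := by
  obtain ⟨hzS, hzc⟩ := mem_centralizerIn_iff.1 hz
  exact mem_invCenZ.2 ⟨mem_invCen.2 ⟨hzS, fun y hy _ => hzc y hy⟩,
    fun k hk => hzc k (invCen_le hk)⟩

theorem ch_conj_aux {g x k : Ω} (h : (g⁻¹ * x * g) * k = k * (g⁻¹ * x * g)) :
    x * (g * k * g⁻¹) = g * k * g⁻¹ * x := by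
  calc x * (g * k * g⁻¹) = g * ((g⁻¹ * x * g) * k) * g⁻¹ := by group
    _ = g * (k * (g⁻¹ * x * g)) * g⁻¹ := by rw [h]
    _ = g * k * g⁻¹ * x := by group

theorem ch_conj_invCen {g k : Ω} (hg : g ∈ S) (hk : k ∈ invCen S) : g * k * g⁻¹ ∈ invCen S := by
  obtain ⟨hkS, hkc⟩ := mem_invCen.1 hk
  refine mem_invCen.2 ⟨S.mul_mem (S.mul_mem hg hkS) (S.inv_mem hg), fun x hx hx2 => ?_⟩
  apply ch_conj_aux
  apply hkc _ (S.mul_mem (S.mul_mem (S.inv_mem hg) hx) hg)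
  calc (g⁻¹ * x * g) ^ 2 = g⁻¹ * x ^ 2 * g := by rw [pow_two, pow_two]; group
    _ = 1 := by rw [hx2]; group

theorem ch_conj_invCenZ {g m : Ω} (hg : g ∈ S) (hm : m ∈ invCenZ S) :
    g * m * g⁻¹ ∈ invCenZ S := by
  obtain ⟨hmK, hmc⟩ := mem_invCenZ.1 hm
  refine mem_invCenZ.2 ⟨ch_conj_invCen hg hmK, fun k hk => ?_⟩
  apply ch_conj_aux
  have h1 := ch_conj_invCen (S.inv_mem hg) hk
  rw [inv_inv] at h1
  exact hmc _ h1

/-- Involutions which are `2^j`-th powers are `2^j`-th powers of elements of `Z(invCen S)`. -/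
theorem ch_sq_lift [Finite S] (hS : IsPGroup 2 S) (F : FusionSystem S) (hF : F.IsSaturated 2)
    (h : ∀ x ∈ S, ∃ z ∈ centralizerIn S S, F.IsConjElt x z)
    {g : Ω} (hg : g ∈ S) (j : ℕ) (hj : (g ^ 2 ^ j) ^ 2 = 1) :
    ∃ u ∈ invCenZ S, u ^ 2 ^ j = g ^ 2 ^ j := by
  have hinv : ∀ s ∈ S, ∀ t ∈ S, s ^ 2 = 1 → t ^ 2 = 1 → s * t = t * s :=
    fun s hs t ht hs2 ht2 => ch_inv_comm hS F hF h hs ht hs2 ht2
  have hinvK : ∀ x ∈ S, x ^ 2 = 1 → x ∈ invCen S := fun x hx hx2 =>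
    (mem_invCenZ.1 (ch_inv_mem hinv hx hx2)).1
  obtain ⟨z, hz, φ, hφ, hφg⟩ := h g hg
  obtain ⟨hzS, hzc⟩ := mem_centralizerIn_iff.1 hz
  obtain ⟨ι, hι⟩ : ∃ ι, ι = g ^ 2 ^ j := ⟨_, rfl⟩
  rw [← hι] at hj ⊢
  have hιS : ι ∈ S := by rw [hι]; exact S.pow_mem hg _
  have hle : Subgroup.zpowers ι ≤ Subgroup.zpowers g := by
    rw [Subgroup.zpowers_le, hι]; exact Subgroup.pow_mem _ (Subgroup.mem_zpowers g) _
  have hφ₁ : φ.comp (Subgroup.inclusion hle) ∈ F.Hom (Subgroup.zpowers ι) := fs_restrict F hle hφ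
  have hφ₁ι : (φ.comp (Subgroup.inclusion hle)) ⟨ι, Subgroup.mem_zpowers ι⟩ = z ^ 2 ^ j := by
    show φ ⟨ι, hle (Subgroup.mem_zpowers ι)⟩ = z ^ 2 ^ j
    have h1 : (⟨ι, hle (Subgroup.mem_zpowers ι)⟩ : Subgroup.zpowers g) =
        ⟨g, Subgroup.mem_zpowers g⟩ ^ 2 ^ j := Subtype.ext hι
    rw [h1, map_pow, hφg]
  obtain ⟨χ, hχ, hχι⟩ := ch_ext_central hS F hF (Subgroup.pow_mem _ hz (2 ^ j)) hφ₁ hφ₁ι
  have hKle : invCen S ≤ centralizerIn S (Subgroup.zpowers ι) := by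
    intro k hk
    obtain ⟨hkS, hkc⟩ := mem_invCen.1 hk
    exact cen_zpowers_mem.2 ⟨hkS, (hkc ι hιS hj).symm⟩
  have hfinK : Finite (invCen S) := finite_of_le invCen_le
  obtain ⟨ψ, hψdef⟩ : ∃ ψ : invCen S →* Ω, ψ = χ.comp (Subgroup.inclusion hKle) := ⟨_, rfl⟩
  have hψ : ψ ∈ F.Hom (invCen S) := by rw [hψdef]; exact fs_restrict F hKle hχ
  have hψinj := F.injective_of_mem hψ
  have hψS : ∀ k : invCen S, ψ k ∈ S := (F.le_of_mem hψ).2
  have hιK : ι ∈ invCen S := hinvK ι hιS hj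
  have hψι : ψ ⟨ι, hιK⟩ = z ^ 2 ^ j := by
    rw [hψdef]
    show χ ⟨ι, hKle hιK⟩ = z ^ 2 ^ j
    rw [hχι ι (Subgroup.mem_zpowers ι) (hKle hιK), hφ₁ι]
  have hψ2 : ∀ k : invCen S, k ^ 2 = 1 → (ψ k) ^ 2 = 1 := fun k hk => by
    rw [← map_pow, hk, map_one]
  have hsurjI : ∀ x ∈ S, x ^ 2 = 1 → ∃ y : invCen S, y ^ 2 = 1 ∧ ψ y = x := by
    have hf : Function.Injective (fun s : {k : invCen S // k ^ 2 = 1} =>
        (⟨⟨ψ s.1, hinvK _ (hψS s.1) (hψ2 s.1 s.2)⟩, Subtype.ext (hψ2 s.1 s.2)⟩ :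
          {k : invCen S // k ^ 2 = 1})) := by
      intro a b hab
      have h1 : ψ a.1 = ψ b.1 :=
        congrArg (fun t : {k : invCen S // k ^ 2 = 1} => ((t.1 : invCen S) : Ω)) hab
      exact Subtype.ext (hψinj h1)
    intro x hx hx2
    obtain ⟨s, hs⟩ := Finite.surjective_of_injective hf ⟨⟨x, hinvK x hx hx2⟩, Subtype.ext hx2⟩
    exact ⟨s.1, s.2, congrArg (fun t : {k : invCen S // k ^ 2 = 1} => ((t.1 : invCen S) : Ω)) hs⟩
  have hψK : ∀ k : invCen S, ψ k ∈ invCen S := by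
    intro k
    refine mem_invCen.2 ⟨hψS k, fun x hx hx2 => ?_⟩
    obtain ⟨y, hy2, rfl⟩ := hsurjI x hx hx2
    rw [← map_mul, ← map_mul]
    congr 1
    apply Subtype.ext
    have hy2' : (y : Ω) ^ 2 = 1 := congrArg Subtype.val hy2
    exact (mem_invCen.1 k.2).2 _ (invCen_le y.2) hy2'
  have hsurjK : ∀ w ∈ invCen S, ∃ k : invCen S, ψ k = w := by
    have hf : Function.Injective (fun k : invCen S => (⟨ψ k, hψK k⟩ : invCen S)) := by
      intro a b hab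
      exact hψinj (congrArg Subtype.val hab)
    intro w hw
    obtain ⟨k, hk⟩ := Finite.surjective_of_injective hf ⟨w, hw⟩
    exact ⟨k, congrArg Subtype.val hk⟩
  obtain ⟨u, hu⟩ := hsurjK z (mem_invCenZ.1 (ch_zc_mem hz)).1
  refine ⟨u, mem_invCenZ.2 ⟨u.2, fun k hk => ?_⟩, ?_⟩
  · have h1 : ψ (⟨k, hk⟩ * u) = ψ (u * ⟨k, hk⟩) := by
      rw [map_mul, map_mul, hu]
      exact hzc _ (hψS _)
    exact congrArg Subtype.val (hψinj h1)
  · have h1 : ψ (u ^ 2 ^ j) = ψ ⟨ι, hιK⟩ := by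
      rw [map_pow, hu, hψι]
    exact congrArg Subtype.val (hψinj h1)

theorem ch_e22 (a : Ω) : (a ^ 2) ^ 2 = a ^ 4 := by
  rw [← pow_mul]

theorem ch_delta_sq [Finite S] (hS : IsPGroup 2 S) (F : FusionSystem S) (hF : F.IsSaturated 2)
    (h : ∀ x ∈ S, ∃ z ∈ centralizerIn S S, F.IsConjElt x z)
    {g m : Ω} (hg : g ∈ S) (hm : m ∈ S) (hcm : g ^ 2 * m = m * g ^ 2) :
    (m⁻¹ * (g * m * g⁻¹)) ^ 2 = 1 := by
  have h1 : g * (m⁻¹ * (g * m * g⁻¹)) * g⁻¹ = (m⁻¹ * (g * m * g⁻¹))⁻¹ := by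
    calc g * (m⁻¹ * (g * m * g⁻¹)) * g⁻¹
        = (g * m * g⁻¹)⁻¹ * (g ^ 2 * m) * (g ^ 2)⁻¹ := by group
      _ = (g * m * g⁻¹)⁻¹ * (m * g ^ 2) * (g ^ 2)⁻¹ := by rw [hcm]
      _ = (m⁻¹ * (g * m * g⁻¹))⁻¹ := by group
  have hδS : m⁻¹ * (g * m * g⁻¹) ∈ S :=
    S.mul_mem (S.inv_mem hm) (S.mul_mem (S.mul_mem hg hm) (S.inv_mem hg))
  have h2 := ch_norm_cyc hS F hF h hδS hg
    (by rw [h1]; exact Subgroup.inv_mem _ (Subgroup.mem_zpowers _))
  rw [h1] at h2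
  obtain ⟨δ, hδ⟩ : ∃ δ, δ = m⁻¹ * (g * m * g⁻¹) := ⟨_, rfl⟩
  rw [← hδ] at h2 ⊢
  have h3 : δ * δ = δ⁻¹ * δ := by rw [h2]
  rw [pow_two, h3, inv_mul_cancel]

theorem ch_sq_mul_aux {g m : Ω} (hc2 : g ^ 2 * m = m * g ^ 2) :
    (g * m) ^ 2 = (g * m * g⁻¹) * m * g ^ 2 := by
  calc (g * m) ^ 2 = (g * m * g⁻¹) * (g ^ 2 * m) := by rw [pow_two, pow_two]; group
    _ = (g * m * g⁻¹) * (m * g ^ 2) := by rw [hc2]
    _ = (g * m * g⁻¹) * m * g ^ 2 := (mul_assoc _ _ _).symm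

theorem ch_pow_four_mul [Finite S] (hS : IsPGroup 2 S) (F : FusionSystem S) (hF : F.IsSaturated 2)
    (h : ∀ x ∈ S, ∃ z ∈ centralizerIn S S, F.IsConjElt x z)
    {g m : Ω} (hg : g ∈ S) (hg2 : g ^ 2 ∈ invCen S) (hm : m ∈ invCenZ S) :
    (g * m) ^ 2 = (g * m * g⁻¹) * m * g ^ 2 ∧ (g * m) ^ 4 = m ^ 4 * g ^ 4 := by
  have hmS : m ∈ S := invCen_le (mem_invCenZ.1 hm).1
  have hσ : g * m * g⁻¹ ∈ invCenZ S := ch_conj_invCenZ hg hm
  have hc2 : g ^ 2 * m = m * g ^ 2 := (mem_invCenZ.1 hm).2 _ hg2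
  have hc3 : g ^ 2 * (g * m * g⁻¹) = (g * m * g⁻¹) * g ^ 2 := (mem_invCenZ.1 hσ).2 _ hg2
  have hcm : (g * m * g⁻¹) * m = m * (g * m * g⁻¹) :=
    (mem_invCenZ.1 hm).2 _ (mem_invCenZ.1 hσ).1
  have hδ2 := ch_delta_sq hS F hF h hg hmS hc2
  have h1 := ch_sq_mul_aux hc2
  obtain ⟨σ, hσdef⟩ : ∃ σ, σ = g * m * g⁻¹ := ⟨_, rfl⟩
  rw [← hσdef] at hc3 hcm hδ2 h1 ⊢
  obtain ⟨δ, hδdef⟩ : ∃ δ, δ = m⁻¹ * σ := ⟨_, rfl⟩
  rw [← hδdef] at hδ2
  have hmσ : Commute m σ := hcm.symm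
  have hmδ : Commute m δ := by
    rw [hδdef]; exact ((Commute.refl m).inv_right).mul_right hmσ
  have hσm : σ * m = m ^ 2 * δ := by
    rw [hδdef, hcm]; group
  have h2 : (σ * m) ^ 2 = m ^ 4 := by
    rw [hσm, (hmδ.pow_left 2).mul_pow, hδ2, mul_one, ch_e22]
  have hc4 : Commute (σ * m) (g ^ 2) := by
    have a1 : Commute (g ^ 2) σ := hc3
    have a2 : Commute (g ^ 2) m := hc2
    exact (a1.mul_right a2).symm
  refine ⟨h1, ?_⟩
  calc (g * m) ^ 4 = ((g * m) ^ 2) ^ 2 := (ch_e22 _).symm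
    _ = (σ * m * g ^ 2) ^ 2 := by rw [h1]
    _ = (σ * m) ^ 2 * (g ^ 2) ^ 2 := hc4.mul_pow 2
    _ = m ^ 4 * g ^ 4 := by rw [h2, ch_e22]

/-- elements of `Z(invCen S)` of order dividing 4 -/
def invCenZ4 (S : Subgroup Ω) : Subgroup Ω where
  carrier := {m | m ∈ invCenZ S ∧ m ^ 4 = 1}
  one_mem' := ⟨Subgroup.one_mem _, one_pow 4⟩
  mul_mem' := by
    rintro a b ⟨ha, ha4⟩ ⟨hb, hb4⟩
    refine ⟨Subgroup.mul_mem _ ha hb, ?_⟩
    have hc : Commute a b := (mem_invCenZ.1 hb).2 a (mem_invCenZ.1 ha).1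
    rw [hc.mul_pow, ha4, hb4, one_mul]
  inv_mem' := by
    rintro a ⟨ha, ha4⟩
    exact ⟨Subgroup.inv_mem _ ha, by rw [inv_pow, ha4, inv_one]⟩

theorem mem_invCenZ4 {m : Ω} : m ∈ invCenZ4 S ↔ m ∈ invCenZ S ∧ m ^ 4 = 1 := Iff.rfl

theorem ch_nu_mem {g m : Ω} (hg : g ∈ S) (hm : m ∈ invCenZ4 S) :
    g * m * g⁻¹ * m ∈ invCenZ4 S := by
  obtain ⟨hm1, hm4⟩ := mem_invCenZ4.1 hm
  have hσ := ch_conj_invCenZ hg hm1
  refine mem_invCenZ4.2 ⟨Subgroup.mul_mem _ hσ hm1, ?_⟩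
  have hc : Commute (g * m * g⁻¹) m := (mem_invCenZ.1 hm1).2 _ (mem_invCenZ.1 hσ).1
  rw [hc.mul_pow, conj_pow, hm4]
  group

theorem ch_ker_le {G : Type*} [Group G] [Finite G] (f₁ f₂ : G →* G)
    (hk : f₁.ker ≤ f₂.ker) (hr : f₁.range ≤ f₂.range) : f₂.ker ≤ f₁.ker := by
  have h1 : Nat.card f₁.ker * Nat.card f₁.range = Nat.card G := by
    rw [← Subgroup.index_ker, Subgroup.card_mul_index]
  have h2 : Nat.card f₂.ker * Nat.card f₂.range = Nat.card G := by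
    rw [← Subgroup.index_ker, Subgroup.card_mul_index]
  have h3 : Nat.card f₁.range ≤ Nat.card f₂.range := Subgroup.card_le_of_le hr
  have h4 : 0 < Nat.card f₁.range := Nat.card_pos
  have h5 : Nat.card f₂.ker ≤ Nat.card f₁.ker := by
    by_contra hlt
    rw [not_le] at hlt
    have ha : Nat.card f₁.ker * Nat.card f₁.range < Nat.card f₂.ker * Nat.card f₁.range :=
      (Nat.mul_lt_mul_right h4).2 hlt
    have hb : Nat.card f₂.ker * Nat.card f₁.range ≤ Nat.card f₂.ker * Nat.card f₂.range :=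
      Nat.mul_le_mul_left _ h3
    linarith
  exact (Subgroup.eq_of_le_of_card_ge hk h5).ge

theorem ch_order_four [Finite S] (hS : IsPGroup 2 S) (F : FusionSystem S) (hF : F.IsSaturated 2)
    (h : ∀ x ∈ S, ∃ z ∈ centralizerIn S S, F.IsConjElt x z)
    {g : Ω} (hg : g ∈ S) (hg2 : g ^ 2 ∈ invCen S) (hg4 : g ^ 4 = 1) : g ∈ invCen S := by
  have hinv : ∀ s ∈ S, ∀ t ∈ S, s ^ 2 = 1 → t ^ 2 = 1 → s * t = t * s :=
    fun s hs t ht hs2 ht2 => ch_inv_comm hS F hF h hs ht hs2 ht2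
  have hle4 : invCenZ4 S ≤ S := fun m hm => invCen_le (mem_invCenZ.1 (mem_invCenZ4.1 hm).1).1
  have hfin : Finite (invCenZ4 S) := finite_of_le hle4
  obtain ⟨sq, hsq⟩ : ∃ sq : invCenZ4 S →* invCenZ4 S,
      ∀ m, ((sq m : invCenZ4 S) : Ω) = (m : Ω) ^ 2 :=
    ⟨MonoidHom.mk' (fun m => ⟨(m : Ω) ^ 2, Subgroup.pow_mem _ m.2 2⟩) (by
      intro a b
      apply Subtype.ext
      show ((a : Ω) * b) ^ 2 = (a : Ω) ^ 2 * (b : Ω) ^ 2
      have hc : Commute (a : Ω) b :=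
        (mem_invCenZ.1 (mem_invCenZ4.1 b.2).1).2 a (mem_invCenZ.1 (mem_invCenZ4.1 a.2).1).1
      exact hc.mul_pow 2), fun _ => rfl⟩
  obtain ⟨ν, hν⟩ : ∃ ν : invCenZ4 S →* invCenZ4 S,
      ∀ m, ((ν m : invCenZ4 S) : Ω) = g * (m : Ω) * g⁻¹ * m :=
    ⟨MonoidHom.mk' (fun m => ⟨g * (m : Ω) * g⁻¹ * m, ch_nu_mem hg m.2⟩) (by
      intro a b
      apply Subtype.ext
      show g * ((a : Ω) * b) * g⁻¹ * ((a : Ω) * b) =
        (g * (a : Ω) * g⁻¹ * a) * (g * (b : Ω) * g⁻¹ * b)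
      have hb1 := (mem_invCenZ4.1 b.2).1
      have ha1 := (mem_invCenZ4.1 a.2).1
      have hc : (g * (b : Ω) * g⁻¹) * a = a * (g * (b : Ω) * g⁻¹) :=
        (mem_invCenZ.1 ha1).2 _ (mem_invCenZ.1 (ch_conj_invCenZ hg hb1)).1
      calc g * ((a : Ω) * b) * g⁻¹ * ((a : Ω) * b)
          = g * a * g⁻¹ * ((g * b * g⁻¹) * a) * b := by group
        _ = g * a * g⁻¹ * (a * (g * b * g⁻¹)) * b := by rw [hc]
        _ = (g * (a : Ω) * g⁻¹ * a) * (g * (b : Ω) * g⁻¹ * b) := by group), fun _ => rfl⟩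
  obtain ⟨u₁, hu₁, hu₁2⟩ := ch_sq_lift hS F hF h hg 1 (by rw [pow_one, ch_e22]; exact hg4)
  rw [pow_one] at hu₁2
  have hu₁4 : u₁ ^ 4 = 1 := by rw [← ch_e22, hu₁2, ch_e22, hg4]
  have hrange : ν.range ≤ sq.range := by
    rintro _ ⟨m, rfl⟩
    obtain ⟨hm1, hm4⟩ := mem_invCenZ4.1 m.2
    obtain ⟨h1, h4⟩ := ch_pow_four_mul hS F hF h hg hg2 hm1
    have hgm4 : (g * (m : Ω)) ^ 4 = 1 := by rw [h4, hm4, hg4, one_mul]
    obtain ⟨u, hu, hu2⟩ := ch_sq_lift hS F hF h (S.mul_mem hg (hle4 m.2)) 1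
      (by rw [pow_one, ch_e22]; exact hgm4)
    rw [pow_one] at hu2
    have hu4 : u ^ 4 = 1 := by rw [← ch_e22, hu2, ch_e22, hgm4]
    have hcu : Commute u u₁⁻¹ :=
      (mem_invCenZ.1 (Subgroup.inv_mem _ hu₁)).2 u (mem_invCenZ.1 hu).1
    have hw : u * u₁⁻¹ ∈ invCenZ4 S := by
      refine mem_invCenZ4.2 ⟨Subgroup.mul_mem _ hu (Subgroup.inv_mem _ hu₁), ?_⟩
      rw [hcu.mul_pow, hu4, inv_pow, hu₁4, inv_one, one_mul]
    refine ⟨⟨u * u₁⁻¹, hw⟩, Subtype.ext ?_⟩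
    rw [hsq, hν]
    show (u * u₁⁻¹) ^ 2 = g * (m : Ω) * g⁻¹ * m
    rw [hcu.mul_pow, hu2, h1, inv_pow, hu₁2, mul_inv_cancel_right]
  have hker : ν.ker ≤ sq.ker := by
    intro m hm
    rw [MonoidHom.mem_ker] at hm ⊢
    have h1 : g * (m : Ω) * g⁻¹ * m = 1 := by
      have h0 := congrArg Subtype.val hm
      rw [hν] at h0
      exact h0
    have h2 : g * (m : Ω) * g⁻¹ = (m : Ω)⁻¹ := eq_inv_of_mul_eq_one_left h1
    have h3 := ch_norm_cyc hS F hF h (hle4 m.2) hg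
      (by rw [h2]; exact Subgroup.inv_mem _ (Subgroup.mem_zpowers _))
    rw [h2] at h3
    apply Subtype.ext
    rw [hsq]
    show (m : Ω) ^ 2 = 1
    have h5 : (m : Ω) * (m : Ω) = (m : Ω)⁻¹ * (m : Ω) := by rw [h3]
    rw [pow_two, h5, inv_mul_cancel]
  have hkk := ch_ker_le ν sq hker hrange
  refine mem_invCen.2 ⟨hg, fun x hx hx2 => ?_⟩
  have hxM : x ∈ invCenZ4 S :=
    mem_invCenZ4.2 ⟨ch_inv_mem hinv hx hx2, by rw [← ch_e22, hx2, one_pow]⟩
  have h1 : (⟨x, hxM⟩ : invCenZ4 S) ∈ sq.ker := by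
    rw [MonoidHom.mem_ker]
    apply Subtype.ext
    rw [hsq]
    exact hx2
  have h2 := hkk h1
  rw [MonoidHom.mem_ker] at h2
  have h3 : g * x * g⁻¹ * x = 1 := by
    have h0 := congrArg Subtype.val h2
    rw [hν] at h0
    exact h0
  have hxi : x⁻¹ = x := inv_eq_of_mul_eq_one_right (by rw [← pow_two]; exact hx2)
  have h4 : g * x * g⁻¹ = x := by
    have h0 := eq_inv_of_mul_eq_one_left h3
    rw [hxi] at h0
    exact h0
  calc x * g = (g * x * g⁻¹) * g := by rw [h4]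
    _ = g * x := by group

/-- every element of `S` centralizes every involution of `S` -/
theorem ch_all_invCen [Finite S] (hS : IsPGroup 2 S) (F : FusionSystem S) (hF : F.IsSaturated 2)
    (h : ∀ x ∈ S, ∃ z ∈ centralizerIn S S, F.IsConjElt x z) :
    ∀ k : ℕ, ∀ g ∈ S, g ^ 2 ^ k = 1 → g ∈ invCen S := by
  intro k
  induction k with
  | zero =>
    intro g _ hg1
    rw [pow_zero, pow_one] at hg1
    rw [hg1]; exact Subgroup.one_mem _
  | succ k ih =>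
    intro g hg hgk
    have hg2 : g ^ 2 ∈ invCen S := by
      apply ih _ (S.pow_mem hg 2)
      rw [← pow_mul, ← pow_succ']; exact hgk
    rcases Nat.lt_or_ge k 2 with hk | hk
    · have hg4 : g ^ 4 = 1 := by
        have h4 : 2 ^ (k + 1) ∣ 4 := by interval_cases k <;> norm_num
        obtain ⟨c, hc⟩ := h4
        rw [hc, pow_mul, hgk, one_pow]
      exact ch_order_four hS F hF h hg hg2 hg4
    · obtain ⟨i, rfl⟩ := Nat.exists_eq_add_of_le hk
      obtain ⟨u, hu, huk⟩ := ch_sq_lift hS F hF h hg (2 + i)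
        (by rw [← pow_mul, ← pow_succ]; exact hgk)
      have e : 2 ^ (2 + i) = 4 * 2 ^ i := by ring
      have hu' : u⁻¹ ∈ invCenZ S := Subgroup.inv_mem _ hu
      obtain ⟨-, h4⟩ := ch_pow_four_mul hS F hF h hg hg2 hu'
      have hc : Commute (u⁻¹ ^ 4) (g ^ 4) := by
        have hc2 : Commute (g ^ 2) u⁻¹ := (mem_invCenZ.1 hu').2 _ hg2
        rw [← ch_e22 g]
        exact ((hc2.pow_left 2).pow_right 4).symm
      have h5 : (g * u⁻¹) ^ 2 ^ (2 + i) = 1 := by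
        rw [e, pow_mul, h4, hc.mul_pow, ← pow_mul, ← pow_mul, ← e, inv_pow, huk, inv_mul_cancel]
      have huK : u ∈ invCen S := (mem_invCenZ.1 hu).1
      have h6 := ih _ (S.mul_mem hg (S.inv_mem (invCen_le huK))) h5
      have h7 : g = (g * u⁻¹) * u := by group
      rw [h7]
      exact Subgroup.mul_mem _ h6 huK

theorem ch_aut_center {T : Type*} [Group T] (b : MulAut T) {u : T}
    (hu : u ∈ Subgroup.center T) : b u ∈ Subgroup.center T := by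
  rw [Subgroup.mem_center_iff] at hu ⊢
  intro t
  have h1 := congrArg b (hu (b⁻¹ t))
  rw [map_mul, map_mul, MulAut.apply_inv_self] at h1
  exact h1

/-- automorphisms of `T` fixing the squares of central elements -/
def sqStab (T : Type*) [Group T] : Subgroup (MulAut T) where
  carrier := {b | ∀ u ∈ Subgroup.center T, (b u) ^ 2 = u ^ 2}
  one_mem' := fun u _ => rfl
  mul_mem' := by
    intro a b ha hb u hu
    show (a (b u)) ^ 2 = u ^ 2
    rw [ha (b u) (ch_aut_center b hu), hb u hu]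
  inv_mem' := by
    intro a ha u hu
    have h1 := ha (a⁻¹ u) (ch_aut_center a⁻¹ hu)
    rw [MulAut.apply_inv_self] at h1
    exact h1.symm

theorem mem_sqStab {T : Type*} [Group T] {b : MulAut T} :
    b ∈ sqStab T ↔ ∀ u ∈ Subgroup.center T, (b u) ^ 2 = u ^ 2 := Iff.rfl

instance sqStab_normal (T : Type*) [Group T] : (sqStab T).Normal where
  conj_mem := by
    intro b hb c
    rw [mem_sqStab]
    intro u hu
    show (c (b (c⁻¹ u))) ^ 2 = u ^ 2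
    rw [← map_pow, mem_sqStab.1 hb _ (ch_aut_center c⁻¹ hu), map_pow, MulAut.apply_inv_self]

theorem ch_center_of_cen {T : Subgroup Ω} {v : Ω} (hv : v ∈ centralizerIn T T) :
    (⟨v, (mem_centralizerIn_iff.1 hv).1⟩ : T) ∈ Subgroup.center T := by
  rw [Subgroup.mem_center_iff]
  intro t
  exact Subtype.ext ((mem_centralizerIn_iff.1 hv).2 t t.2)

theorem ch_cen_of_center {T : Subgroup Ω} {u : T} (hu : u ∈ Subgroup.center T) :
    (u : Ω) ∈ centralizerIn T T := by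
  rw [Subgroup.mem_center_iff] at hu
  exact mem_centralizerIn_iff.2 ⟨u.2, fun t ht => congrArg Subtype.val (hu ⟨t, ht⟩)⟩

/-- If moreover all involutions are central, then `S` is abelian. -/
theorem ch_abelian [Finite S] (hS : IsPGroup 2 S) (F : FusionSystem S) (hF : F.IsSaturated 2)
    (h : ∀ x ∈ S, ∃ z ∈ centralizerIn S S, F.IsConjElt x z)
    (hic : ∀ x ∈ S, x ^ 2 = 1 → x ∈ centralizerIn S S) : ∀ x ∈ S, x ∈ centralizerIn S S := by
  have : Fact (Nat.Prime 2) := ⟨Nat.prime_two⟩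
  by_contra hcon
  rw [not_forall] at hcon
  obtain ⟨x₀, hcon⟩ := hcon
  rw [Classical.not_imp] at hcon
  obtain ⟨hx₀, hx₀Z⟩ := hcon
  -- an element with maximal centralizer
  have hne : Nonempty {y : S // (y : Ω) ∉ centralizerIn S S} := ⟨⟨⟨x₀, hx₀⟩, hx₀Z⟩⟩
  obtain ⟨⟨⟨x, hx⟩, hxZ⟩, hmax'⟩ := Finite.exists_max
    (fun y : {y : S // (y : Ω) ∉ centralizerIn S S} =>
      Nat.card (centralizerIn S (Subgroup.zpowers (y.1 : Ω))))
  have hmax : ∀ y ∈ S, y ∉ centralizerIn S S →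
      Nat.card (centralizerIn S (Subgroup.zpowers y)) ≤
        Nat.card (centralizerIn S (Subgroup.zpowers x)) :=
    fun y hy hyZ => hmax' ⟨⟨y, hy⟩, hyZ⟩
  have hxZ' : x ∉ centralizerIn S S := hxZ
  obtain ⟨C, hCdef⟩ : ∃ C, C = centralizerIn S (Subgroup.zpowers x) := ⟨_, rfl⟩
  rw [← hCdef] at hmax
  have hCS : C ≤ S := by rw [hCdef]; exact inf_le_left
  have hxC : x ∈ C := by rw [hCdef]; exact cen_zpowers_mem.2 ⟨hx, rfl⟩
  have hfinC : Finite C := finite_of_le hCS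
  -- C is a proper subgroup
  have hCcard : Nat.card C < Nat.card S := by
    have hex : ∃ s ∈ S, s * x ≠ x * s := by
      by_contra hno
      apply hxZ'
      refine mem_centralizerIn_iff.2 ⟨hx, fun s hs => ?_⟩
      by_contra hsx
      exact hno ⟨s, hs, hsx⟩
    obtain ⟨s, hs, hsx⟩ := hex
    refine card_lt_of_mem_not_mem le_rfl hCS hs (fun hsC => hsx ?_)
    rw [hCdef] at hsC
    exact (cen_zpowers_mem.1 hsC).2
  -- promotion
  have hprom : ∀ (Q : Subgroup Ω), Q ≤ S → Nat.card C ≤ Nat.card Q → Q ≠ S →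
      ∀ ρ ∈ F.Hom (normalizerIn S Q), ∀ (z : Ω), z ∈ centralizerIn S S →
        ∀ hzQ : z ∈ normalizerIn S Q, ρ ⟨z, hzQ⟩ ∈ centralizerIn S S := by
    intro Q hQS hQm hQne ρ hρ z hz hzQ
    by_contra hnot
    have hρS := (F.le_of_mem hρ).2
    have hle := hmax _ (hρS _) hnot
    have hrc : ρ.range ≤ centralizerIn S (Subgroup.zpowers (ρ ⟨z, hzQ⟩)) := by
      rintro _ ⟨n, rfl⟩
      refine cen_zpowers_mem.2 ⟨hρS n, ?_⟩
      rw [← map_mul, ← map_mul]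
      congr 1
      apply Subtype.ext
      exact (mem_centralizerIn_iff.1 hz).2 _ (Subgroup.mem_inf.1 n.2).1
    obtain ⟨g, hgN, hgQ⟩ := exists_normalizerIn_not_mem hS hQS hQne
    have h1 : Nat.card Q < Nat.card (normalizerIn S Q) :=
      card_lt_of_mem_not_mem inf_le_left (le_normalizerIn hQS) hgN hgQ
    have h2 : Nat.card (normalizerIn S Q) = Nat.card ρ.range :=
      Nat.card_congr (MonoidHom.ofInjective (F.injective_of_mem hρ)).toEquiv
    have h3 : Nat.card ρ.range ≤ Nat.card (centralizerIn S (Subgroup.zpowers (ρ ⟨z, hzQ⟩))) :=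
      Subgroup.card_le_of_le hrc
    omega
  -- a fully normalized conjugate
  obtain ⟨T, hCT, hTfn⟩ := exists_fullyNormalized_conj F hCS
  obtain ⟨-, hTaut, hTrec⟩ := sat_of_fullyNormalized hS F hF hTfn
  have hTS : T ≤ S := hTfn.1
  have hfinT : Finite T := finite_of_le hTS
  obtain ⟨e, he⟩ := (isConj_iff F).1 hCT
  have hTcard : Nat.card T = Nat.card C := (Nat.card_congr e.toEquiv).symm
  have hTne : T ≠ S := by
    intro hTS'
    rw [hTS'] at hTcard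
    omega
  -- a non-central element of Z(T)
  have hv₀ : ∃ v ∈ centralizerIn T T, v ∉ centralizerIn S S := by
    by_contra hno'
    have hno : ∀ v ∈ centralizerIn T T, v ∈ centralizerIn S S := by
      intro v hv
      by_contra hvZ
      exact hno' ⟨v, hv, hvZ⟩
    have hZC : ∀ z' ∈ centralizerIn S S, z' ∈ C := by
      intro z' hz'
      rw [hCdef]
      exact cen_zpowers_mem.2 ⟨(mem_centralizerIn_iff.1 hz').1,
        ((mem_centralizerIn_iff.1 hz').2 x hx).symm⟩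
    have heZ : ∀ (c : C), (∀ c' ∈ C, c' * (c : Ω) = c * c') →
        ((e c : T) : Ω) ∈ centralizerIn T T := by
      intro c hc
      refine mem_centralizerIn_iff.2 ⟨(e c).2, fun t ht => ?_⟩
      have h1 : e.symm ⟨t, ht⟩ * c = c * e.symm ⟨t, ht⟩ :=
        Subtype.ext (hc _ (e.symm ⟨t, ht⟩).2)
      have h2 := congrArg (fun w => ((e w : T) : Ω)) h1
      simpa using h2
    have hfin : Finite (centralizerIn S S) := finite_of_le inf_le_left
    have hf : Function.Injective (fun z' : centralizerIn S S =>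
        (⟨e ⟨(z' : Ω), hZC _ z'.2⟩, hno _ (heZ _ (fun c' hc' =>
          (mem_centralizerIn_iff.1 z'.2).2 c' (hCS hc')))⟩ : centralizerIn S S)) := by
      intro a b hab
      have h1 : ((e ⟨(a : Ω), hZC _ a.2⟩ : T) : Ω) = e ⟨(b : Ω), hZC _ b.2⟩ :=
        congrArg (fun t : centralizerIn S S => (t : Ω)) hab
      have h2 := e.injective (Subtype.ext h1)
      exact Subtype.ext (congrArg (fun t : C => (t : Ω)) h2)
    have hxc : ((e ⟨x, hxC⟩ : T) : Ω) ∈ centralizerIn S S := by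
      apply hno
      apply heZ
      intro c' hc'
      rw [hCdef] at hc'
      exact (cen_zpowers_mem.1 hc').2
    obtain ⟨z', hz'⟩ := Finite.surjective_of_injective hf ⟨_, hxc⟩
    have h1 : ((e ⟨(z' : Ω), hZC _ z'.2⟩ : T) : Ω) = e ⟨x, hxC⟩ :=
      congrArg (fun t : centralizerIn S S => (t : Ω)) hz'
    have h2 := e.injective (Subtype.ext h1)
    have h3 : (z' : Ω) = x := congrArg (fun t : C => (t : Ω)) h2
    exact hxZ' (h3 ▸ z'.2)
  obtain ⟨v₀, hv₀T, hv₀Z⟩ := hv₀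
  have hv₀S : v₀ ∈ S := hTS (mem_centralizerIn_iff.1 hv₀T).1
  -- centralizers of non-central elements of Z(T)
  have hcenT : ∀ v ∈ centralizerIn T T, v ∉ centralizerIn S S →
      T = centralizerIn S (Subgroup.zpowers v) := by
    intro v hvT hvZ
    obtain ⟨hvT', hvc⟩ := mem_centralizerIn_iff.1 hvT
    have hle : T ≤ centralizerIn S (Subgroup.zpowers v) :=
      fun t ht => cen_zpowers_mem.2 ⟨hTS ht, hvc t ht⟩
    refine Subgroup.eq_of_le_of_card_ge hle ?_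
    rw [hTcard]
    exact hmax v (hTS hvT') hvZ
  have h4d : ∀ u ∈ centralizerIn T T, ∀ g ∈ S, g ∉ T → g * u = u * g →
      u ∈ centralizerIn S S := by
    intro u huT g hg hgT hgu
    by_contra huZ
    apply hgT
    rw [hcenT u huT huZ]
    exact cen_zpowers_mem.2 ⟨hg, hgu⟩
  obtain ⟨g₀, hg₀N, hg₀T⟩ := exists_normalizerIn_not_mem hS hTS hTne
  have hg₀S : g₀ ∈ S := (Subgroup.mem_inf.1 hg₀N).1
  -- an element of `N_S(T)` outside `T` with square in `T`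
  obtain ⟨g, hgN, hgT, hg2T⟩ : ∃ g ∈ normalizerIn S T, g ∉ T ∧ g ^ 2 ∈ T := by
    have hex : ∃ j : ℕ, g₀ ^ 2 ^ j ∈ T := by
      obtain ⟨n, hn⟩ := hS ⟨g₀, hg₀S⟩
      have h1 : g₀ ^ 2 ^ n = 1 := congrArg Subtype.val hn
      exact ⟨n, by rw [h1]; exact T.one_mem⟩
    classical
    have hj := Nat.find_spec hex
    have hjmin : ∀ i < Nat.find hex, g₀ ^ 2 ^ i ∉ T := fun i hi => Nat.find_min hex hi
    have hj0 : Nat.find hex ≠ 0 := by
      intro h0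
      rw [h0, pow_zero, pow_one] at hj
      exact hg₀T hj
    obtain ⟨i, hi⟩ := Nat.exists_eq_succ_of_ne_zero hj0
    have hi' : i + 1 = Nat.find hex := hi.symm
    refine ⟨g₀ ^ 2 ^ i, Subgroup.pow_mem _ hg₀N _, hjmin i (by omega), ?_⟩
    rw [← pow_mul, ← pow_succ, hi']
    exact hj
  have hgS : g ∈ S := (Subgroup.mem_inf.1 hgN).1
  -- squares of elements of Z(T) are central
  have hsqZ : ∀ v ∈ centralizerIn T T, v ^ 2 ∈ centralizerIn S S := by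
    intro v hvT
    obtain ⟨hvT', hvc⟩ := mem_centralizerIn_iff.1 hvT
    have hvS : v ∈ S := hTS hvT'
    have hcm : g ^ 2 * v = v * g ^ 2 := hvc _ hg2T
    have hy2 := ch_delta_sq hS F hF h hgS hvS hcm
    obtain ⟨y, hy⟩ : ∃ y, y = v⁻¹ * (g * v * g⁻¹) := ⟨_, rfl⟩
    rw [← hy] at hy2
    have hyS : y ∈ S := by
      rw [hy]
      exact S.mul_mem (S.inv_mem hvS) (S.mul_mem (S.mul_mem hgS hvS) (S.inv_mem hgS))
    have hyZ := hic y hyS hy2
    have hσ : g * v * g⁻¹ = v * y := by rw [hy]; group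
    have hcomm : Commute v y := (mem_centralizerIn_iff.1 hyZ).2 v hvS
    have h3 : g * v ^ 2 * g⁻¹ = v ^ 2 := by
      rw [← conj_pow, hσ, hcomm.mul_pow, hy2, mul_one]
    have h4 : g * v ^ 2 = v ^ 2 * g := by
      calc g * v ^ 2 = (g * v ^ 2 * g⁻¹) * g := by group
        _ = v ^ 2 * g := by rw [h3]
    exact h4d (v ^ 2) (Subgroup.pow_mem _ hvT 2) g hgS hgT h4
  -- every element of Z(T) is moved into Z(S) by an F-automorphism of T
  have hB : ∀ v ∈ centralizerIn T T, v ∉ centralizerIn S S →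
      ∃ a : T ≃* T, IsIso F a ∧ ∃ hv : v ∈ T, ((a ⟨v, hv⟩ : T) : Ω) ∈ centralizerIn S S := by
    intro v hvT hvZ
    obtain ⟨hvT', hvc⟩ := mem_centralizerIn_iff.1 hvT
    have hvS : v ∈ S := hTS hvT'
    obtain ⟨z, hz, φ, hφ, hφv⟩ := h v hvS
    obtain ⟨χ, hχ, hχv⟩ := ch_ext_central hS F hF hz hφ hφv
    have hle : T ≤ centralizerIn S (Subgroup.zpowers v) :=
      fun t ht => cen_zpowers_mem.2 ⟨hTS ht, hvc t ht⟩
    obtain ⟨χ', hχ'def⟩ : ∃ χ' : T →* Ω, χ' = χ.comp (Subgroup.inclusion hle) := ⟨_, rfl⟩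
    have hχ' : χ' ∈ F.Hom T := by rw [hχ'def]; exact fs_restrict F hle hχ
    have hχ'v : χ' ⟨v, hvT'⟩ = z := by
      rw [hχ'def]
      show χ ⟨v, hle hvT'⟩ = z
      rw [hχv v (Subgroup.mem_zpowers v) (hle hvT'), hφv]
    obtain ⟨ev, hev, hevx⟩ := exists_iso_of_hom F hχ' rfl
    have hT₁T : F.IsConj χ'.range T := hev.symm.isConj
    have hT₁S : χ'.range ≤ S := isConj_le_left F hT₁T
    obtain ⟨ρ, hρ, e₁, he₁, hρe, -⟩ := exists_normalizer_map hS F hTaut hTrec hT₁T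
    have hcard₁ : Nat.card χ'.range = Nat.card C := by
      rw [← hTcard]; exact (Nat.card_congr ev.toEquiv).symm
    have hT₁ne : χ'.range ≠ S := by
      intro hh
      rw [hh] at hcard₁
      omega
    have hzT₁ : z ∈ χ'.range := ⟨⟨v, hvT'⟩, hχ'v⟩
    have hzN : z ∈ normalizerIn S χ'.range := le_normalizerIn hT₁S hzT₁
    have hpz := hprom _ hT₁S hcard₁.ge hT₁ne ρ hρ z hz hzN
    refine ⟨ev.trans e₁, hev.trans he₁, hvT', ?_⟩
    have h1 : ev ⟨v, hvT'⟩ = ⟨z, hzT₁⟩ := Subtype.ext ((hevx _).trans hχ'v)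
    show ((e₁ (ev ⟨v, hvT'⟩) : T) : Ω) ∈ centralizerIn S S
    rw [h1, ← hρe ⟨z, hzT₁⟩ hzN]
    exact hpz
  -- final contradiction
  obtain ⟨a, ha, hv₀T', hav⟩ := hB v₀ hv₀T hv₀Z
  obtain ⟨-, R, hR⟩ := hTaut
  have haA : a ∈ F.autGroup T := (mem_autGroup_iff F hTS a).2 ha
  have hRN : (R : Subgroup (F.autGroup T)) ≤ (sqStab T).subgroupOf (F.autGroup T) := by
    intro r hr
    rw [hR] at hr
    obtain ⟨s, hs, hrs⟩ := (mem_autInducedBy_iff S T _).1 (Subgroup.mem_subgroupOf.1 hr)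
    rw [Subgroup.mem_subgroupOf, mem_sqStab]
    intro u hu
    apply Subtype.ext
    show (((r : MulAut T) u : T) : Ω) ^ 2 = (u : Ω) ^ 2
    rw [hrs u, conj_pow]
    have hu2 := hsqZ _ (ch_cen_of_center hu)
    have hc := (mem_centralizerIn_iff.1 hu2).2 s hs
    rw [hc, mul_inv_cancel_right]
  have hfr := Sylow.normalizer_sup_eq_top' R hRN
  have hmem : (⟨a, haA⟩ : F.autGroup T) ∈ (⊤ : Subgroup (F.autGroup T)) := Subgroup.mem_top _
  rw [← hfr, ← SetLike.mem_coe, Subgroup.mul_normal] at hmem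
  obtain ⟨mm, hmm, nn, hnn, hmn⟩ := Set.mem_mul.1 hmem
  have hmn' : (mm : MulAut T) * (nn : MulAut T) = a := congrArg Subtype.val hmn
  have hnn' : (nn : MulAut T) ∈ sqStab T := Subgroup.mem_subgroupOf.1 hnn
  have hmm' := Subgroup.mem_normalizer_iff.1 hmm
  have hv₀c : (⟨v₀, hv₀T'⟩ : T) ∈ Subgroup.center T := ch_center_of_cen hv₀T
  obtain ⟨w, hw⟩ : ∃ w : T, w = (nn : MulAut T) ⟨v₀, hv₀T'⟩ := ⟨_, rfl⟩
  have hwc : w ∈ Subgroup.center T := by rw [hw]; exact ch_aut_center _ hv₀c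
  have hmw : (((mm : MulAut T) w : T) : Ω) ∈ centralizerIn S S := by
    have h1 : a ⟨v₀, hv₀T'⟩ = (mm : MulAut T) w := by rw [hw, ← hmn', MulAut.mul_apply]
    rw [← h1]; exact hav
  have hwZ : (w : Ω) ∈ centralizerIn S S := by
    apply h4d (w : Ω) (ch_cen_of_center hwc) g₀ hg₀S hg₀T
    have hg₀n : g₀ ∈ Subgroup.normalizer (T : Set Ω) := (Subgroup.mem_inf.1 hg₀N).2
    have hrA : conjAut T g₀ hg₀n ∈ F.autGroup T :=
      autInducedBy_le_autGroup F hTS (conjAut_mem S T g₀ hg₀S hg₀n)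
    have hrR : (⟨conjAut T g₀ hg₀n, hrA⟩ : F.autGroup T) ∈ (R : Subgroup (F.autGroup T)) := by
      rw [hR]; exact Subgroup.mem_subgroupOf.2 (conjAut_mem S T g₀ hg₀S hg₀n)
    have h1 : mm * ⟨conjAut T g₀ hg₀n, hrA⟩ * mm⁻¹ ∈ (R : Subgroup (F.autGroup T)) :=
      (hmm' _).1 hrR
    rw [hR] at h1
    obtain ⟨s, hs, hss⟩ := (mem_autInducedBy_iff S T _).1 (Subgroup.mem_subgroupOf.1 h1)
    have h2 := hss ((mm : MulAut T) w)
    have h4 : ((mm * ⟨conjAut T g₀ hg₀n, hrA⟩ * mm⁻¹ : F.autGroup T) : MulAut T)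
        ((mm : MulAut T) w) = (mm : MulAut T) (conjAut T g₀ hg₀n w) := by
      show (mm : MulAut T) (conjAut T g₀ hg₀n ((mm : MulAut T)⁻¹ ((mm : MulAut T) w))) = _
      rw [MulAut.inv_apply_self]
    have hc := (mem_centralizerIn_iff.1 hmw).2 s hs
    have h3 : (((mm : MulAut T) (conjAut T g₀ hg₀n w) : T) : Ω) = ((mm : MulAut T) w : T) := by
      rw [← h4, h2, hc, mul_inv_cancel_right]
    have h5 := (mm : MulAut T).injective (Subtype.ext h3)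
    have h6 := congrArg Subtype.val h5
    rw [conjAut_apply] at h6
    calc g₀ * (w : Ω) = (g₀ * w * g₀⁻¹) * g₀ := by group
      _ = w * g₀ := by rw [h6]
  have hw2 : (w : Ω) ^ 2 = v₀ ^ 2 := by
    have h1 := mem_sqStab.1 hnn' _ hv₀c
    rw [← hw] at h1
    exact congrArg Subtype.val h1
  have hwS : (w : Ω) ∈ S := hTS w.2
  have hcomm : Commute v₀⁻¹ (w : Ω) := by
    have h1 : Commute v₀ (w : Ω) := (mem_centralizerIn_iff.1 hwZ).2 v₀ hv₀S
    exact h1.inv_left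
  have he2 : (v₀⁻¹ * (w : Ω)) ^ 2 = 1 := by
    rw [hcomm.mul_pow, hw2, inv_pow, inv_mul_cancel]
  have heZ := hic _ (S.mul_mem (S.inv_mem hv₀S) hwS) he2
  apply hv₀Z
  have h1 : v₀ = (w : Ω) * (v₀⁻¹ * (w : Ω))⁻¹ := by group
  rw [h1]
  exact Subgroup.mul_mem _ hwZ (Subgroup.inv_mem _ heZ)

end Cfsg.Agent.Helper26
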