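import Mathlib

/-!
helper26: a twisted crossed transfer.  If a finite `p`-group `G` has a normal subgroup `R` and
a `p'`-group `Y` of automorphisms of `R`, normalized by the conjugation action of `G`, commuting
with the inner automorphisms of `R`, on which `G / R` acts freely, and with `[R, Y]` inside the
Frattini subgroup of `G`, then `Y = 1`.
-/

set_option autoImplicit false

namespace Cfsg.Agent.Helper26

open scoped IsMulCommutative

section CrossedTransfer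

variable {G : Type*} [Group G] (N : Subgroup G) [Fintype (G ⧸ N)] {A : Type*} [CommGroup A]
  (act : G → A →* A) (b : G → A) (σ : G ⧸ N → G)

/-- The crossed transfer of `b` (a homomorphism on `N`) along the section `σ`. -/
noncomputable def crossTr (g : G) : A :=
  ∏ q : G ⧸ N, act (σ (g • q)) (b ((σ (g • q))⁻¹ * g * σ q))

theorem crossTr_mul (hact : ∀ x y a, act (x * y) a = act x (act y a))
    (hactN : ∀ n ∈ N, ∀ a, act n a = a)
    (hb : ∀ n ∈ N, ∀ n' ∈ N, b (n * n') = b n * b n')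
    (hσ : ∀ q : G ⧸ N, (σ q : G ⧸ N) = q) (x y : G) :
    crossTr N act b σ (x * y) = crossTr N act b σ x * act x (crossTr N act b σ y) := by
  have hsm : ∀ (x : G) (q : G ⧸ N), x • q = ((x * σ q : G) : G ⧸ N) := by
    intro x q
    conv_lhs => rw [← hσ q]
    rfl
  have hmem : ∀ (x : G) (q : G ⧸ N), (σ (x • q))⁻¹ * x * σ q ∈ N := by
    intro x q
    have h1 : ((σ (x • q) : G) : G ⧸ N) = ((x * σ q : G) : G ⧸ N) := by rw [hσ, hsm]
    have h2 := QuotientGroup.eq.mp h1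
    rwa [← mul_assoc] at h2
  unfold crossTr
  have e1 : ∀ q : G ⧸ N, act (σ ((x * y) • q)) (b ((σ ((x * y) • q))⁻¹ * (x * y) * σ q)) =
      act (σ (x • (y • q))) (b ((σ (x • (y • q)))⁻¹ * x * σ (y • q))) *
        act x (act (σ (y • q)) (b ((σ (y • q))⁻¹ * y * σ q))) := by
    intro q
    rw [mul_smul]
    have e : (σ (x • y • q))⁻¹ * (x * y) * σ q =
        ((σ (x • y • q))⁻¹ * x * σ (y • q)) * ((σ (y • q))⁻¹ * y * σ q) := by group
    rw [e, hb _ (hmem x (y • q)) _ (hmem y q), map_mul]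
    congr 1
    have hη : (σ (y • q))⁻¹ * x⁻¹ * σ (x • y • q) ∈ N := by
      have h3 := N.inv_mem (hmem x (y • q))
      have e3 : ((σ (x • y • q))⁻¹ * x * σ (y • q))⁻¹ =
          (σ (y • q))⁻¹ * x⁻¹ * σ (x • y • q) := by group
      rwa [e3] at h3
    have e2 : σ (x • y • q) = x * (σ (y • q) * ((σ (y • q))⁻¹ * x⁻¹ * σ (x • y • q))) := by
      group
    generalize b ((σ (y • q))⁻¹ * y * σ q) = t
    calc act (σ (x • y • q)) t
        = act (x * (σ (y • q) * ((σ (y • q))⁻¹ * x⁻¹ * σ (x • y • q)))) t := by rw [← e2]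
      _ = act x (act (σ (y • q)) t) := by rw [hact, hact, hactN _ hη]
  rw [Finset.prod_congr rfl (fun q _ => e1 q), Finset.prod_mul_distrib]
  congr 1
  · exact Equiv.prod_comp (MulAction.toPerm y)
      (fun q => act (σ (x • q)) (b ((σ (x • q))⁻¹ * x * σ q)))
  · rw [map_prod]

theorem crossTr_of_mem [hN : N.Normal] {n : G} (hn : n ∈ N) :
    crossTr N act b σ n = ∏ q : G ⧸ N, act (σ q) (b ((σ q)⁻¹ * n * σ q)) := by
  unfold crossTr
  apply Finset.prod_congr rfl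
  intro q _
  have h1 : n • q = q := by
    obtain ⟨g, rfl⟩ := QuotientGroup.mk_surjective q
    show ((n * g : G) : G ⧸ N) = (g : G ⧸ N)
    rw [QuotientGroup.eq]
    have h2 : g⁻¹ * n⁻¹ * g ∈ N := by
      have h3 := hN.conj_mem n⁻¹ (N.inv_mem hn) g⁻¹
      rwa [inv_inv] at h3
    have e : (n * g)⁻¹ * g = g⁻¹ * n⁻¹ * g := by group
    rw [e]; exact h2
  rw [h1]

end CrossedTransfer

section CrossA

variable {R : Type*} [Group R]

/-- The action of an automorphism on the centre. -/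
def actZ (f : MulAut R) : ↥(Subgroup.center R) →* ↥(Subgroup.center R) where
  toFun z := ⟨f z, by
    rw [Subgroup.mem_center_iff]
    intro g
    have h := Subgroup.mem_center_iff.mp z.2 (f.symm g)
    have h2 := congrArg f h
    simpa [map_mul] using h2⟩
  map_one' := Subtype.ext (by simp)
  map_mul' x y := Subtype.ext (by simp)

theorem actZ_coe (f : MulAut R) (z : ↥(Subgroup.center R)) :
    ((actZ f z : ↥(Subgroup.center R)) : R) = f z := rfl

theorem actZ_mul (f f' : MulAut R) (z : ↥(Subgroup.center R)) :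
    actZ (f * f') z = actZ f (actZ f' z) := Subtype.ext rfl

theorem actZ_one (z : ↥(Subgroup.center R)) : actZ (1 : MulAut R) z = z := Subtype.ext rfl

/-- `r ↦ r⁻¹ * y r`, a homomorphism into the centre when its values are central. -/
def dHom (y : MulAut R) (hy : ∀ r r' : R, (r⁻¹ * y r) * r' = r' * (r⁻¹ * y r)) :
    R →* ↥(Subgroup.center R) where
  toFun r := ⟨r⁻¹ * y r, by
    rw [Subgroup.mem_center_iff]; intro g; exact (hy r g).symm⟩
  map_one' := Subtype.ext (by simp)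
  map_mul' a b := Subtype.ext (by
    show (a * b)⁻¹ * y (a * b) = (a⁻¹ * y a) * (b⁻¹ * y b)
    rw [map_mul, mul_inv_rev]
    have h := hy a b⁻¹
    calc b⁻¹ * a⁻¹ * (y a * y b) = (b⁻¹ * (a⁻¹ * y a)) * y b := by group
      _ = ((a⁻¹ * y a) * b⁻¹) * y b := by rw [h]
      _ = a⁻¹ * y a * (b⁻¹ * y b) := by group)

theorem dHom_coe (y : MulAut R) (hy : ∀ r r' : R, (r⁻¹ * y r) * r' = r' * (r⁻¹ * y r)) (r : R) :
    ((dHom y hy r : ↥(Subgroup.center R)) : R) = r⁻¹ * y r := rfl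

end CrossA

theorem aut_trivial_of_frattini {G R : Type*} [Group G] [Group R] [Finite G] {p : ℕ}
    [Fact p.Prime] (hG : IsPGroup p G) (ι : R →* G) (hι : Function.Injective ι)
    (c : G →* MulAut R) (hc : ∀ (g : G) (r : R), ι (c g r) = g * ι r * g⁻¹)
    (Y : Subgroup (MulAut R))
    (hY1 : ∀ g : G, ∀ y ∈ Y, c g * y * (c g)⁻¹ ∈ Y)
    (hY2 : ∀ g : G, g ∉ ι.range → ∀ y ∈ Y, c g * y * (c g)⁻¹ = y → y = 1)
    (hY3 : ∀ y ∈ Y, ∀ r r' : R, (r⁻¹ * y r) * r' = r' * (r⁻¹ * y r))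
    (hYp : (Nat.card Y).Coprime p)
    (Q : Subgroup G) (hQ : Q ≤ frattini G)
    (hY4 : ∀ y ∈ Y, ∀ r : R, ι (r⁻¹ * y r) ∈ Q) : Y = ⊥ := by
  classical
  haveI : Finite R := Finite.of_injective ι hι
  haveI : Fintype ↥Y := Fintype.ofFinite _
  obtain ⟨N, hNdef⟩ : ∃ N : Subgroup G, N = ι.range := ⟨_, rfl⟩
  have hNmem : ∀ g : G, g ∈ N ↔ ∃ r : R, ι r = g := by
    intro g; rw [hNdef]; exact MonoidHom.mem_range
  haveI : Fintype (G ⧸ N) := Fintype.ofFinite _
  have hcι : ∀ r' r : R, c (ι r') r = r' * r * r'⁻¹ := by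
    intro r' r
    apply hι
    rw [hc, map_mul, map_mul, map_inv]
  haveI hNn : N.Normal := by
    refine ⟨fun n hn g => ?_⟩
    obtain ⟨r, rfl⟩ := (hNmem n).mp hn
    exact (hNmem _).mpr ⟨c g r, hc g r⟩
  have hZp : IsPGroup p ↥(Subgroup.center R) := (hG.of_injective ι hι).to_subgroup _
  -- the action of `G` on the centre
  obtain ⟨act, hactdef⟩ : ∃ act : G → ↥(Subgroup.center R) →* ↥(Subgroup.center R),
      ∀ g, act g = actZ (c g) := ⟨fun g => actZ (c g), fun _ => rfl⟩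
  have hact : ∀ x y a, act (x * y) a = act x (act y a) := by
    intro x y a
    rw [hactdef, hactdef, hactdef, map_mul, actZ_mul]
  have hactN : ∀ n ∈ N, ∀ a, act n a = a := by
    intro n hn a
    obtain ⟨r', rfl⟩ := (hNmem n).mp hn
    rw [hactdef]
    apply Subtype.ext
    rw [actZ_coe, hcι]
    have h1 := Subgroup.mem_center_iff.mp a.2 r'
    rw [h1, mul_inv_cancel_right]
  have hact1 : ∀ a, act 1 a = a := fun a => hactN 1 N.one_mem a
  have hact_inv' : ∀ g a, act g (act g⁻¹ a) = a := by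
    intro g a; rw [← hact, mul_inv_cancel, hact1]
  have hact_inv : ∀ g a, act g⁻¹ (act g a) = a := by
    intro g a; rw [← hact, inv_mul_cancel, hact1]
  -- the homomorphisms `d y`
  obtain ⟨d, hd⟩ : ∃ d : ↥Y → R →* ↥(Subgroup.center R),
      ∀ (y : ↥Y) (r : R), ((d y r : ↥(Subgroup.center R)) : R) = r⁻¹ * (y : MulAut R) r :=
    ⟨fun y => dHom (y : MulAut R) (hY3 y y.2), fun _ _ => rfl⟩
  obtain ⟨E, hE⟩ : ∃ E : ↥(Subgroup.center R) →* ↥(Subgroup.center R),
      ∀ z, E z = ∏ y : ↥Y, actZ (y : MulAut R) z :=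
    ⟨∏ y : ↥Y, actZ (y : MulAut R), fun z => MonoidHom.finsetProd_apply _ _ z⟩
  obtain ⟨ϕ, hϕ⟩ : ∃ ϕ : R →* ↥(Subgroup.center R), ∀ r, ϕ r = ∏ y : ↥Y, d y r :=
    ⟨∏ y : ↥Y, d y, fun r => MonoidHom.finsetProd_apply _ _ r⟩
  have hdact : ∀ (y' y : ↥Y) (r : R),
      actZ (y' : MulAut R) (d y r) = (d y' r)⁻¹ * d (y' * y) r := by
    intro y' y r
    apply Subtype.ext
    rw [actZ_coe, Subgroup.coe_mul, Subgroup.coe_inv, hd, hd, hd, Subgroup.coe_mul,
      MulAut.mul_apply, map_mul, map_inv]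
    group
  have hE1 : ∀ (y : ↥Y) (r : R), E (d y r) = 1 := by
    intro y r
    rw [hE, Finset.prod_congr rfl (fun y' _ => hdact y' y r), Finset.prod_mul_distrib,
      Finset.prod_inv_distrib]
    have h2 : ∏ y' : ↥Y, d (y' * y) r = ∏ y' : ↥Y, d y' r :=
      Equiv.prod_comp (Equiv.mulRight y) (fun y' => d y' r)
    rw [h2, inv_mul_cancel]
  have hE2 : ∀ z : ↥(Subgroup.center R), ϕ (z : R) = (z⁻¹) ^ Nat.card ↥Y * E z := by
    intro z
    rw [hϕ, hE]
    have h1 : ∀ y : ↥Y, d y (z : R) = z⁻¹ * actZ (y : MulAut R) z := by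
      intro y
      apply Subtype.ext
      rw [hd, Subgroup.coe_mul, Subgroup.coe_inv, actZ_coe]
    rw [Finset.prod_congr rfl (fun y _ => h1 y), Finset.prod_mul_distrib, Finset.prod_const,
      Finset.card_univ, ← Nat.card_eq_fintype_card]
  have hE3 : ∀ (y : ↥Y) (z : ↥(Subgroup.center R)), E (actZ (y : MulAut R) z) = E z := by
    intro y z
    rw [hE, hE]
    have h1 : ∀ y' : ↥Y, actZ (y' : MulAut R) (actZ (y : MulAut R) z) =
        actZ ((y' * y : ↥Y) : MulAut R) z := fun y' => (actZ_mul _ _ z).symm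
    rw [Finset.prod_congr rfl (fun y' _ => h1 y')]
    exact Equiv.prod_comp (Equiv.mulRight y) (fun y' => actZ (y' : MulAut R) z)
  -- conjugation on `Y`
  obtain ⟨conjY, hconjY⟩ : ∃ conjY : G → ↥Y → ↥Y,
      ∀ g y, ((conjY g y : ↥Y) : MulAut R) = c g * (y : MulAut R) * (c g)⁻¹ :=
    ⟨fun g y => ⟨c g * (y : MulAut R) * (c g)⁻¹, hY1 g y y.2⟩, fun _ _ => rfl⟩
  have hconj_mul : ∀ a b y, conjY (a * b) y = conjY a (conjY b y) := by
    intro a b y
    apply Subtype.ext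
    rw [hconjY, hconjY, hconjY, map_mul]
    group
  have hconj1 : ∀ y, conjY 1 y = y := by
    intro y
    apply Subtype.ext
    rw [hconjY, map_one]
    group
  have hconjN : ∀ n ∈ N, ∀ y, conjY n y = y := by
    intro n hn y
    obtain ⟨r', rfl⟩ := (hNmem n).mp hn
    apply Subtype.ext
    rw [hconjY]
    apply MulEquiv.ext
    intro r
    rw [MulAut.mul_apply, MulAut.mul_apply, ← map_inv, ← map_inv, hcι, hcι, inv_inv, map_mul,
      map_mul, map_inv]
    obtain ⟨ζ, hζdef⟩ : ∃ ζ : R, ζ = r'⁻¹ * (y : MulAut R) r' := ⟨_, rfl⟩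
    have hζ : ∀ r'' : R, ζ * r'' = r'' * ζ := by
      intro r''; rw [hζdef]; exact hY3 y y.2 r' r''
    have e0 : (y : MulAut R) r' = r' * ζ := by rw [hζdef]; group
    generalize (y : MulAut R) r = t
    rw [e0]
    calc r' * ((r' * ζ)⁻¹ * t * (r' * ζ)) * r'⁻¹
        = r' * ζ⁻¹ * r'⁻¹ * (t * r') * (ζ * r'⁻¹) := by group
      _ = r' * ζ⁻¹ * r'⁻¹ * (t * r') * (r'⁻¹ * ζ) := by rw [hζ r'⁻¹]
      _ = r' * ζ⁻¹ * r'⁻¹ * (t * ζ) := by group
      _ = r' * ζ⁻¹ * r'⁻¹ * (ζ * t) := by rw [← hζ t]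
      _ = r' * ζ⁻¹ * (r'⁻¹ * ζ) * t := by group
      _ = r' * ζ⁻¹ * (ζ * r'⁻¹) * t := by rw [← hζ r'⁻¹]
      _ = t := by group
  obtain ⟨σ, hσ⟩ : ∃ σ : G ⧸ N → G, ∀ q, (σ q : G ⧸ N) = q :=
    ⟨fun q => q.out, fun q => QuotientGroup.out_eq' q⟩
  have hk3 : ∀ (g : G) (y : ↥Y), conjY g y = conjY (σ (g : G ⧸ N)) y := by
    intro g y
    have h1 : (σ (g : G ⧸ N))⁻¹ * g ∈ N := QuotientGroup.eq.mp (hσ (g : G ⧸ N))
    have e : g = σ (g : G ⧸ N) * ((σ (g : G ⧸ N))⁻¹ * g) := by group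
    conv_lhs => rw [e]
    rw [hconj_mul, hconjN _ h1]
  have hk2 : ∀ (q q' : G ⧸ N) (y : ↥Y), y ≠ 1 → conjY (σ q) y = conjY (σ q') y → q = q' := by
    intro q q' y hy1 heq
    have h1 : conjY ((σ q')⁻¹ * σ q) y = y := by
      rw [hconj_mul, heq, ← hconj_mul, inv_mul_cancel, hconj1]
    have h2 : (σ q')⁻¹ * σ q ∈ N := by
      by_contra hnot
      apply hy1
      have h3 : ((σ q')⁻¹ * σ q) ∉ ι.range := by rw [← hNdef]; exact hnot
      have h4 := hY2 _ h3 (y : MulAut R) y.2 (by rw [← hconjY, h1])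
      exact Subtype.ext h4
    have h5 : ((σ q' : G) : G ⧸ N) = ((σ q : G) : G ⧸ N) := QuotientGroup.eq.mpr h2
    rw [hσ, hσ] at h5
    exact h5.symm
  have hactconj : ∀ (g : G) (y : ↥Y) (z : ↥(Subgroup.center R)),
      act g (actZ (y : MulAut R) z) = actZ (conjY g y : MulAut R) (act g z) := by
    intro g y z
    apply Subtype.ext
    rw [hactdef, actZ_coe, actZ_coe, actZ_coe, actZ_coe, hconjY, MulAut.mul_apply,
      MulAut.mul_apply, MulAut.inv_apply_self]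
  have hdconj : ∀ (g : G) (y : ↥Y) (r : R), act g (d y r) = d (conjY g y) (c g r) := by
    intro g y r
    apply Subtype.ext
    rw [hactdef, actZ_coe, hd, hd, hconjY, MulAut.mul_apply, MulAut.mul_apply,
      MulAut.inv_apply_self, map_mul, map_inv]
  have hPfac : ∀ (g : G) (y₀ y : ↥Y) (r : R), E (act g (actZ (y₀ : MulAut R) (d y r))) = 1 := by
    intro g y₀ y r
    rw [hactconj, hdconj, hE3, hE1]
  -- the subgroup of the centre on which everything is controlled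
  obtain ⟨Z₁, hZ₁⟩ : ∃ Z₁ : Subgroup ↥(Subgroup.center R), ∀ z, z ∈ Z₁ ↔ ∀ g, E (act g z) = 1 := by
    refine ⟨⨅ g : G, (E.comp (act g)).ker, fun z => ?_⟩
    rw [Subgroup.mem_iInf]
    exact forall_congr' (fun g => MonoidHom.mem_ker)
  have hZ1fac : ∀ (g : G) (y₀ y : ↥Y) (r : R), act g (actZ (y₀ : MulAut R) (d y r)) ∈ Z₁ := by
    intro g y₀ y r
    rw [hZ₁]
    intro g'
    rw [← hact]
    exact hPfac _ y₀ y r
  -- orbit representatives
  have horb : ∀ (n : ℕ) (D : Finset ↥Y), D.card = n → (∀ y ∈ D, y ≠ 1) →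
      (∀ g : G, ∀ y ∈ D, conjY g y ∈ D) →
      ∃ Y₀ : Finset ↥Y, Y₀ ⊆ D ∧ ∀ f : ↥Y → ↥(Subgroup.center R),
        ∏ y ∈ D, f y = ∏ q : G ⧸ N, ∏ y₀ ∈ Y₀, f (conjY (σ q) y₀) := by
    intro n
    induction n using Nat.strong_induction_on with
    | _ n ih =>
      intro D hDn hD1 hDc
      by_cases hDe : D = ∅
      · refine ⟨∅, Finset.empty_subset _, fun f => ?_⟩
        rw [hDe]; simp
      · obtain ⟨y₁, hy₁⟩ := Finset.nonempty_iff_ne_empty.mpr hDe
        obtain ⟨O, hOdef⟩ : ∃ O : Finset ↥Y,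
            O = Finset.univ.image (fun q : G ⧸ N => conjY (σ q) y₁) := ⟨_, rfl⟩
        have hOmem : ∀ y, y ∈ O ↔ ∃ q : G ⧸ N, conjY (σ q) y₁ = y := by
          intro y; rw [hOdef, Finset.mem_image]; simp
        have hOD : O ⊆ D := by
          intro y hy
          obtain ⟨q, rfl⟩ := (hOmem y).mp hy
          exact hDc _ _ hy₁
        have hy₁O : y₁ ∈ O := (hOmem y₁).mpr ⟨((1 : G) : G ⧸ N), by rw [← hk3 1 y₁, hconj1]⟩
        have hOc : ∀ g : G, ∀ y ∈ D \ O, conjY g y ∈ D \ O := by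
          intro g y hy
          rw [Finset.mem_sdiff] at hy ⊢
          refine ⟨hDc g y hy.1, fun hO => hy.2 ?_⟩
          obtain ⟨q, hq⟩ := (hOmem _).mp hO
          have h1 : y = conjY (g⁻¹ * σ q) y₁ := by
            rw [hconj_mul, hq, ← hconj_mul, inv_mul_cancel, hconj1]
          rw [h1, hk3]
          exact (hOmem _).mpr ⟨_, rfl⟩
        have hlt : (D \ O).card < n := by
          rw [← hDn]
          exact Finset.card_lt_card (Finset.sdiff_ssubset hOD ⟨y₁, hy₁O⟩)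
        obtain ⟨Y₀, hY₀D, hY₀⟩ := ih _ hlt (D \ O) rfl
          (fun y hy => hD1 y (Finset.mem_sdiff.mp hy).1) hOc
        have hy₁Y₀ : y₁ ∉ Y₀ := fun h => (Finset.mem_sdiff.mp (hY₀D h)).2 hy₁O
        refine ⟨insert y₁ Y₀, ?_, fun f => ?_⟩
        · intro y hy
          rcases Finset.mem_insert.mp hy with rfl | hy
          · exact hy₁
          · exact (Finset.mem_sdiff.mp (hY₀D hy)).1
        · have hO : ∏ y ∈ O, f y = ∏ q : G ⧸ N, f (conjY (σ q) y₁) := by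
            rw [hOdef]
            exact Finset.prod_image (fun q _ q' _ h => hk2 q q' y₁ (hD1 y₁ hy₁) h)
          rw [← Finset.prod_sdiff hOD, hY₀ f, hO, ← Finset.prod_mul_distrib]
          apply Finset.prod_congr rfl
          intro q _
          rw [Finset.prod_insert hy₁Y₀, mul_comm]
  obtain ⟨Y₀, -, hY₀⟩ := horb _ (Finset.univ.erase (1 : ↥Y)) rfl
    (fun y hy => (Finset.mem_erase.mp hy).1)
    (fun g y hy => by
      rw [Finset.mem_erase] at hy ⊢
      refine ⟨fun h => hy.1 ?_, Finset.mem_univ _⟩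
      have h1 : conjY g⁻¹ (conjY g y) = y := by rw [← hconj_mul, inv_mul_cancel, hconj1]
      rw [← h1, h]
      apply Subtype.ext
      rw [hconjY]
      simp)
  obtain ⟨θ, hθ⟩ : ∃ θ : ↥(Subgroup.center R) →* ↥(Subgroup.center R),
      ∀ z, θ z = ∏ y₀ ∈ Y₀, actZ (y₀ : MulAut R) z :=
    ⟨∏ y₀ ∈ Y₀, actZ (y₀ : MulAut R), fun z => MonoidHom.finsetProd_apply _ _ z⟩
  -- partial inverse of `ι`
  obtain ⟨ρ, hρ⟩ : ∃ ρ : G → R, ∀ r, ρ (ι r) = r := by
    refine ⟨fun g => if h : ∃ r, ι r = g then Classical.choose h else 1, fun r => ?_⟩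
    have h : ∃ r', ι r' = ι r := ⟨r, rfl⟩
    show (if h : ∃ r', ι r' = ι r then Classical.choose h else 1) = r
    rw [dif_pos h]
    exact hι (Classical.choose_spec h)
  obtain ⟨b, hbdef⟩ : ∃ b : G → ↥(Subgroup.center R), ∀ g, b g = θ (ϕ (ρ g)) :=
    ⟨fun g => θ (ϕ (ρ g)), fun _ => rfl⟩
  have hb : ∀ n ∈ N, ∀ n' ∈ N, b (n * n') = b n * b n' := by
    intro n hn n' hn'
    obtain ⟨r, rfl⟩ := (hNmem n).mp hn
    obtain ⟨r', rfl⟩ := (hNmem n').mp hn'
    rw [hbdef, hbdef, hbdef, ← map_mul, hρ, hρ, hρ, map_mul, map_mul]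
  obtain ⟨γ, hγdef⟩ : ∃ γ : G → ↥(Subgroup.center R), γ = crossTr N act b σ := ⟨_, rfl⟩
  have hγmul : ∀ x y, γ (x * y) = γ x * act x (γ y) := by
    intro x y; rw [hγdef]; exact crossTr_mul N act b σ hact hactN hb hσ x y
  have hγN : ∀ n ∈ N, γ n = ∏ q : G ⧸ N, act (σ q) (b ((σ q)⁻¹ * n * σ q)) := by
    intro n hn; rw [hγdef]; exact crossTr_of_mem N act b σ hn
  have hZ1b : ∀ (g : G) (r : R), act g (θ (ϕ r)) ∈ Z₁ := by
    intro g r
    rw [hϕ, map_prod, map_prod]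
    apply Subgroup.prod_mem
    intro y _
    rw [hθ, map_prod]
    apply Subgroup.prod_mem
    intro y₀ _
    exact hZ1fac g y₀ y r
  have hγZ₁ : ∀ g, γ g ∈ Z₁ := by
    intro g
    rw [hγdef]
    unfold crossTr
    apply Subgroup.prod_mem
    intro q _
    rw [hbdef]
    exact hZ1b _ _
  obtain ⟨m, hm⟩ : ∃ m : ℕ, m = Nat.card ↥Y := ⟨_, rfl⟩
  have hcopz : ∀ z : ↥(Subgroup.center R), m.Coprime (orderOf z) := by
    intro z
    obtain ⟨k, hk⟩ := hZp z
    have h1 : orderOf z ∣ p ^ k := orderOf_dvd_of_pow_eq_one hk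
    rw [hm]
    exact Nat.Coprime.coprime_dvd_right h1 (Nat.Coprime.pow_right k hYp)
  -- the key computation
  have hkey : ∀ z ∈ Z₁, γ (ι (z : R)) = z ^ m := by
    intro z hz
    have hEz : ∀ g, E (act g z) = 1 := (hZ₁ z).mp hz
    rw [hγN _ ((hNmem _).mpr ⟨_, rfl⟩)]
    have h1 : ∀ q : G ⧸ N, act (σ q) (b ((σ q)⁻¹ * ι (z : R) * σ q)) =
        ((∏ y₀ ∈ Y₀, actZ ((conjY (σ q) y₀ : ↥Y) : MulAut R) z)⁻¹) ^ m := by
      intro q
      have e1 : (σ q)⁻¹ * ι (z : R) * σ q = ι ((act (σ q)⁻¹ z : ↥(Subgroup.center R)) : R) := by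
        rw [hactdef, actZ_coe, hc, inv_inv]
      rw [e1, hbdef, hρ, hE2, hEz, mul_one, map_pow, map_inv, map_pow, map_inv, hθ, map_prod,
        ← hm]
      congr 2
      apply Finset.prod_congr rfl
      intro y₀ _
      rw [hactconj, hact_inv']
    rw [Finset.prod_congr rfl (fun q _ => h1 q), Finset.prod_pow, Finset.prod_inv_distrib,
      ← hY₀ (fun y => actZ (y : MulAut R) z)]
    have h2 : actZ ((1 : ↥Y) : MulAut R) z *
        ∏ y ∈ Finset.univ.erase (1 : ↥Y), actZ (y : MulAut R) z = 1 := by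
      rw [Finset.mul_prod_erase Finset.univ (fun y : ↥Y => actZ (y : MulAut R) z)
        (Finset.mem_univ _), ← hE]
      have h3 := hEz 1
      rwa [hact1] at h3
    rw [Subgroup.coe_one, actZ_one] at h2
    rw [eq_inv_of_mul_eq_one_right h2, inv_inv]
  have hγ1 : γ 1 = 1 := by
    have h1 := hγmul 1 1
    rw [mul_one, hact1] at h1
    have h2 : γ 1 * γ 1 = γ 1 * 1 := by rw [mul_one]; exact h1.symm
    exact mul_left_cancel h2
  obtain ⟨M, hM⟩ : ∃ M : Subgroup G, ∀ g, g ∈ M ↔ γ g = 1 := by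
    refine ⟨{ carrier := {g | γ g = 1}
              one_mem' := hγ1
              mul_mem' := ?_
              inv_mem' := ?_ }, fun g => Iff.rfl⟩
    · intro a b' ha hb'
      show γ (a * b') = 1
      rw [hγmul, show γ a = 1 from ha, show γ b' = 1 from hb', map_one, mul_one]
    · intro a ha
      show γ a⁻¹ = 1
      have h1 := hγmul a a⁻¹
      rw [mul_inv_cancel, hγ1, show γ a = 1 from ha, one_mul] at h1
      have h2 := congrArg (act a⁻¹) h1
      rw [hact_inv, map_one] at h2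
      exact h2.symm
  have hϕQ : ∀ r, ϕ r ∈ Q.comap (ι.comp (Subgroup.center R).subtype) := by
    intro r
    rw [hϕ]
    apply Subgroup.prod_mem
    intro y _
    show ι ((d y r : ↥(Subgroup.center R)) : R) ∈ Q
    rw [hd]; exact hY4 y y.2 r
  have hZ₁Q : ∀ z ∈ Z₁, ι (z : R) ∈ Q := by
    intro z hz
    have h1 : ϕ (z : R) = (z⁻¹) ^ m := by
      have h2 := (hZ₁ z).mp hz 1
      rw [hact1] at h2
      rw [hE2, h2, mul_one, hm]
    obtain ⟨k, hk⟩ := exists_pow_eq_self_of_coprime (hcopz z⁻¹)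
    have h3 : (ϕ (z : R)) ^ k ∈ Q.comap (ι.comp (Subgroup.center R).subtype) :=
      Subgroup.pow_mem _ (hϕQ _) k
    rw [h1, hk] at h3
    have h4 := Subgroup.inv_mem _ h3
    rw [inv_inv] at h4
    exact h4
  have hsup : M ⊔ frattini G = ⊤ := by
    rw [eq_top_iff]
    intro g _
    obtain ⟨k, hk⟩ := exists_pow_eq_self_of_coprime (hcopz (γ g))
    obtain ⟨w, hwdef⟩ : ∃ w : ↥(Subgroup.center R), w = γ g ^ k := ⟨_, rfl⟩
    have hwZ : w ∈ Z₁ := by rw [hwdef]; exact Subgroup.pow_mem _ (hγZ₁ g) k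
    have hwm : w ^ m = γ g := by rw [hwdef, ← pow_mul, mul_comm, pow_mul, hk]
    have hwN : ι (w : R) ∈ N := (hNmem _).mpr ⟨_, rfl⟩
    have h1 : (ι (w : R))⁻¹ * g ∈ M := by
      rw [hM, hγmul, hactN _ (N.inv_mem hwN)]
      have e : (ι (w : R))⁻¹ = ι ((w⁻¹ : ↥(Subgroup.center R)) : R) := by
        rw [Subgroup.coe_inv, map_inv]
      rw [e, hkey _ (Z₁.inv_mem hwZ), inv_pow, hwm, inv_mul_cancel]
    have h2 : ι (w : R) * ((ι (w : R))⁻¹ * g) ∈ frattini G ⊔ M :=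
      Subgroup.mul_mem_sup (hQ (hZ₁Q w hwZ)) h1
    rw [mul_inv_cancel_left] at h2
    rw [sup_comm]; exact h2
  have hMtop : M = ⊤ := frattini_nongenerating hsup
  have hγtriv : ∀ g, γ g = 1 := fun g => (hM g).mp (by rw [hMtop]; trivial)
  rw [Subgroup.eq_bot_iff_forall]
  intro y hy
  apply MulEquiv.ext
  intro r
  have h1 : d ⟨y, hy⟩ r ∈ Z₁ := by
    have h2 := hZ1fac 1 1 ⟨y, hy⟩ r
    rwa [hact1, Subgroup.coe_one, actZ_one] at h2
  have h3 := hkey _ h1
  rw [hγtriv] at h3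
  obtain ⟨k, hk⟩ := exists_pow_eq_self_of_coprime (hcopz (d ⟨y, hy⟩ r))
  rw [← h3, one_pow] at hk
  have h4 : ((d ⟨y, hy⟩ r : ↥(Subgroup.center R)) : R) = 1 := by rw [← hk]; rfl
  rw [hd] at h4
  have h5 : r = y r := inv_mul_eq_one.mp h4
  rw [MulAut.one_apply]
  exact h5.symm

end Cfsg.Agent.Helper26
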