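import Mathlib
import Cfsg.Agent.Helper26.FusAbelian

set_option autoImplicit false

namespace Cfsg.Agent.Helper26

open Cfsg Cfsg.FusionSystem

theorem fixedSub_anti {V : Type*} [Group V] {G P : Subgroup (MulAut V)} (hPG : P ≤ G) :
    fixedSub G ≤ fixedSub P := fun _ hv a ha => hv a (hPG ha)

open scoped IsMulCommutative in
/-- Transfer argument: for an abelian group `V` acted on by `G` with a subgroup `P` of index
prime to `|V|`, the fixed points of `G` are a direct factor of the fixed points of `P`. -/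
theorem fixed_direct_factor {V : Type*} [Group V] [IsMulCommutative V] [Finite V]
    (G P : Subgroup (MulAut V)) (hPG : P ≤ G)
    (hcop : (Nat.card (G ⧸ P.subgroupOf G)).Coprime (Nat.card V)) :
    ∃ K : Subgroup V, K ≤ fixedSub P ∧ fixedSub G ⊓ K = ⊥ ∧ fixedSub G ⊔ K = fixedSub P := by
  classical
  let _ : Fintype (G ⧸ P.subgroupOf G) := Fintype.ofFinite _
  obtain ⟨τ, hτ⟩ : ∃ τ : V →* V, ∀ v, τ v = ∏ q : G ⧸ P.subgroupOf G, ((q.out : G) : MulAut V) v :=
    ⟨∏ q : G ⧸ P.subgroupOf G, (((q.out : G) : MulAut V) : V ≃* V).toMonoidHom, fun v => by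
      rw [MonoidHom.finsetProd_apply]; rfl⟩
  have hinv : ∀ v ∈ fixedSub P, τ v ∈ fixedSub G := by
    intro v hv b hb
    rw [hτ, map_prod]
    refine Fintype.prod_equiv (MulAction.toPerm (⟨b, hb⟩ : G)) _ _ (fun q => ?_)
    have h1 : (QuotientGroup.mk (((⟨b, hb⟩ : G) • q).out) : G ⧸ P.subgroupOf G) =
        QuotientGroup.mk ((⟨b, hb⟩ : G) * q.out) := by
      rw [QuotientGroup.out_eq']
      conv_lhs => rw [← QuotientGroup.out_eq' q]
      rfl
    have h2 : ((⟨b, hb⟩ : G) • q).out⁻¹ * ((⟨b, hb⟩ : G) * q.out) ∈ P.subgroupOf G :=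
      QuotientGroup.eq.1 h1
    have h3 := hv _ (Subgroup.mem_subgroupOf.1 h2)
    have h4 : b ((((q.out : G) : MulAut V)) v) =
        ((((⟨b, hb⟩ : G) • q).out : G) : MulAut V)
          ((((((⟨b, hb⟩ : G) • q).out⁻¹ * ((⟨b, hb⟩ : G) * q.out) : G)) : MulAut V) v) := by
      show b ((((q.out : G) : MulAut V)) v) = ((((⟨b, hb⟩ : G) • q).out : G) : MulAut V)
        (((((⟨b, hb⟩ : G) • q).out : G) : MulAut V)⁻¹ (b ((((q.out : G) : MulAut V)) v)))
      rw [MulAut.apply_inv_self]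
    rw [h4, h3]
    rfl
  have hpow : ∀ v ∈ fixedSub G, τ v = v ^ Nat.card (G ⧸ P.subgroupOf G) := by
    intro v hv
    rw [hτ, Finset.prod_congr rfl (fun q _ => hv _ (q.out : G).2), Finset.prod_const,
      Finset.card_univ, Nat.card_eq_fintype_card]
  have hGP : fixedSub G ≤ fixedSub P := fixedSub_anti hPG
  refine ⟨τ.ker ⊓ fixedSub P, inf_le_right, ?_, ?_⟩
  · rw [Subgroup.eq_bot_iff_forall]
    rintro v ⟨hv1, hv2, -⟩
    have h1 : v ^ Nat.card (G ⧸ P.subgroupOf G) = 1 := by rw [← hpow v hv1]; exact hv2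
    have h2 : orderOf v ∣ Nat.card (G ⧸ P.subgroupOf G) := orderOf_dvd_of_pow_eq_one h1
    have h3 : orderOf v ∣ Nat.card V := orderOf_dvd_natCard v
    have h4 : orderOf v = 1 := Nat.Coprime.eq_one_of_dvd (Nat.Coprime.coprime_dvd_left h2 hcop) h3
    exact orderOf_eq_one_iff.1 h4
  · apply le_antisymm (sup_le hGP inf_le_right)
    intro v hv
    by_cases hV : Nat.card V = 1
    · have : v = 1 := by
        have := orderOf_dvd_natCard v
        rw [hV, Nat.dvd_one] at this
        exact orderOf_eq_one_iff.1 this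
      rw [this]; exact Subgroup.one_mem _
    · have hV1 : 1 < Nat.card V := by
        have := Nat.card_pos (α := V)
        omega
      obtain ⟨k, -, hk⟩ := Nat.exists_mul_mod_eq_one_of_coprime hcop hV1
      have hw : (τ v) ^ k ∈ fixedSub G := Subgroup.pow_mem _ (hinv v hv) k
      have hτw : τ ((τ v) ^ k) = τ v := by
        rw [hpow _ hw, ← pow_mul, mul_comm, ← pow_mod_natCard, hk, pow_one]
      have e : v = (τ v) ^ k * (((τ v) ^ k)⁻¹ * v) := by rw [mul_inv_cancel_left]
      rw [e]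
      refine Subgroup.mul_mem _ (Subgroup.mem_sup_left hw) (Subgroup.mem_sup_right ⟨?_, ?_⟩)
      · show τ (((τ v) ^ k)⁻¹ * v) = 1
        rw [map_mul, map_inv, hτw, inv_mul_cancel]
      · exact Subgroup.mul_mem _ (Subgroup.inv_mem _ (hGP hw)) hv

end Cfsg.Agent.Helper26
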