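import Mathlib
import Cfsg.Agent.S0001

/-!
helper26: a self-normalizing Sylow `p`-subgroup `A` that is abelian modulo a normal subgroup
`J ≤ A` which consists of "non-generators" of `A` has a normal complement `H` (Burnside transfer
in `G ⧸ J`, Schur–Zassenhaus existence and conjugacy above `J`, Frattini argument).
-/

set_option autoImplicit false

namespace Cfsg.Agent.Helper26

theorem mem_normalizer_of_conj_mem_frob {G : Type*} [Group G] (H : Subgroup G) [Finite H] (g : G)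
    (h : ∀ y ∈ H, g * y * g⁻¹ ∈ H) : g ∈ Subgroup.normalizer (H : Set G) := by
  rw [Subgroup.mem_normalizer_iff]
  intro y
  refine ⟨h y, fun hy => ?_⟩
  have hinj : Function.Injective (fun y : H => (⟨g * y * g⁻¹, h y y.2⟩ : H)) := by
    intro a b hab
    have h1 : g * (a : G) * g⁻¹ = g * (b : G) * g⁻¹ := congrArg Subtype.val hab
    exact Subtype.ext (mul_left_cancel (mul_right_cancel h1))
  obtain ⟨y', hy'⟩ := Finite.surjective_of_injective hinj ⟨g * y * g⁻¹, hy⟩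
  have h1 : g * (y' : G) * g⁻¹ = g * y * g⁻¹ := congrArg Subtype.val hy'
  have h2 : (y' : G) = y := mul_left_cancel (mul_right_cancel h1)
  rw [← h2]; exact y'.2

theorem relIndex_ker_comap {G Q : Type*} [Group G] [Group Q] (f : G →* Q)
    (hf : Function.Surjective f) (K : Subgroup Q) :
    f.ker.relIndex (K.comap f) = Nat.card K := by
  have h2 : f.ker = (⊥ : Subgroup Q).comap f := (MonoidHom.comap_bot f).symm
  rw [h2, Subgroup.relIndex_comap, Subgroup.map_comap_eq_self_of_surjective hf,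
    Subgroup.relIndex_bot_left]

theorem exists_normalized_complement {G : Type*} [Group G] [Finite G] {p : ℕ} [Fact p.Prime]
    (A J : Subgroup G) [hJn : J.Normal] (hJA : J ≤ A) (hAp : IsPGroup p A)
    (hAi : ¬ p ∣ A.index)
    (hab : ∀ a ∈ A, ∀ b ∈ A, a * b * a⁻¹ * b⁻¹ ∈ J)
    (hE : ∀ g : G, (∀ a ∈ A, g * a * g⁻¹ ∈ A) → g ∈ A)
    (hF2 : ∀ B : Subgroup G, B ≤ A → (∀ a ∈ A, ∃ j ∈ J, j⁻¹ * a ∈ B) → A ≤ B) :
    ∃ H : Subgroup G, (∀ a ∈ A, ∀ h ∈ H, a * h * a⁻¹ ∈ H) ∧ (Nat.card H).Coprime p ∧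
      ∀ g : G, ∃ h ∈ H, ∃ a ∈ A, g = h * a := by
  classical
  have hp : p.Prime := Fact.out
  obtain ⟨PA, hPA⟩ : ∃ PA : Sylow p G, (PA : Subgroup G) = A := ⟨hAp.toSylow hAi, rfl⟩
  obtain ⟨π, hπdef⟩ : ∃ π : G →* G ⧸ J, π = QuotientGroup.mk' J := ⟨_, rfl⟩
  have hπ : Function.Surjective π := by rw [hπdef]; exact QuotientGroup.mk'_surjective J
  have hπker : ∀ g : G, π g = 1 ↔ g ∈ J := by
    intro g; rw [hπdef]; exact QuotientGroup.eq_one_iff g
  obtain ⟨Pb, hPb⟩ : ∃ Pb : Sylow p (G ⧸ J), (Pb : Subgroup (G ⧸ J)) = A.map π :=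
    ⟨PA.mapSurjective hπ, by rw [Sylow.coe_mapSurjective, hPA]⟩
  have hmemPb : ∀ g : G, π g ∈ (Pb : Subgroup (G ⧸ J)) ↔ g ∈ A := by
    intro g
    rw [hPb]
    constructor
    · rintro ⟨a, ha, hag⟩
      have h1 : π (a⁻¹ * g) = 1 := by rw [map_mul, map_inv, hag, inv_mul_cancel]
      have h2 : a * (a⁻¹ * g) ∈ A := A.mul_mem ha (hJA ((hπker _).mp h1))
      rwa [mul_inv_cancel_left] at h2
    · intro hg; exact Subgroup.mem_map_of_mem π hg
  have hNC : Subgroup.normalizer ((Pb : Subgroup (G ⧸ J)) : Set (G ⧸ J)) ≤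
      Subgroup.centralizer ((Pb : Subgroup (G ⧸ J)) : Set (G ⧸ J)) := by
    intro x hx
    obtain ⟨g, rfl⟩ := hπ x
    have hgA : g ∈ A := by
      apply hE
      intro a ha
      have h1 : π g * π a * (π g)⁻¹ ∈ (Pb : Subgroup (G ⧸ J)) :=
        (Subgroup.mem_normalizer_iff.mp hx (π a)).mp ((hmemPb a).mpr ha)
      rw [← map_mul, ← map_inv, ← map_mul] at h1
      exact (hmemPb _).mp h1
    rw [Subgroup.mem_centralizer_iff]
    intro y hy
    obtain ⟨b, rfl⟩ := hπ y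
    have hbA : b ∈ A := (hmemPb b).mp hy
    have h1 : g * b * g⁻¹ * b⁻¹ ∈ J := hab g hgA b hbA
    have h2 : π (g * b * g⁻¹ * b⁻¹) = 1 := (hπker _).mpr h1
    rw [map_mul, map_mul, map_mul, map_inv, map_inv] at h2
    have h3 : π g * π b = π g * π b * (π g)⁻¹ * (π b)⁻¹ * (π b * π g) := by group
    rw [h2, one_mul] at h3
    exact h3.symm
  obtain ⟨K, hKdef⟩ : ∃ K : Subgroup (G ⧸ J), K = (MonoidHom.transferSylow Pb hNC).ker :=
    ⟨_, rfl⟩
  have hKc : Subgroup.IsComplement' K (Pb : Subgroup (G ⧸ J)) := by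
    rw [hKdef]; exact MonoidHom.ker_transferSylow_isComplement' Pb hNC
  have hKp : ¬ p ∣ Nat.card K := by
    rw [hKdef]; exact MonoidHom.not_dvd_card_ker_transferSylow Pb hNC
  haveI hKn : K.Normal := by rw [hKdef]; infer_instance
  obtain ⟨X, hXdef⟩ : ∃ X : Subgroup G, X = K.comap π := ⟨_, rfl⟩
  haveI hXn : X.Normal := by rw [hXdef]; infer_instance
  have hXmem : ∀ g : G, g ∈ X ↔ π g ∈ K := by intro g; rw [hXdef]; exact Subgroup.mem_comap
  have hJX : J ≤ X := by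
    intro j hj
    rw [hXmem, (hπker j).mpr hj]; exact K.one_mem
  obtain ⟨N, hNdef⟩ : ∃ N : Subgroup ↥X, N = J.subgroupOf X := ⟨_, rfl⟩
  haveI hNn : N.Normal := by rw [hNdef]; infer_instance
  have hNmem : ∀ x : ↥X, x ∈ N ↔ (x : G) ∈ J := by
    intro x; rw [hNdef]; exact Subgroup.mem_subgroupOf
  have hNidx : N.index = Nat.card K := by
    have h1 : N.index = J.relIndex X := by rw [hNdef]; rfl
    have h4 := relIndex_ker_comap π hπ K
    have h5 : π.ker = J := by rw [hπdef]; exact QuotientGroup.ker_mk' J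
    rw [h5, ← hXdef] at h4
    rw [h1, h4]
  have hNp : IsPGroup p N := by
    rw [hNdef]; exact (hAp.to_le hJA).comap_subtype
  have hcop : (Nat.card N).Coprime N.index := by
    obtain ⟨n, hn⟩ := hNp.exists_card_eq
    rw [hn, hNidx]
    exact Nat.Coprime.pow_left n ((Nat.Prime.coprime_iff_not_dvd hp).mpr hKp)
  obtain ⟨H', hH'⟩ := Subgroup.exists_right_complement'_of_coprime hcop
  have hH'card : Nat.card H' = Nat.card K := by rw [← hNidx]; exact hH'.symm.index_eq_card.symm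
  have hdecomp : ∀ x : ↥X, ∃ n ∈ N, ∃ h ∈ H', x = n * h := by
    intro x
    obtain ⟨⟨⟨n, hn⟩, ⟨h, hh⟩⟩, hnh, -⟩ := (Subgroup.isComplement'_def.mp hH').existsUnique x
    exact ⟨n, hn, h, hh, hnh.symm⟩
  obtain ⟨H, hHdef⟩ : ∃ H : Subgroup G, H = H'.map X.subtype := ⟨_, rfl⟩
  have hHmem : ∀ g : G, g ∈ H ↔ ∃ x : ↥X, x ∈ H' ∧ (x : G) = g := by
    intro g; rw [hHdef]; exact Subgroup.mem_map
  have hHcard : Nat.card H = Nat.card K := by
    rw [hHdef, Subgroup.card_map_of_injective X.subtype_injective, hH'card]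
  haveI : Group.IsSolvable ↥N := by
    haveI : Group.IsNilpotent ↥N := hNp.isNilpotent
    infer_instance
  -- the Frattini argument
  have hkey : ∀ a ∈ A, ∃ j ∈ J, j⁻¹ * a ∈ A ⊓ Subgroup.normalizer (H : Set G) := by
    intro a ha
    obtain ⟨e, hedef⟩ : ∃ e : MulAut ↥X, e = MulAut.conjNormal a := ⟨_, rfl⟩
    have he : ∀ x : ↥X, ((e x : ↥X) : G) = a * x * a⁻¹ := by
      intro x; rw [hedef]; exact MulAut.conjNormal_apply a x
    obtain ⟨H'', hH''def⟩ : ∃ H'' : Subgroup ↥X, H'' = H'.map e.toMonoidHom := ⟨_, rfl⟩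
    have hH''card : Nat.card H'' = Nat.card H' := by
      rw [hH''def]; exact Subgroup.card_map_of_injective e.injective
    have hH'' : Subgroup.IsComplement' N H'' := by
      apply Subgroup.isComplement'_of_coprime
      · rw [hH''card]; exact hH'.card_mul_card
      · rw [hH''card, hH'card, ← hNidx]; exact hcop
    obtain ⟨x, hx⟩ := Cfsg.Agent.S0001.result N hcop (Or.inl inferInstance) H' H'' hH' hH''
    obtain ⟨n, hn, h₀, hh₀, hxnh⟩ := hdecomp x
    have hjJ : (n : G) ∈ J := (hNmem n).mp hn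
    refine ⟨(n : G), hjJ, A.mul_mem (A.inv_mem (hJA hjJ)) ha, ?_⟩
    apply mem_normalizer_of_conj_mem_frob
    intro y hy
    obtain ⟨y', hy', rfl⟩ := (hHmem y).mp hy
    have h1 : e y' ∈ H'' := by
      rw [hH''def]; exact Subgroup.mem_map_of_mem _ hy'
    rw [← hx, Subgroup.mem_smul_pointwise_iff_exists] at h1
    obtain ⟨h, hh, hhe⟩ := h1
    have h2 : (x : G) * (h : G) * (x : G)⁻¹ = a * (y' : G) * a⁻¹ := by
      have := congrArg (Subtype.val : ↥X → G) hhe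
      rw [he] at this
      rw [← this]
      simp [MulAut.smul_def, MulAut.conj_apply]
    have h3 : (n : G)⁻¹ * a * (y' : G) * ((n : G)⁻¹ * a)⁻¹ = ((h₀ * h * h₀⁻¹ : ↥X) : G) := by
      have e1 : (n : G)⁻¹ * a * (y' : G) * ((n : G)⁻¹ * a)⁻¹ =
          (n : G)⁻¹ * (a * (y' : G) * a⁻¹) * (n : G) := by group
      rw [e1, ← h2, hxnh]
      simp only [Subgroup.coe_mul, Subgroup.coe_inv]
      group
    rw [h3, hHmem]
    exact ⟨h₀ * h * h₀⁻¹, H'.mul_mem (H'.mul_mem hh₀ hh) (H'.inv_mem hh₀), rfl⟩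
  have hAB : A ≤ A ⊓ Subgroup.normalizer (H : Set G) := hF2 _ inf_le_left hkey
  refine ⟨H, ?_, ?_, ?_⟩
  · intro a ha h hh
    exact (Subgroup.mem_normalizer_iff.mp (hAB ha).2 h).mp hh
  · rw [hHcard]
    exact ((Nat.Prime.coprime_iff_not_dvd hp).mpr hKp).symm
  · intro g
    obtain ⟨⟨⟨k, hk⟩, ⟨b, hb⟩⟩, hkb, -⟩ := (Subgroup.isComplement'_def.mp hKc).existsUnique (π g)
    simp only at hkb
    obtain ⟨a', rfl⟩ := hπ b
    have ha' : a' ∈ A := (hmemPb a').mp hb
    have hgX : g * a'⁻¹ ∈ X := by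
      rw [hXmem, map_mul, map_inv, ← hkb, mul_inv_cancel_right]; exact hk
    obtain ⟨n, hn, h, hh, hnh⟩ := hdecomp ⟨g * a'⁻¹, hgX⟩
    have hnh' : g * a'⁻¹ = (n : G) * (h : G) := by
      have := congrArg (Subtype.val : ↥X → G) hnh
      simpa using this
    have hjJ : (n : G) ∈ J := (hNmem n).mp hn
    have hconj : (h : G)⁻¹ * (n : G) * (h : G) ∈ J := by
      have := hJn.conj_mem (n : G) hjJ (h : G)⁻¹
      rwa [inv_inv] at this
    refine ⟨(h : G), (hHmem _).mpr ⟨h, hh, rfl⟩, (h : G)⁻¹ * (n : G) * (h : G) * a',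
      A.mul_mem (hJA hconj) ha', ?_⟩
    have e1 : g = g * a'⁻¹ * a' := by group
    rw [e1, hnh']; group

end Cfsg.Agent.Helper26
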