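import Mathlib
import Cfsg.Agent.Helper26.FusHyp
import Cfsg.Agent.Helper26.FusCover
import Cfsg.Agent.Helper26.FusNormal3

set_option autoImplicit false

namespace Cfsg.Agent.Helper26

open Cfsg Cfsg.FusionSystem

variable {Ω : Type*} [Group Ω] {S : Subgroup Ω}

/-- `b : Aut(P ⊔ T)` covers `a : Aut(P)` modulo `T`. -/
def CovAut (T : Subgroup Ω) {P : Subgroup Ω} (a : MulAut P) (b : MulAut ↥(P ⊔ T)) : Prop :=
  ∀ x : P, (((a x : P) : Ω))⁻¹ * ((b (Subgroup.inclusion le_sup_left x) : ↥(P ⊔ T)) : Ω) ∈ T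

theorem covAut_one (T : Subgroup Ω) {P : Subgroup Ω} : CovAut T (1 : MulAut P) 1 := by
  intro x
  show (x : Ω)⁻¹ * (x : Ω) ∈ T
  rw [inv_mul_cancel]; exact T.one_mem

theorem covAut_mul {T : Subgroup Ω} {P : Subgroup Ω} {a₁ a₂ : MulAut P}
    {b₁ b₂ : MulAut ↥(P ⊔ T)} (h₁ : CovAut T a₁ b₁) (h₂ : CovAut T a₂ b₂)
    (hb₁ : ∀ z : ↥(P ⊔ T), (z : Ω) ∈ T → ((b₁ z : ↥(P ⊔ T)) : Ω) ∈ T) :
    CovAut T (a₁ * a₂) (b₁ * b₂) := by
  intro x
  have h2 := h₂ x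
  have h1 := h₁ (a₂ x)
  have ht : (((Subgroup.inclusion le_sup_left (a₂ x) : ↥(P ⊔ T))⁻¹ *
      b₂ (Subgroup.inclusion le_sup_left x) : ↥(P ⊔ T)) : Ω) ∈ T := h2
  have h3 := hb₁ _ ht
  rw [map_mul, map_inv] at h3
  have h4 : (((a₁ (a₂ x) : P) : Ω))⁻¹ *
        ((b₁ (b₂ (Subgroup.inclusion le_sup_left x)) : ↥(P ⊔ T)) : Ω)
      = ((((a₁ (a₂ x) : P) : Ω))⁻¹ *
          ((b₁ (Subgroup.inclusion le_sup_left (a₂ x)) : ↥(P ⊔ T)) : Ω))
        * ((((b₁ (Subgroup.inclusion le_sup_left (a₂ x)) : ↥(P ⊔ T)) : Ω))⁻¹ *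
          ((b₁ (b₂ (Subgroup.inclusion le_sup_left x)) : ↥(P ⊔ T)) : Ω)) := by
    group
  show (((a₁ (a₂ x) : P) : Ω))⁻¹ *
    ((b₁ (b₂ (Subgroup.inclusion le_sup_left x)) : ↥(P ⊔ T)) : Ω) ∈ T
  rw [h4]
  exact T.mul_mem h1 h3

theorem covAut_pow {T : Subgroup Ω} {P : Subgroup Ω} {a : MulAut P} {b : MulAut ↥(P ⊔ T)}
    (h : CovAut T a b) (hb : ∀ z : ↥(P ⊔ T), (z : Ω) ∈ T → ((b z : ↥(P ⊔ T)) : Ω) ∈ T)
    (n : ℕ) : CovAut T (a ^ n) (b ^ n) := by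
  induction n with
  | zero => rw [pow_zero, pow_zero]; exact covAut_one T
  | succ n ih => rw [pow_succ', pow_succ']; exact covAut_mul h ih hb

/-- A generator `x⁻¹ a(x)` of the hyperfocal subgroup acts on a strongly closed `T` as an element
of `O^p(Aut_F(T)) Inn(T)`. -/
theorem hyp_gen_mem {p : ℕ} [Fact p.Prime] [Finite S] (hS : IsPGroup p S)
    (F : FusionSystem S) (hF : F.IsSaturated p) {T : Subgroup Ω} (hT : F.StronglyClosed T)
    (hSN : S ≤ Subgroup.normalizer (T : Set Ω))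
    {P : Subgroup Ω} (hP : P ≤ S) {a : MulAut P} (ha : a ∈ F.autGroup P)
    (hco : Nat.Coprime (orderOf a) p) (x : P)
    (hg : (x : Ω)⁻¹ * ((a x : P) : Ω) ∈ Subgroup.normalizer (T : Set Ω)) :
    T.normalizerMonoidHom ⟨(x : Ω)⁻¹ * ((a x : P) : Ω), hg⟩ ∈
      ((pResidual p ↥(F.autGroup T)).map (F.autGroup T).subtype ⊔ Inn ↥T :
        Subgroup (MulAut ↥T)) := by
  have hp : p.Prime := Fact.out
  have hTS := hT.1
  have hPTS : P ⊔ T ≤ S := sup_le hP hTS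
  have : Finite ↥(P ⊔ T) := finite_of_le hPTS
  have : Finite ↥T := finite_of_le hTS
  have : Finite ↥P := finite_of_le hP
  have ha' : IsIso F a := (mem_autGroup_iff F hP a).1 ha
  obtain ⟨ψ, hψ, hψc⟩ := cover hS F hF hT ha'
  have hψT : ∀ z : ↥(P ⊔ T), (z : Ω) ∈ T → ψ z ∈ T := fun z hz => sc_map_mem F hT hψ z hz
  have hψPT : ∀ z : ↥(P ⊔ T), ψ z ∈ P ⊔ T := by
    refine sup_map_mem ψ (fun z hz => ?_) (fun z hz => Subgroup.mem_sup_right (hψT z hz))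
    have h1 : (((a ⟨z, hz⟩ : P) : Ω))⁻¹ * ψ z ∈ T := hψc ⟨z, hz⟩
    have h2 : ψ z = ((a ⟨z, hz⟩ : P) : Ω) * ((((a ⟨z, hz⟩ : P) : Ω))⁻¹ * ψ z) := by group
    rw [h2]
    exact Subgroup.mul_mem _ (Subgroup.mem_sup_left (a ⟨z, hz⟩).2) (Subgroup.mem_sup_right h1)
  obtain ⟨e, he, hex⟩ := exists_iso_of_hom_of_card F hψ hψPT le_rfl
  have he_mem : e ∈ F.autGroup (P ⊔ T) := (mem_autGroup_iff F hPTS e).2 he
  have heT : ∀ z : ↥(P ⊔ T), (z : Ω) ∈ T → ((e z : ↥(P ⊔ T)) : Ω) ∈ T :=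
    fun z hz => stronglyClosed_iso F hT he z hz
  have hcov : CovAut T a e := by
    intro x
    show (((a x : P) : Ω))⁻¹ * ((e (Subgroup.inclusion le_sup_left x) : ↥(P ⊔ T)) : Ω) ∈ T
    rw [hex]; exact hψc x
  -- the p'-part of e
  obtain ⟨k, m, hm, hkm⟩ :=
    Nat.exists_eq_pow_mul_and_not_dvd (orderOf_pos e).ne' p hp.ne_one
  have hcop : Nat.Coprime (p ^ k) (orderOf a) := Nat.Coprime.pow_left k hco.symm
  obtain ⟨j, hj⟩ := exists_pow_eq_self_of_coprime hcop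
  have hεcov : CovAut T a ((e ^ p ^ k) ^ j) := by
    have h1 := covAut_pow hcov heT (p ^ k * j)
    rw [pow_mul, pow_mul, hj] at h1
    exact h1
  have hεm : ((e ^ p ^ k) ^ j) ^ m = 1 := by
    have h1 : ((e ^ p ^ k) ^ j) ^ m = (e ^ (p ^ k * m)) ^ j := by
      simp only [← pow_mul]
      congr 1
      ring
    rw [h1, ← hkm, pow_orderOf_eq_one, one_pow]
  have hpm : Nat.Coprime m p := ((Nat.Prime.coprime_iff_not_dvd hp).2 hm).symm
  have hεco : Nat.Coprime (orderOf ((e ^ p ^ k) ^ j)) p :=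
    Nat.Coprime.coprime_dvd_left (orderOf_dvd_of_pow_eq_one hεm) hpm
  have hεmem : (e ^ p ^ k) ^ j ∈ F.autGroup (P ⊔ T) :=
    Subgroup.pow_mem _ (Subgroup.pow_mem _ he_mem _) _
  generalize (e ^ p ^ k) ^ j = ε at hεcov hεco hεmem
  have hε' : IsIso F ε := (mem_autGroup_iff F hPTS ε).1 hεmem
  have hφT : ((P ⊔ T).subtype.comp ε.toMonoidHom).comp (Subgroup.inclusion le_sup_right)
      ∈ F.Hom T := fs_restrict F le_sup_right hε'
  obtain ⟨τ, hτ, hτx⟩ := exists_iso_of_hom_of_card F hφT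
    (fun t => stronglyClosed_iso F hT hε' _ t.2) le_rfl
  have hτx' : ∀ t : T, ((τ t : T) : Ω)
      = ((ε (Subgroup.inclusion le_sup_right t) : ↥(P ⊔ T)) : Ω) := fun t => hτx t
  have hτmem : τ ∈ F.autGroup T := (mem_autGroup_iff F hTS τ).2 hτ
  have hτε : ∀ t : T, ε (Subgroup.inclusion le_sup_right t)
      = Subgroup.inclusion le_sup_right (τ t) := fun t => Subtype.ext (hτx' t).symm
  have hτpow := pow_semiconj (Subgroup.inclusion (le_sup_right : T ≤ P ⊔ T)) τ ε hτε (orderOf ε)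
  have hτord : τ ^ orderOf ε = 1 := by
    apply MulEquiv.ext
    intro t
    apply Subtype.ext
    have h := hτpow t
    rw [pow_orderOf_eq_one] at h
    exact (congrArg Subtype.val h).symm
  have hτco : Nat.Coprime (orderOf τ) p :=
    Nat.Coprime.coprime_dvd_left (orderOf_dvd_of_pow_eq_one hτord) hεco
  have hτres : (⟨τ, hτmem⟩ : F.autGroup T) ∈ pResidual p (F.autGroup T) := by
    refine Subgroup.subset_closure ?_
    show Nat.Coprime (orderOf (⟨τ, hτmem⟩ : F.autGroup T)) p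
    rw [← Subgroup.orderOf_coe]; exact hτco
  -- elements of the normalizer
  have ht₀ := hεcov x
  generalize hy : ε (Subgroup.inclusion le_sup_left x) = y at ht₀
  have hxN : (x : Ω) ∈ Subgroup.normalizer (T : Set Ω) := hSN (hP x.2)
  have hyN : (y : Ω) ∈ Subgroup.normalizer (T : Set Ω) := hSN (hPTS y.2)
  have htN : (((a x : P) : Ω))⁻¹ * (y : Ω) ∈ Subgroup.normalizer (T : Set Ω) := hSN (hTS ht₀)
  have hgeq : (⟨(x : Ω)⁻¹ * ((a x : P) : Ω), hg⟩ : Subgroup.normalizer (T : Set Ω))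
      = (⟨(x : Ω), hxN⟩)⁻¹ * ⟨(y : Ω), hyN⟩ * (⟨(((a x : P) : Ω))⁻¹ * (y : Ω), htN⟩)⁻¹ := by
    apply Subtype.ext
    show (x : Ω)⁻¹ * ((a x : P) : Ω)
      = (x : Ω)⁻¹ * (y : Ω) * ((((a x : P) : Ω))⁻¹ * (y : Ω))⁻¹
    group
  have hkey : T.normalizerMonoidHom ⟨(y : Ω), hyN⟩ * τ
      = τ * T.normalizerMonoidHom ⟨(x : Ω), hxN⟩ := by
    apply MulEquiv.ext
    intro t
    apply Subtype.ext
    show (y : Ω) * ((τ t : T) : Ω) * (y : Ω)⁻¹
      = ((τ (T.normalizerMonoidHom ⟨(x : Ω), hxN⟩ t) : T) : Ω)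
    rw [hτx' t, hτx' (T.normalizerMonoidHom ⟨(x : Ω), hxN⟩ t)]
    have h1 : Subgroup.inclusion (le_sup_right : T ≤ P ⊔ T)
          (T.normalizerMonoidHom ⟨(x : Ω), hxN⟩ t)
        = Subgroup.inclusion le_sup_left x * Subgroup.inclusion le_sup_right t
          * (Subgroup.inclusion le_sup_left x)⁻¹ := Subtype.ext rfl
    rw [h1, map_mul, map_mul, map_inv, hy]
    rfl
  have hcy : T.normalizerMonoidHom ⟨(y : Ω), hyN⟩
      = τ * T.normalizerMonoidHom ⟨(x : Ω), hxN⟩ * τ⁻¹ := eq_mul_inv_of_mul_eq hkey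
  have hcx : T.normalizerMonoidHom ⟨(x : Ω), hxN⟩ ∈ F.autGroup T :=
    autInducedBy_le_autGroup F hTS (conjAut_mem S T x (hP x.2) hxN)
  have hfinal : T.normalizerMonoidHom ⟨(x : Ω)⁻¹ * ((a x : P) : Ω), hg⟩
      = ((T.normalizerMonoidHom ⟨(x : Ω), hxN⟩)⁻¹ * τ * T.normalizerMonoidHom ⟨(x : Ω), hxN⟩)
        * τ⁻¹ * (T.normalizerMonoidHom ⟨(((a x : P) : Ω))⁻¹ * (y : Ω), htN⟩)⁻¹ := by
    rw [hgeq, map_mul, map_mul, map_inv, map_inv, hcy]
    group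
  have h1 : (T.normalizerMonoidHom ⟨(x : Ω), hxN⟩)⁻¹ * τ * T.normalizerMonoidHom ⟨(x : Ω), hxN⟩
      ∈ (pResidual p ↥(F.autGroup T)).map (F.autGroup T).subtype := by
    have h := (pResidual_normal'' p ↥(F.autGroup T)).conj_mem _ hτres
      ((⟨T.normalizerMonoidHom ⟨(x : Ω), hxN⟩, hcx⟩ : F.autGroup T)⁻¹)
    rw [inv_inv] at h
    exact ⟨_, h, rfl⟩
  have h2 : τ⁻¹ ∈ (pResidual p ↥(F.autGroup T)).map (F.autGroup T).subtype :=
    ⟨_, Subgroup.inv_mem _ hτres, rfl⟩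
  have h3 : (T.normalizerMonoidHom ⟨(((a x : P) : Ω))⁻¹ * (y : Ω), htN⟩)⁻¹ ∈ Inn ↥T := by
    refine Subgroup.inv_mem _ (MonoidHom.mem_range.2 ⟨⟨_, ht₀⟩, ?_⟩)
    apply MulEquiv.ext
    intro t
    exact Subtype.ext rfl
  rw [hfinal]
  exact Subgroup.mul_mem _ (Subgroup.mul_mem _ (Subgroup.mem_sup_left h1)
    (Subgroup.mem_sup_left h2)) (Subgroup.mem_sup_right h3)

/-- Every element of the hyperfocal subgroup acts on a strongly closed subgroup `T` as an element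
of `O^p(Aut_F(T)) Inn(T)`. -/
theorem hyperfocal_conj_mem {p : ℕ} [Fact p.Prime] [Finite S] (hS : IsPGroup p S)
    (F : FusionSystem S) (hF : F.IsSaturated p) {T : Subgroup Ω} (hT : F.StronglyClosed T) :
    ∀ x ∈ F.hyperfocalSubgroup p,
      ∃ α ∈ ((pResidual p ↥(F.autGroup T)).map (F.autGroup T).subtype ⊔ Inn ↥T :
        Subgroup (MulAut ↥T)), ∀ t : ↥T, ((α t : ↥T) : Ω) = x * (t : Ω) * x⁻¹ := by
  have hTn := stronglyClosed_conj F hT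
  have hSN : S ≤ Subgroup.normalizer (T : Set Ω) := by
    intro s hs
    have h1 : s ∈ normalizerIn S T := by
      refine mem_normalizerIn_iff.2 ⟨hs, fun t => ⟨fun ht => hTn s hs t ht, fun ht => ?_⟩⟩
      have h2 := hTn s⁻¹ (S.inv_mem hs) _ ht
      have e : s⁻¹ * (s * t * s⁻¹) * s⁻¹⁻¹ = t := by group
      rw [e] at h2; exact h2
    exact h1.2
  have hX : F.hyperfocalSubgroup p ≤
      ((((pResidual p ↥(F.autGroup T)).map (F.autGroup T).subtype ⊔ Inn ↥T :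
        Subgroup (MulAut ↥T))).comap T.normalizerMonoidHom).map
          (Subgroup.normalizer (T : Set Ω)).subtype := by
    apply hyperfocal_le
    intro P hP a ha hco x
    have hgN : (x : Ω)⁻¹ * ((a x : P) : Ω) ∈ Subgroup.normalizer (T : Set Ω) :=
      hSN (S.mul_mem (S.inv_mem (hP x.2)) (hP (a x).2))
    exact Subgroup.mem_map.2 ⟨⟨_, hgN⟩,
      Subgroup.mem_comap.2 (hyp_gen_mem hS F hF hT hSN hP ha hco x hgN), rfl⟩
  intro x hx
  obtain ⟨n, hn, rfl⟩ := hX hx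
  exact ⟨T.normalizerMonoidHom n, Subgroup.mem_comap.1 hn, fun t => rfl⟩

end Cfsg.Agent.Helper26
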