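import Mathlib
import Cfsg.Agent.Helper26.Alperin
import Cfsg.Agent.Helper26.FusNormal3

set_option autoImplicit false

namespace Cfsg.Agent.Helper26

open Cfsg Cfsg.FusionSystem

variable {Ω : Type*} [Group Ω]

/-- Restriction of a fusion system over `U` to a strongly closed subgroup `T`. -/
def resSys {U : Subgroup Ω} (F₀ : FusionSystem U) (T : Subgroup Ω) (hT : F₀.StronglyClosed T) :
    FusionSystem T where
  Hom P := {φ | φ ∈ F₀.Hom P ∧ P ≤ T}
  le_of_mem := by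
    rintro P φ ⟨hφ, hP⟩
    exact ⟨hP, fun x => hT.2 P hP φ hφ x⟩
  injective_of_mem := fun h => F₀.injective_of_mem h.1
  conj_mem := by
    intro P g hP hg
    exact ⟨F₀.conj_mem (hP.trans hT.1) (hT.1 hg), hP⟩
  comp_mem := by
    rintro P Q φ ψ ⟨hφ, hP⟩ ⟨hψ, hQ⟩ h
    exact ⟨F₀.comp_mem hφ hψ h, hP⟩
  inv_mem := by
    rintro P φ ⟨hφ, hP⟩
    obtain ⟨ψ, hψ, hψx⟩ := F₀.inv_mem hφ
    refine ⟨ψ, ⟨hψ, ?_⟩, hψx⟩
    rintro _ ⟨x, rfl⟩
    exact hT.2 P hP φ hφ x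

theorem mem_resSys {U : Subgroup Ω} (F₀ : FusionSystem U) (T : Subgroup Ω)
    (hT : F₀.StronglyClosed T) {P : Subgroup Ω} {φ : P →* Ω} :
    φ ∈ (resSys F₀ T hT).Hom P ↔ φ ∈ F₀.Hom P ∧ P ≤ T := Iff.rfl

/-- A saturated system `E` over `T` lies in a system `F₀` over `U ≥ T` (in which `T` is strongly
closed) as soon as `F₀` contains `O^p(Aut_E(Q))` for all `Q ≤ T`. -/
theorem le_of_pResidual_le {p : ℕ} [Fact p.Prime] {T U : Subgroup Ω} [Finite T]
    (hT : IsPGroup p T) (E : FusionSystem T) (hE : E.IsSaturated p) (F₀ : FusionSystem U)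
    (hT₀ : F₀.StronglyClosed T)
    (h : ∀ Q : Subgroup Ω, Q ≤ T → ∀ b : E.autGroup Q, Nat.Coprime (orderOf b) p →
      (b : MulAut Q) ∈ F₀.autGroup Q) :
    ∀ P : Subgroup Ω, E.Hom P ⊆ F₀.Hom P := by
  have hTU := hT₀.1
  have key : E ≤ resSys F₀ T hT₀ := by
    apply alperin hT E hE
    intro Q _ hQa hQr _ _ α hα
    have hQT : Q ≤ T := hQr.1
    have hmain : α ∈ F₀.autGroup Q := by
      obtain ⟨-, R, hR⟩ := hQa
      haveI : Finite Q := finite_of_le hQT
      obtain ⟨β, hβ, γ, hγ, hαβγ⟩ := exists_mul_pResidual_sylow R (⟨α, hα⟩ : E.autGroup Q)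
      have hβ' : (β : MulAut Q) ∈ F₀.autGroup Q := by
        have hle : pResidual p (E.autGroup Q) ≤ (F₀.autGroup Q).subgroupOf (E.autGroup Q) := by
          refine (Subgroup.closure_le _).2 ?_
          intro b hb
          rw [SetLike.mem_coe, Subgroup.mem_subgroupOf]
          exact h Q hQT b hb
        exact Subgroup.mem_subgroupOf.1 (hle hβ)
      have hγ' : (γ : MulAut Q) ∈ F₀.autGroup Q := by
        rw [hR] at hγ
        have h1 : (γ : MulAut Q) ∈ autInducedBy T Q := Subgroup.mem_subgroupOf.1 hγ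
        obtain ⟨g, hg, hgγ⟩ := (mem_autInducedBy_iff T Q _).1 h1
        exact (mem_autGroup_iff F₀ (hQT.trans hTU) _).2
          (fs_conj F₀ (hQT.trans hTU) (hTU hg) hgγ)
      have h2 : α = (β : MulAut Q) * (γ : MulAut Q) := congrArg Subtype.val hαβγ
      rw [h2]; exact Subgroup.mul_mem _ hβ' hγ'
    exact (mem_autGroup_iff _ hQT α).2
      ⟨(mem_autGroup_iff F₀ (hQT.trans hTU) α).1 hmain, hQT⟩
  intro P φ hφ
  exact (key P hφ).1

end Cfsg.Agent.Helper26
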