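import Mathlib
import Cfsg.Agent.Helper26.FusNormal3
import Cfsg.Agent.S5145

set_option autoImplicit false

namespace Cfsg.Agent.Helper26

open Cfsg Cfsg.FusionSystem

variable {Ω : Type*} [Group Ω] {S : Subgroup Ω}

/-- The image of `P ∩ T` under an automorphism of `T`, as a subgroup of the ambient group. -/
abbrev autIm {T : Subgroup Ω} (α : MulAut T) (P : Subgroup Ω) : Subgroup Ω :=
  (P.subgroupOf T).map (T.subtype.comp α.toMonoidHom)

theorem mem_autIm {T : Subgroup Ω} (α : MulAut T) (P : Subgroup Ω) (y : Ω) :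
    y ∈ autIm α P ↔ ∃ x : T, (x : Ω) ∈ P ∧ ((α x : T) : Ω) = y := by
  constructor
  · rintro ⟨x, hx, rfl⟩; exact ⟨x, Subgroup.mem_subgroupOf.1 hx, rfl⟩
  · rintro ⟨x, hx, rfl⟩; exact ⟨x, Subgroup.mem_subgroupOf.2 hx, rfl⟩

/-- A strongly closed subgroup contained in a subgroup normal in the system is normal in it. -/
theorem normal_of_stronglyClosed_le [Finite S] (F : FusionSystem S) {O Q : Subgroup Ω}
    (hO : F.IsNormal O) (hQO : Q ≤ O) (hQ : F.StronglyClosed Q) : F.IsNormal Q := by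
  refine ⟨hQ.1, ?_⟩
  intro P φ hφ
  obtain ⟨ψ₀, hψ₀, hψ₀a, -⟩ := hO.2 P φ hφ
  have hle : P ⊔ Q ≤ P ⊔ O := sup_le_sup_left hQO P
  have hψ : ψ₀.comp (Subgroup.inclusion hle) ∈ F.Hom (P ⊔ Q) := fs_restrict F hle hψ₀
  refine ⟨_, hψ, fun x => hψ₀a x, ?_⟩
  have hψQ : (ψ₀.comp (Subgroup.inclusion hle)).comp
      (Subgroup.inclusion (le_sup_right : Q ≤ P ⊔ Q)) ∈ F.Hom Q :=
    fs_restrict F le_sup_right hψ
  have hwc := weaklyClosed_of_stronglyClosed F hQ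
  have hrange := hwc.2 _ hψQ
  ext y
  constructor
  · rintro ⟨x, hx, rfl⟩
    have := hQ.2 Q le_rfl _ hψQ ⟨x, Subgroup.mem_subgroupOf.1 hx⟩
    exact this
  · intro hy
    have hy2 : y ∈ ((ψ₀.comp (Subgroup.inclusion hle)).comp
      (Subgroup.inclusion (le_sup_right : Q ≤ P ⊔ Q))).range := by rw [hrange]; exact hy
    obtain ⟨x, rfl⟩ := hy2
    exact ⟨Subgroup.inclusion le_sup_right x, Subgroup.mem_subgroupOf.2 x.2, rfl⟩

/-- A convenient form of the invariance condition. -/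
theorem inv_transport {T : Subgroup Ω} {F : FusionSystem S} {E : FusionSystem T}
    (hE : E.IsInvariantIn F) {P : Subgroup Ω} {φ : P →* Ω} (hφ : φ ∈ E.Hom P) {α : MulAut T}
    (hα : α ∈ F.autGroup T) :
    ∃ χ ∈ E.Hom (autIm α P), ∀ (x : P) (x' : T) (y : autIm α P) (z : T),
      (x' : Ω) = x → (y : Ω) = ((α x' : T) : Ω) → (z : Ω) = φ x → χ y = ((α z : T) : Ω) := by
  obtain ⟨hsub, hT, hinv, hfr⟩ := hE
  have hPT : P ≤ T := (E.le_of_mem hφ).1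
  obtain ⟨χ, hχ, hχe⟩ := hinv P hPT φ hφ α hα
  refine ⟨χ, hχ, ?_⟩
  intro x x' y z h1 h2 h3
  have e1 : x' = ⟨x, hPT x.2⟩ := Subtype.ext h1
  have hz : φ x ∈ T := by rw [← h3]; exact z.2
  have e3 : z = ⟨φ x, hz⟩ := Subtype.ext h3
  have hy : ((α ⟨x, hPT x.2⟩ : T) : Ω) ∈ autIm α P := by rw [← e1, ← h2]; exact y.2
  have e2 : y = ⟨(α ⟨x, hPT x.2⟩ : T), hy⟩ := Subtype.ext (by rw [h2, e1])
  rw [e2, e3]
  exact hχe x hz hy

/-- Transport of normality by an automorphism of `T` in the big system. -/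
theorem isNormal_autIm {T : Subgroup Ω} {F : FusionSystem S} {E : FusionSystem T}
    (hE : E.IsInvariantIn F) {N : Subgroup Ω} (hN : E.IsNormal N) {α : MulAut T}
    (hα : α ∈ F.autGroup T) : E.IsNormal (autIm α N) := by
  have hαi : α⁻¹ ∈ F.autGroup T := inv_mem hα
  refine ⟨?_, ?_⟩
  · rintro y ⟨x, hx, rfl⟩; exact (α x).2
  intro P' φ hφ
  have hP'T : P' ≤ T := (E.le_of_mem hφ).1
  have hφT : ∀ x : P', φ x ∈ T := (E.le_of_mem hφ).2
  obtain ⟨χ, hχ, hχe⟩ := inv_transport hE hφ hαi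
  obtain ⟨ψ', hψ', hψ'a, hψ'N⟩ := hN.2 _ χ hχ
  have hMT : autIm α⁻¹ P' ⊔ N ≤ T := (E.le_of_mem hψ').1
  have hψ'T : ∀ x, ψ' x ∈ T := (E.le_of_mem hψ').2
  obtain ⟨ψ'', hψ'', hψ''e⟩ := inv_transport hE hψ' hα
  have hle : P' ⊔ autIm α N ≤ autIm α (autIm α⁻¹ P' ⊔ N) := by
    apply sup_le
    · intro x hx
      rw [mem_autIm]
      refine ⟨α⁻¹ ⟨x, hP'T hx⟩, Subgroup.mem_sup_left ?_, ?_⟩
      · rw [mem_autIm]; exact ⟨⟨x, hP'T hx⟩, hx, rfl⟩
      · show ((α (α⁻¹ ⟨x, hP'T hx⟩) : T) : Ω) = x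
        rw [MulAut.apply_inv_self]
    · intro y hy
      rw [mem_autIm] at hy ⊢
      obtain ⟨x, hx, rfl⟩ := hy
      exact ⟨x, Subgroup.mem_sup_right hx, rfl⟩
  refine ⟨ψ''.comp (Subgroup.inclusion hle), fs_restrict E hle hψ'', ?_, ?_⟩
  · intro x
    have hu1 : ((α⁻¹ ⟨(x : Ω), hP'T x.2⟩ : T) : Ω) ∈ autIm α⁻¹ P' :=
      (mem_autIm _ _ _).2 ⟨⟨x, hP'T x.2⟩, x.2, rfl⟩
    have h1 : χ ⟨_, hu1⟩ = ((α⁻¹ ⟨φ x, hφT x⟩ : T) : Ω) :=
      hχe x ⟨x, hP'T x.2⟩ ⟨_, hu1⟩ ⟨φ x, hφT x⟩ rfl rfl rfl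
    have h2 := hψ'a ⟨_, hu1⟩
    have h3 := hψ''e (Subgroup.inclusion le_sup_left ⟨_, hu1⟩) (α⁻¹ ⟨(x : Ω), hP'T x.2⟩)
      (Subgroup.inclusion hle (Subgroup.inclusion le_sup_left x)) (α⁻¹ ⟨φ x, hφT x⟩) rfl
      (by show (x : Ω) = ((α (α⁻¹ ⟨(x : Ω), hP'T x.2⟩) : T) : Ω); rw [MulAut.apply_inv_self])
      (by rw [h2, h1])
    show ψ'' (Subgroup.inclusion hle (Subgroup.inclusion le_sup_left x)) = φ x
    rw [h3, MulAut.apply_inv_self]
  · ext y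
    constructor
    · rintro ⟨w, hw, rfl⟩
      have hw' := Subgroup.mem_subgroupOf.1 hw
      obtain ⟨n, hn, hnw⟩ := (mem_autIm _ _ _).1 hw'
      have hnM : (n : Ω) ∈ autIm α⁻¹ P' ⊔ N := Subgroup.mem_sup_right hn
      have h3 := hψ''e ⟨n, hnM⟩ n (Subgroup.inclusion hle w) ⟨ψ' ⟨n, hnM⟩, hψ'T _⟩ rfl hnw.symm rfl
      show ψ'' (Subgroup.inclusion hle w) ∈ autIm α N
      rw [h3, mem_autIm]
      exact ⟨⟨ψ' ⟨n, hnM⟩, hψ'T _⟩, normExt_mem_Q hψ'N _ hn, rfl⟩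
    · intro hy
      obtain ⟨n, hn, rfl⟩ := (mem_autIm _ _ _).1 hy
      have hn2 : (n : Ω) ∈ (N.subgroupOf (autIm α⁻¹ P' ⊔ N)).map ψ' := by rw [hψ'N]; exact hn
      obtain ⟨m, hm, hmn⟩ := hn2
      have hm' := Subgroup.mem_subgroupOf.1 hm
      have hmT : (m : Ω) ∈ T := hMT m.2
      have hαm : ((α ⟨m, hmT⟩ : T) : Ω) ∈ autIm α N := (mem_autIm _ _ _).2 ⟨⟨m, hmT⟩, hm', rfl⟩
      have h3 := hψ''e m ⟨m, hmT⟩ (Subgroup.inclusion hle ⟨_, Subgroup.mem_sup_right hαm⟩) n rfl rfl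
        hmn.symm
      exact ⟨⟨_, Subgroup.mem_sup_right hαm⟩, Subgroup.mem_subgroupOf.2 hαm, h3⟩

theorem core_autIm {T : Subgroup Ω} [Finite T] {F : FusionSystem S} {E : FusionSystem T}
    (hE : E.IsInvariantIn F) {α : MulAut T} (hα : α ∈ F.autGroup T) (x : T)
    (hx : (x : Ω) ∈ E.core) : ((α x : T) : Ω) ∈ E.core := by
  have h1 : E.IsNormal (autIm α E.core) := isNormal_autIm hE (Cfsg.Agent.S5145.result E) hα
  have h2 : autIm α E.core ≤ E.core := le_sSup h1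
  exact h2 ((mem_autIm _ _ _).2 ⟨x, hx, rfl⟩)

/-- A subgroup strongly closed in an invariant subsystem and invariant under `Aut_F(T)` is strongly
closed in the big system. -/
theorem stronglyClosed_of_invariant {T : Subgroup Ω} {F : FusionSystem S} {E : FusionSystem T}
    (hE : E.IsInvariantIn F) {U : Subgroup Ω} (hU : E.StronglyClosed U)
    (hUα : ∀ α ∈ F.autGroup T, ∀ x : T, (x : Ω) ∈ U → ((α x : T) : Ω) ∈ U) :
    F.StronglyClosed U := by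
  obtain ⟨hsub, hT, hinv, hfr⟩ := hE
  refine ⟨hU.1.trans hT.1, ?_⟩
  intro P hPU φ hφ x
  obtain ⟨α, hα, φ₀, hφ₀, h⟩ := hfr P (hPU.trans hU.1) φ hφ
  have h0 : φ₀ x ∈ U := hU.2 P hPU φ₀ hφ₀ x
  rw [h x (hU.1 h0)]
  exact hUα α hα _ h0

/-- `O_p` of an invariant subsystem of a saturated system is normal in the big system. -/
theorem core_normal_of_invariant {p : ℕ} [Fact p.Prime] [Finite S] (hS : IsPGroup p S)
    {T : Subgroup Ω} {F : FusionSystem S} (hF : F.IsSaturated p) {E : FusionSystem T}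
    (hE : E.IsInvariantIn F) : F.IsNormal E.core := by
  have hTS : T ≤ S := hE.2.1.1
  have : Finite T := finite_of_le hTS
  have hO : E.IsNormal E.core := Cfsg.Agent.S5145.result E
  have hOT : E.core ≤ T := hO.1
  have hOS : E.core ≤ S := hOT.trans hTS
  have hOsc : F.StronglyClosed E.core :=
    stronglyClosed_of_invariant hE (stronglyClosed_of_normal E hO)
      (fun α hα x hx => core_autIm hE hα x hx)
  obtain ⟨n, C, hC0, hCn, hmono, hcomm, hchar⟩ := upper_chain hS hOS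
  refine normal_of_chain hS F hF hOsc n C hC0 hCn hmono hcomm ?_
  intro i
  obtain ⟨U, hU, hCU⟩ := hchar i.castSucc
  rw [hCU]
  apply weaklyClosed_of_stronglyClosed
  apply stronglyClosed_of_invariant hE (stronglyClosed_of_char E hO U)
  intro α hα x hx
  obtain ⟨u, hu, hux⟩ := hx
  have hαi : α⁻¹ ∈ F.autGroup T := inv_mem hα
  let e : E.core ≃* E.core :=
    { toFun := fun y => ⟨α ⟨y, hOT y.2⟩, core_autIm hE hα _ y.2⟩
      invFun := fun y => ⟨α⁻¹ ⟨y, hOT y.2⟩, core_autIm hE hαi _ y.2⟩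
      left_inv := fun y => by
        apply Subtype.ext
        show ((α⁻¹ (α ⟨y, _⟩) : T) : Ω) = y
        rw [MulAut.inv_apply_self]
      right_inv := fun y => by
        apply Subtype.ext
        show ((α (α⁻¹ ⟨y, _⟩) : T) : Ω) = y
        rw [MulAut.apply_inv_self]
      map_mul' := fun a b => by
        apply Subtype.ext
        show ((α ⟨((a * b : E.core) : Ω), _⟩ : T) : Ω)
          = ((α ⟨a, hOT a.2⟩ : T) : Ω) * ((α ⟨b, hOT b.2⟩ : T) : Ω)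
        rw [← Subgroup.coe_mul, ← map_mul]
        rfl }
  have h1 : e u ∈ U := by
    have h := hU.fixed e
    rw [← h] at hu
    exact Subgroup.mem_comap.1 hu
  have h2 : (⟨u, hOT u.2⟩ : T) = x := Subtype.ext hux
  refine ⟨e u, h1, ?_⟩
  show ((α ⟨u, hOT u.2⟩ : T) : Ω) = ((α x : T) : Ω)
  rw [h2]

end Cfsg.Agent.Helper26
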