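import Mathlib
import Cfsg.Agent.Helper26.Singular

/-!
Large extraspecial 2-subgroups, part 2 (helper26): the pair `Q`, `Q' = Q^g` with `z^g ∈ Q`.

`LX Q z`: `Q` is an extraspecial 2-subgroup with centre `⟨z⟩` (as `XS.Data`), `C_G(Q) ≤ Q` and
`C_G(z)` normalizes `Q`.  `LX.conj`, `LX.of_large`.  `pair_structure`: for `LX Q z`, `LX Q' x` with
`x ∈ Q`, `z ∈ Q'`, `x ≠ z`: the structure of `R = C_{Q'}(z) C_Q(x)`.
-/

set_option autoImplicit false

namespace Cfsg.Agent.Helper26.LargeXS2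

open Cfsg Cfsg.Agent.Helper14.XS Cfsg.Agent.Helper26.LargeXS Cfsg.Agent.Helper26.Singular

variable {G : Type*} [Group G]

theorem mem_cz {x a : G} : a ∈ Subgroup.centralizer ({x} : Set G) ↔ a * x = x * a := by
  rw [Subgroup.mem_centralizer_iff]
  constructor
  · intro h; exact (h x (Set.mem_singleton x)).symm
  · intro h y hy
    rw [Set.mem_singleton_iff] at hy
    rw [hy]; exact h.symm

theorem sup_induction {H K : Subgroup G} {C : G → Prop} {x : G} (hx : x ∈ H ⊔ K)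
    (hH : ∀ x ∈ H, C x) (hK : ∀ x ∈ K, C x) (one : C 1)
    (mul : ∀ x y, C x → C y → C (x * y)) : C x := by
  rw [sup_eq_iSup] at hx
  refine Subgroup.iSup_induction _ (C := C) hx ?_ one mul
  intro b y hy
  cases b
  · exact hK y hy
  · exact hH y hy

/-- `Q` is an extraspecial 2-subgroup with centre `⟨z⟩`, self-centralizing in `G` and normalized by
`C_G(z)`. -/
def LX (Q : Subgroup G) (z : G) : Prop :=
  Data Q z ∧ IsPGroup 2 Q ∧ (∀ c : G, (∀ b ∈ Q, c * b = b * c) → c ∈ Q) ∧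
    (∀ c : G, c * z = z * c → ∀ b ∈ Q, c * b * c⁻¹ ∈ Q)

theorem mem_conj {Q : Subgroup G} (g a : G) :
    a ∈ Q.map (MulAut.conj g).toMonoidHom ↔ g⁻¹ * a * g ∈ Q := by
  constructor
  · rintro ⟨b, hb, rfl⟩
    have e : g⁻¹ * ((MulAut.conj g).toMonoidHom b) * g = b := by
      show g⁻¹ * (g * b * g⁻¹) * g = b
      group
    rw [e]; exact hb
  · intro h
    refine ⟨g⁻¹ * a * g, h, ?_⟩
    show g * (g⁻¹ * a * g) * g⁻¹ = a
    group

theorem LX.conj {Q : Subgroup G} {z : G} (h : LX Q z) (g : G) :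
    LX (Q.map (MulAut.conj g).toMonoidHom) (g * z * g⁻¹) := by
  obtain ⟨d, h2, hCQ, hN⟩ := h
  refine ⟨data_of_conj d g ?_ ?_, h2.map _, ?_, ?_⟩
  · intro a ha
    rw [mem_conj]
    have e : g⁻¹ * (g * a * g⁻¹) * g = a := by group
    rw [e]; exact ha
  · intro a ha; exact (mem_conj g a).mp ha
  · intro c hc
    rw [mem_conj]
    apply hCQ
    intro b hb
    have h1 : g * b * g⁻¹ ∈ Q.map (MulAut.conj g).toMonoidHom := by
      rw [mem_conj]
      have e : g⁻¹ * (g * b * g⁻¹) * g = b := by group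
      rw [e]; exact hb
    have h3 := hc _ h1
    calc g⁻¹ * c * g * b = g⁻¹ * (c * (g * b * g⁻¹)) * g := by group
      _ = g⁻¹ * ((g * b * g⁻¹) * c) * g := by rw [h3]
      _ = b * (g⁻¹ * c * g) := by group
  · intro c hc b hb
    rw [mem_conj] at hb ⊢
    have hk : (g⁻¹ * c * g) * z = z * (g⁻¹ * c * g) := by
      calc g⁻¹ * c * g * z = g⁻¹ * (c * (g * z * g⁻¹)) * g := by group
        _ = g⁻¹ * ((g * z * g⁻¹) * c) * g := by rw [hc]
        _ = z * (g⁻¹ * c * g) := by group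
    have h3 := hN _ hk _ hb
    have e : g⁻¹ * c * g * (g⁻¹ * b * g) * (g⁻¹ * c * g)⁻¹ = g⁻¹ * (c * b * c⁻¹) * g := by
      group
    rw [e] at h3
    exact h3

theorem LX.of_large {Q : Subgroup G} (hL1 : IsExtraspecial 2 ↥Q)
    (hL2 : Subgroup.centralizer (Q : Set G) = (Subgroup.center ↥Q).map Q.subtype)
    (hL3 : Subgroup.centralizer (((Subgroup.center ↥Q).map Q.subtype : Subgroup G) : Set G) ≤
      Subgroup.normalizer (Q : Set G))
    {z : G} (hz : (Subgroup.center ↥Q).map Q.subtype = Subgroup.zpowers z)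
    (hz2 : orderOf z = 2) : LX Q z := by
  obtain ⟨z0, d, hcenter⟩ := of_extraspecial Q hL1
  have hz1 : z ≠ 1 := by
    intro h
    rw [h, orderOf_one] at hz2
    exact absurd hz2 (by norm_num)
  have hz0 : z0 = z := by
    have h1 : z ∈ (Subgroup.center ↥Q).map Q.subtype := by
      rw [hz]; exact Subgroup.mem_zpowers z
    rcases (hcenter z).mp h1 with h | h
    · exact absurd h hz1
    · exact h.symm
  rw [hz0] at d hcenter
  have d' := d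
  obtain ⟨hzQ, -, hzz, hcen, hcomm, hsqr, hrad⟩ := d'
  have hZle : ((Subgroup.center ↥Q).map Q.subtype) ≤ Q := by
    intro v hv
    rcases (hcenter v).mp hv with h | h
    · rw [h]; exact Q.one_mem
    · rw [h]; exact hzQ
  refine ⟨d, hL1.1.1, ?_, ?_⟩
  · intro c hc
    apply hZle
    rw [← hL2, Subgroup.mem_centralizer_iff]
    intro b hb
    exact (hc b hb).symm
  · intro c hc b hb
    have hcN : c ∈ Subgroup.normalizer (Q : Set G) := by
      apply hL3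
      rw [Subgroup.mem_centralizer_iff]
      intro v hv
      rcases (hcenter v).mp hv with h | h
      · rw [h, one_mul, mul_one]
      · rw [h]; exact hc.symm
    exact (Subgroup.mem_normalizer_iff.mp hcN b).mp hb

/-- Structure of `R = C_{Q'}(z) C_Q(x)` for a pair of orthogonal singular involutions. -/
theorem pair_structure {Q Q' : Subgroup G} {z x : G} (hQ : LX Q z) (hQ' : LX Q' x)
    (hxQ : x ∈ Q) (hzQ' : z ∈ Q') (hxz : x ≠ z)
    (V X R E : Subgroup G) (hV : V = Subgroup.closure ({z, x} : Set G)) (hX : X = Q ⊔ Q')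
    (hR : R = (Q' ⊓ Subgroup.centralizer ({z} : Set G)) ⊔
      (Q ⊓ Subgroup.centralizer ({x} : Set G)))
    (hE : E = Q ⊓ Q') :
    (Subgroup.center ↥R).map R.subtype = V ∧
    E ≤ (Subgroup.upperCentralSeries ↥R 2).map R.subtype ∧
    Subgroup.upperCentralSeries ↥R 3 = ⊤ ∧
    IsElementaryAbelian 2 E ∧
    (∀ a ∈ R, ∀ b ∈ R, a * b * a⁻¹ * b⁻¹ ∈ E ∧ a ^ 2 ∈ E) ∧
    (Q' ⊓ Subgroup.centralizer ({z} : Set G)) ⊓ (Q ⊓ Subgroup.centralizer ({x} : Set G)) = E ∧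
    ⁅X, E⁆ ≤ V := by
  obtain ⟨d, hQ2, hCQ, hN⟩ := hQ
  obtain ⟨d', hQ2', hCQ', hN'⟩ := hQ'
  have dd := d
  obtain ⟨hzQ, hz1, hzz, hcen, hcomm, hsqr, hrad⟩ := dd
  have dd' := d'
  obtain ⟨hxQ', hx1, hxx, hcen', hcomm', hsqr', hrad'⟩ := dd'
  have hc : x * z = z * x := hcen x hxQ
  obtain ⟨W, hWdef⟩ : ∃ W : Subgroup G, W = four z x hzz hxx hc := ⟨_, rfl⟩
  have hW : ∀ v : G, v ∈ W ↔ v = 1 ∨ v = z ∨ v = x ∨ v = z * x := by
    intro v; rw [hWdef]; exact mem_four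
  have hzW : z ∈ W := (hW z).mpr (Or.inr (Or.inl rfl))
  have hxW : x ∈ W := (hW x).mpr (Or.inr (Or.inr (Or.inl rfl)))
  have hWV : W ≤ Subgroup.closure ({z, x} : Set G) := by
    intro v hv
    have hz' : z ∈ Subgroup.closure ({z, x} : Set G) :=
      Subgroup.subset_closure (Set.mem_insert _ _)
    have hx' : x ∈ Subgroup.closure ({z, x} : Set G) :=
      Subgroup.subset_closure (Set.mem_insert_of_mem _ (Set.mem_singleton _))
    rcases (hW v).mp hv with h | h | h | h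
    · rw [h]; exact Subgroup.one_mem _
    · rw [h]; exact hz'
    · rw [h]; exact hx'
    · rw [h]; exact Subgroup.mul_mem _ hz' hx'
  have hVW : Subgroup.closure ({z, x} : Set G) ≤ W := by
    rw [Subgroup.closure_le]
    intro v hv
    rcases hv with hv | hv
    · rw [hv]; exact hzW
    · rw [Set.mem_singleton_iff] at hv; rw [hv]; exact hxW
  have hWc : ∀ v ∈ W, ∀ c : G, c * z = z * c → c * x = x * c → c * v = v * c := by
    intro v hv c hcz hcx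
    rcases (hW v).mp hv with h | h | h | h
    · rw [h, mul_one, one_mul]
    · rw [h]; exact hcz
    · rw [h]; exact hcx
    · rw [h]
      calc c * (z * x) = (c * z) * x := (mul_assoc _ _ _).symm
        _ = (z * c) * x := by rw [hcz]
        _ = z * (c * x) := mul_assoc _ _ _
        _ = z * (x * c) := by rw [hcx]
        _ = z * x * c := (mul_assoc _ _ _).symm
  have hWQ : ∀ v ∈ W, v ∈ Q ⊓ Q' := by
    intro v hv
    rcases (hW v).mp hv with h | h | h | h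
    · rw [h]; exact Subgroup.one_mem _
    · rw [h]; exact Subgroup.mem_inf.mpr ⟨hzQ, hzQ'⟩
    · rw [h]; exact Subgroup.mem_inf.mpr ⟨hxQ, hxQ'⟩
    · rw [h]; exact Subgroup.mem_inf.mpr ⟨Q.mul_mem hzQ hxQ, Q'.mul_mem hzQ' hxQ'⟩
  obtain ⟨Rx, hRx⟩ : ∃ Rx : Subgroup G, Rx = Q' ⊓ Subgroup.centralizer ({z} : Set G) :=
    ⟨_, rfl⟩
  obtain ⟨Rz, hRz⟩ : ∃ Rz : Subgroup G, Rz = Q ⊓ Subgroup.centralizer ({x} : Set G) :=
    ⟨_, rfl⟩
  rw [← hRx, ← hRz] at hR ⊢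
  have hmRx : ∀ a : G, a ∈ Rx ↔ a ∈ Q' ∧ a * z = z * a := by
    intro a; rw [hRx, Subgroup.mem_inf, mem_cz]
  have hmRz : ∀ a : G, a ∈ Rz ↔ a ∈ Q ∧ a * x = x * a := by
    intro a; rw [hRz, Subgroup.mem_inf, mem_cz]
  subst hV
  subst hX
  subst hE
  subst hR
  have hRzC : ∀ a ∈ Rz, a * z = z * a ∧ a * x = x * a :=
    fun a ha => ⟨hcen a ((hmRz a).mp ha).1, ((hmRz a).mp ha).2⟩
  have hRxC : ∀ a ∈ Rx, a * z = z * a ∧ a * x = x * a :=
    fun a ha => ⟨((hmRx a).mp ha).2, hcen' a ((hmRx a).mp ha).1⟩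
  have hRC : ∀ a ∈ Rx ⊔ Rz, a * z = z * a ∧ a * x = x * a := by
    intro a ha
    have hle : Rx ⊔ Rz ≤ cen z ⊓ cen x :=
      sup_le (fun b hb => Subgroup.mem_inf.mpr
          ⟨mem_cen.mpr (hRxC b hb).1, mem_cen.mpr (hRxC b hb).2⟩)
        (fun b hb => Subgroup.mem_inf.mpr
          ⟨mem_cen.mpr (hRzC b hb).1, mem_cen.mpr (hRzC b hb).2⟩)
    have h1 := Subgroup.mem_inf.mp (hle ha)
    exact ⟨mem_cen.mp h1.1, mem_cen.mp h1.2⟩
  have hE_comm : ∀ a ∈ Q ⊓ Q', ∀ b ∈ Q ⊓ Q', a * b * a⁻¹ * b⁻¹ = 1 := by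
    intro a ha b hb
    rcases hcomm a (Subgroup.mem_inf.mp ha).1 b (Subgroup.mem_inf.mp hb).1 with h | h
    · exact h
    · rcases hcomm' a (Subgroup.mem_inf.mp ha).2 b (Subgroup.mem_inf.mp hb).2 with h' | h'
      · exact h'
      · exact absurd (h'.symm.trans h) hxz
  have hE_sq : ∀ a ∈ Q ⊓ Q', a * a = 1 := by
    intro a ha
    rcases hsqr a (Subgroup.mem_inf.mp ha).1 with h | h
    · exact h
    · rcases hsqr' a (Subgroup.mem_inf.mp ha).2 with h' | h'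
      · exact h'
      · exact absurd (h'.symm.trans h) hxz
  have hzE : z ∈ Q ⊓ Q' := Subgroup.mem_inf.mpr ⟨hzQ, hzQ'⟩
  have hxE : x ∈ Q ⊓ Q' := Subgroup.mem_inf.mpr ⟨hxQ, hxQ'⟩
  have hEn : ∀ c : G, c * z = z * c → c * x = x * c → ∀ e ∈ Q ⊓ Q', c * e * c⁻¹ ∈ Q ⊓ Q' := by
    intro c hcz hcx e he
    exact Subgroup.mem_inf.mpr
      ⟨hN c hcz e (Subgroup.mem_inf.mp he).1, hN' c hcx e (Subgroup.mem_inf.mp he).2⟩
  have hgen : ∀ a : G, (a ∈ Rx ∨ a ∈ Rz) → ∀ b : G, (b ∈ Rx ∨ b ∈ Rz) →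
      a * b * a⁻¹ * b⁻¹ ∈ Q ⊓ Q' := by
    intro a ha b hb
    rcases ha with ha | ha <;> rcases hb with hb | hb
    · rcases hcomm' a ((hmRx a).mp ha).1 b ((hmRx b).mp hb).1 with h | h
      · rw [h]; exact Subgroup.one_mem _
      · rw [h]; exact hxE
    · refine Subgroup.mem_inf.mpr ⟨?_, ?_⟩
      · exact Q.mul_mem (hN a ((hmRx a).mp ha).2 b ((hmRz b).mp hb).1)
          (Q.inv_mem ((hmRz b).mp hb).1)
      · have h1 : b * a⁻¹ * b⁻¹ ∈ Q' :=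
          hN' b ((hmRz b).mp hb).2 a⁻¹ (Q'.inv_mem ((hmRx a).mp ha).1)
        have e : a * b * a⁻¹ * b⁻¹ = a * (b * a⁻¹ * b⁻¹) := by group
        rw [e]; exact Q'.mul_mem ((hmRx a).mp ha).1 h1
    · refine Subgroup.mem_inf.mpr ⟨?_, ?_⟩
      · have h1 : b * a⁻¹ * b⁻¹ ∈ Q :=
          hN b ((hmRx b).mp hb).2 a⁻¹ (Q.inv_mem ((hmRz a).mp ha).1)
        have e : a * b * a⁻¹ * b⁻¹ = a * (b * a⁻¹ * b⁻¹) := by group
        rw [e]; exact Q.mul_mem ((hmRz a).mp ha).1 h1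
      · exact Q'.mul_mem (hN' a ((hmRz a).mp ha).2 b ((hmRx b).mp hb).1)
          (Q'.inv_mem ((hmRx b).mp hb).1)
    · rcases hcomm a ((hmRz a).mp ha).1 b ((hmRz b).mp hb).1 with h | h
      · rw [h]; exact Subgroup.one_mem _
      · rw [h]; exact hzE
  have hstep1 : ∀ r ∈ Rx ⊔ Rz, ∀ s : G, (s ∈ Rx ∨ s ∈ Rz) →
      r * s * r⁻¹ * s⁻¹ ∈ Q ⊓ Q' := by
    intro r hr
    refine (sup_induction (C := fun r => (r * z = z * r ∧ r * x = x * r) ∧
      ∀ s : G, (s ∈ Rx ∨ s ∈ Rz) → r * s * r⁻¹ * s⁻¹ ∈ Q ⊓ Q') hr ?_ ?_ ?_ ?_).2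
    · intro a ha; exact ⟨hRxC a ha, fun s hs => hgen a (Or.inl ha) s hs⟩
    · intro a ha; exact ⟨hRzC a ha, fun s hs => hgen a (Or.inr ha) s hs⟩
    · refine ⟨⟨by rw [one_mul, mul_one], by rw [one_mul, mul_one]⟩, fun s _ => ?_⟩
      have e : (1 : G) * s * 1⁻¹ * s⁻¹ = 1 := by group
      rw [e]; exact Subgroup.one_mem _
    · rintro r₁ r₂ ⟨⟨h1z, h1x⟩, h1⟩ ⟨⟨h2z, h2x⟩, h2⟩
      refine ⟨⟨Commute.mul_left h1z h2z, Commute.mul_left h1x h2x⟩, fun s hs => ?_⟩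
      have e : r₁ * r₂ * s * (r₁ * r₂)⁻¹ * s⁻¹ =
          r₁ * (r₂ * s * r₂⁻¹ * s⁻¹) * r₁⁻¹ * (r₁ * s * r₁⁻¹ * s⁻¹) := by group
      rw [e]; exact Subgroup.mul_mem _ (hEn r₁ h1z h1x _ (h2 s hs)) (h1 s hs)
  have hstep2 : ∀ r ∈ Rx ⊔ Rz, ∀ s ∈ Rx ⊔ Rz, r * s * r⁻¹ * s⁻¹ ∈ Q ⊓ Q' := by
    intro r hr s hs
    refine (sup_induction (C := fun s => (s * z = z * s ∧ s * x = x * s) ∧
      r * s * r⁻¹ * s⁻¹ ∈ Q ⊓ Q') hs ?_ ?_ ?_ ?_).2
    · intro a ha; exact ⟨hRxC a ha, hstep1 r hr a (Or.inl ha)⟩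
    · intro a ha; exact ⟨hRzC a ha, hstep1 r hr a (Or.inr ha)⟩
    · refine ⟨⟨by rw [one_mul, mul_one], by rw [one_mul, mul_one]⟩, ?_⟩
      have e : r * 1 * r⁻¹ * (1 : G)⁻¹ = 1 := by group
      rw [e]; exact Subgroup.one_mem _
    · rintro s₁ s₂ ⟨⟨h1z, h1x⟩, h1⟩ ⟨⟨h2z, h2x⟩, h2⟩
      refine ⟨⟨Commute.mul_left h1z h2z, Commute.mul_left h1x h2x⟩, ?_⟩
      have e : r * (s₁ * s₂) * r⁻¹ * (s₁ * s₂)⁻¹ =
          (r * s₁ * r⁻¹ * s₁⁻¹) * (s₁ * (r * s₂ * r⁻¹ * s₂⁻¹) * s₁⁻¹) := by group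
      rw [e]; exact Subgroup.mul_mem _ h1 (hEn s₁ h1z h1x _ h2)
  have hsq : ∀ r ∈ Rx ⊔ Rz, r * r ∈ Q ⊓ Q' := by
    intro r hr
    refine (sup_induction (C := fun r => r ∈ Rx ⊔ Rz ∧ r * r ∈ Q ⊓ Q') hr ?_ ?_ ?_ ?_).2
    · intro a ha
      refine ⟨Subgroup.mem_sup_left ha, ?_⟩
      rcases hsqr' a ((hmRx a).mp ha).1 with h | h
      · rw [h]; exact Subgroup.one_mem _
      · rw [h]; exact hxE
    · intro a ha
      refine ⟨Subgroup.mem_sup_right ha, ?_⟩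
      rcases hsqr a ((hmRz a).mp ha).1 with h | h
      · rw [h]; exact Subgroup.one_mem _
      · rw [h]; exact hzE
    · exact ⟨Subgroup.one_mem _, by rw [one_mul]; exact Subgroup.one_mem _⟩
    · rintro r₁ r₂ ⟨h1R, h1⟩ ⟨h2R, h2⟩
      refine ⟨Subgroup.mul_mem _ h1R h2R, ?_⟩
      have e : r₁ * r₂ * (r₁ * r₂) =
          (r₁ * r₁) * (r₁⁻¹ * r₂ * r₁⁻¹⁻¹ * r₂⁻¹) * (r₂ * r₂) := by group
      rw [e]
      exact Subgroup.mul_mem _
        (Subgroup.mul_mem _ h1 (hstep2 _ (Subgroup.inv_mem _ h1R) _ h2R)) h2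
  have hcenterR : ∀ c ∈ Rx ⊔ Rz, (∀ r ∈ Rx ⊔ Rz, c * r = r * c) → c ∈ W := by
    intro c hcR hcc
    obtain ⟨q, hqQ, hq⟩ := exists_moving d hxQ hx1 hxz
    have h4 := four_of_cent d hxQ hxx hqQ hq hCQ hN (hRC c hcR).1
      (fun r hr hrx => hcc r (Subgroup.mem_sup_right ((hmRz r).mpr ⟨hr, hrx.eq⟩)))
    exact (hW c).mpr h4
  have hWR : W ≤ Rx ⊔ Rz := by
    intro v hv
    exact Subgroup.mem_sup_right
      ((hmRz v).mpr ⟨(Subgroup.mem_inf.mp (hWQ v hv)).1, (hWc v hv x hc rfl).symm⟩)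
  have hEW : ∀ e ∈ Q ⊓ Q', ∀ y ∈ Rx ⊔ Rz, e * y * e⁻¹ * y⁻¹ ∈ W := by
    intro e he y hy
    refine (sup_induction (C := fun y => (y * z = z * y ∧ y * x = x * y) ∧
      e * y * e⁻¹ * y⁻¹ ∈ W) hy ?_ ?_ ?_ ?_).2
    · intro a ha
      refine ⟨hRxC a ha, ?_⟩
      rcases hcomm' e (Subgroup.mem_inf.mp he).2 a ((hmRx a).mp ha).1 with h | h
      · rw [h]; exact Subgroup.one_mem _
      · rw [h]; exact hxW
    · intro a ha
      refine ⟨hRzC a ha, ?_⟩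
      rcases hcomm e (Subgroup.mem_inf.mp he).1 a ((hmRz a).mp ha).1 with h | h
      · rw [h]; exact Subgroup.one_mem _
      · rw [h]; exact hzW
    · refine ⟨⟨by rw [one_mul, mul_one], by rw [one_mul, mul_one]⟩, ?_⟩
      have e1 : e * 1 * e⁻¹ * (1 : G)⁻¹ = 1 := by group
      rw [e1]; exact Subgroup.one_mem _
    · rintro y₁ y₂ ⟨⟨h1z, h1x⟩, h1⟩ ⟨⟨h2z, h2x⟩, h2⟩
      refine ⟨⟨Commute.mul_left h1z h2z, Commute.mul_left h1x h2x⟩, ?_⟩
      have e1 : e * (y₁ * y₂) * e⁻¹ * (y₁ * y₂)⁻¹ =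
          (e * y₁ * e⁻¹ * y₁⁻¹) * (y₁ * (e * y₂ * e⁻¹ * y₂⁻¹) * y₁⁻¹) := by group
      have e2 : y₁ * (e * y₂ * e⁻¹ * y₂⁻¹) * y₁⁻¹ = e * y₂ * e⁻¹ * y₂⁻¹ := by
        rw [hWc _ h2 y₁ h1z h1x, mul_inv_cancel_right]
      rw [e1, e2]; exact Subgroup.mul_mem _ h1 h2
  have hER : Q ⊓ Q' ≤ Rx ⊔ Rz := by
    intro e he
    exact Subgroup.mem_sup_right
      ((hmRz e).mpr ⟨(Subgroup.mem_inf.mp he).1, hcen' e (Subgroup.mem_inf.mp he).2⟩)
  have hZ2 : ∀ e : ↥(Rx ⊔ Rz), (e : G) ∈ Q ⊓ Q' →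
      e ∈ Subgroup.upperCentralSeries ↥(Rx ⊔ Rz) 2 := by
    intro e he
    rw [Subgroup.mem_upperCentralSeries_succ_iff]
    intro y
    rw [Subgroup.upperCentralSeries_one, Subgroup.mem_center_iff]
    intro r
    apply Subtype.ext
    exact hWc _ (hEW e he y y.2) r (hRC r r.2).1 (hRC r r.2).2
  refine ⟨?_, ?_, ?_, ?_, ?_, ?_, ?_⟩
  · apply le_antisymm
    · rintro _ ⟨c, hcc, rfl⟩
      apply hWV
      apply hcenterR _ c.2
      intro r hr
      have h1 := Subgroup.mem_center_iff.mp hcc ⟨r, hr⟩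
      have h2 := congrArg (fun t : ↥(Rx ⊔ Rz) => (t : G)) h1
      exact h2.symm
    · intro v hv
      have hvW := hVW hv
      refine Subgroup.mem_map.mpr ⟨⟨v, hWR hvW⟩, ?_, rfl⟩
      rw [Subgroup.mem_center_iff]
      intro r
      apply Subtype.ext
      exact hWc v hvW r (hRC r r.2).1 (hRC r r.2).2
  · intro e he
    exact Subgroup.mem_map.mpr ⟨⟨e, hER he⟩, hZ2 _ he, rfl⟩
  · rw [eq_top_iff]
    intro r _
    rw [Subgroup.mem_upperCentralSeries_succ_iff]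
    intro y
    exact hZ2 _ (hstep2 r r.2 y y.2)
  · refine ⟨⟨⟨fun a b => Subtype.ext ((comm_eq_one_iff (a : G) (b : G)).mp
      (hE_comm a a.2 b b.2))⟩⟩, fun a ha => ?_⟩
    rw [pow_two]; exact hE_sq a ha
  · intro a ha b hb
    refine ⟨hstep2 a ha b hb, ?_⟩
    rw [pow_two]; exact hsq a ha
  · ext a
    constructor
    · intro h
      exact Subgroup.mem_inf.mpr ⟨((hmRz a).mp (Subgroup.mem_inf.mp h).2).1,
        ((hmRx a).mp (Subgroup.mem_inf.mp h).1).1⟩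
    · intro h
      exact Subgroup.mem_inf.mpr
        ⟨(hmRx a).mpr ⟨(Subgroup.mem_inf.mp h).2, hcen a (Subgroup.mem_inf.mp h).1⟩,
          (hmRz a).mpr ⟨(Subgroup.mem_inf.mp h).1, hcen' a (Subgroup.mem_inf.mp h).2⟩⟩
  · rw [Subgroup.commutator_le]
    intro a ha e he
    apply hWV
    rw [commutatorElement_def]
    refine (sup_induction (C := fun a => (∀ v ∈ W, a * v * a⁻¹ ∈ W) ∧
      a * e * a⁻¹ * e⁻¹ ∈ W) ha ?_ ?_ ?_ ?_).2
    · intro a ha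
      constructor
      · intro v hv
        rcases sb_of_comm d ha (Subgroup.mem_inf.mp (hWQ v hv)).1 with h | h
        · have e1 : a * v * a⁻¹ = v := by rw [h.eq, mul_inv_cancel_right]
          rw [e1]; exact hv
        · have e1 : a * v * a⁻¹ = z * v := by rw [h.eq, mul_inv_cancel_right]
          rw [e1]; exact W.mul_mem hzW hv
      · rcases hcomm a ha e (Subgroup.mem_inf.mp he).1 with h | h
        · rw [h]; exact Subgroup.one_mem _
        · rw [h]; exact hzW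
    · intro a ha
      constructor
      · intro v hv
        rcases sb_of_comm d' ha (Subgroup.mem_inf.mp (hWQ v hv)).2 with h | h
        · have e1 : a * v * a⁻¹ = v := by rw [h.eq, mul_inv_cancel_right]
          rw [e1]; exact hv
        · have e1 : a * v * a⁻¹ = x * v := by rw [h.eq, mul_inv_cancel_right]
          rw [e1]; exact W.mul_mem hxW hv
      · rcases hcomm' a ha e (Subgroup.mem_inf.mp he).2 with h | h
        · rw [h]; exact Subgroup.one_mem _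
        · rw [h]; exact hxW
    · constructor
      · intro v hv
        rw [one_mul, inv_one, mul_one]; exact hv
      · have e1 : (1 : G) * e * 1⁻¹ * e⁻¹ = 1 := by group
        rw [e1]; exact Subgroup.one_mem _
    · rintro a₁ a₂ ⟨h1a, h1b⟩ ⟨h2a, h2b⟩
      constructor
      · intro v hv
        have e1 : a₁ * a₂ * v * (a₁ * a₂)⁻¹ = a₁ * (a₂ * v * a₂⁻¹) * a₁⁻¹ := by group
        rw [e1]; exact h1a _ (h2a v hv)
      · have e1 : a₁ * a₂ * e * (a₁ * a₂)⁻¹ * e⁻¹ =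
            a₁ * (a₂ * e * a₂⁻¹ * e⁻¹) * a₁⁻¹ * (a₁ * e * a₁⁻¹ * e⁻¹) := by group
        rw [e1]; exact W.mul_mem (h1a _ h2b) h1b

end Cfsg.Agent.Helper26.LargeXS2
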