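import Mathlib
import Cfsg.Agent.Helper26.FusNormal
import Cfsg.Agent.Helper26.FrobLift
import Cfsg.Agent.Helper26.CrossTransfer

/-!
helper26: if `Aut_F(S) = Inn(S)` and `[S,S] ≤ Q ≤ Φ(S)` then every map of the saturated system `F`
defined on a subgroup `R ≥ Q` and normalizing `Q` is conjugation by an element of `S`.
Also: the normalizer system of a normal subgroup as a fusion system over `N_S(Q)`.
-/

set_option autoImplicit false

namespace Cfsg.Agent.Helper26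

open Cfsg Cfsg.FusionSystem
open scoped commutatorElement

variable {Ω : Type*} [Group Ω] {S : Subgroup Ω}

/-- The normalizer system of `Q ⊴ S`, as a fusion system over `N_S(Q)`. -/
def normalizerSys (F : FusionSystem S) (Q : Subgroup Ω) (hQ : Q ≤ S)
    (hQn : ∀ g ∈ S, ∀ x ∈ Q, g * x * g⁻¹ ∈ Q) : FusionSystem (normalizerIn S Q) where
  Hom P := F.normalizerHom Q P
  le_of_mem h := ⟨h.2.1, h.2.2.1⟩
  injective_of_mem h := F.injective_of_mem h.1
  conj_mem := by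
    intro P g hP hg
    have hPS : P ≤ S := hP.trans inf_le_left
    have hgS : g ∈ S := (mem_normalizerIn_iff.mp hg).1
    obtain ⟨h1a, h1b⟩ : conjHom P g ∈ (normSys F Q hQ hQn).Hom P :=
      (normSys F Q hQ hQn).conj_mem hPS hgS
    refine ⟨h1a, hP, fun x => ?_, h1b⟩
    show g * (x : Ω) * g⁻¹ ∈ normalizerIn S Q
    exact (normalizerIn S Q).mul_mem ((normalizerIn S Q).mul_mem hg (hP x.2))
      ((normalizerIn S Q).inv_mem hg)
  comp_mem := by
    intro P P' φ ψ hφ hψ h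
    obtain ⟨h1a, h1b⟩ : ψ.comp (φ.codRestrict P' h) ∈ (normSys F Q hQ hQn).Hom P :=
      (normSys F Q hQ hQn).comp_mem (φ := φ) (ψ := ψ) ⟨hφ.1, hφ.2.2.2⟩ ⟨hψ.1, hψ.2.2.2⟩ h
    exact ⟨h1a, hφ.2.1, fun x => hψ.2.2.1 _, h1b⟩
  inv_mem := by
    intro P φ hφ
    obtain ⟨ψ, ⟨hψa, hψb⟩, hψx⟩ := (normSys F Q hQ hQn).inv_mem (φ := φ) ⟨hφ.1, hφ.2.2.2⟩
    refine ⟨ψ, ⟨hψa, ?_, ?_, hψb⟩, hψx⟩
    · rintro _ ⟨x, rfl⟩; exact hφ.2.2.1 x
    · rintro ⟨_, x, rfl⟩
      rw [hψx]; exact hφ.2.1 x.2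

theorem isNormalizerSystem_normalizerSys (F : FusionSystem S) (Q : Subgroup Ω) (hQ : Q ≤ S)
    (hQn : ∀ g ∈ S, ∀ x ∈ Q, g * x * g⁻¹ ∈ Q) :
    F.IsNormalizerSystem Q (normalizerSys F Q hQ hQn) := fun _ => rfl

theorem comm_mem_map_commutator {a b : Ω} (ha : a ∈ S) (hb : b ∈ S) :
    a * b * a⁻¹ * b⁻¹ ∈ (commutator ↥S).map S.subtype :=
  ⟨⁅(⟨a, ha⟩ : S), ⟨b, hb⟩⁆,
    Subgroup.commutator_mem_commutator (Subgroup.mem_top _) (Subgroup.mem_top _), rfl⟩

theorem normal_of_commutator_le {R : Subgroup Ω} (hRS : R ≤ S)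
    (h : (commutator ↥S).map S.subtype ≤ R) : ∀ g ∈ S, ∀ x ∈ R, g * x * g⁻¹ ∈ R := by
  intro g hg x hx
  have h1 := R.mul_mem (h (comm_mem_map_commutator hg (hRS hx))) hx
  have e : g * x * g⁻¹ * x⁻¹ * x = g * x * g⁻¹ := by group
  rwa [e] at h1

theorem le_normalizerIn_of_normal {R : Subgroup Ω} (hRn : ∀ g ∈ S, ∀ x ∈ R, g * x * g⁻¹ ∈ R) :
    S ≤ normalizerIn S R := by
  intro g hg
  rw [mem_normalizerIn_iff]
  refine ⟨hg, fun x => ⟨hRn g hg x, fun hx => ?_⟩⟩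
  have h1 := hRn g⁻¹ (S.inv_mem hg) _ hx
  have e : g⁻¹ * (g * x * g⁻¹) * g⁻¹⁻¹ = x := by group
  rwa [e] at h1

theorem fullyNormalized_of_normal [Finite S] (F : FusionSystem S) {R : Subgroup Ω} (hRS : R ≤ S)
    (hRn : ∀ g ∈ S, ∀ x ∈ R, g * x * g⁻¹ ∈ R) : F.IsFullyNormalized R := by
  refine ⟨hRS, fun P _ => ?_⟩
  have h1 : normalizerIn S R = S := le_antisymm inf_le_left (le_normalizerIn_of_normal hRn)
  rw [h1]
  exact Subgroup.card_le_of_le (inf_le_left : S ⊓ Subgroup.normalizer (P : Set Ω) ≤ S)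

theorem hom_inner_of_frattini {p : ℕ} [Fact p.Prime] [Finite S] (hS : IsPGroup p S)
    (F : FusionSystem S) (hF : F.IsSaturated p)
    (H0 : ∀ θ ∈ F.Hom S, ∃ g ∈ S, ∀ x : S, θ x = g * (x : Ω) * g⁻¹)
    (Q : Subgroup Ω) (h1 : (commutator ↥S).map S.subtype ≤ Q)
    (h2 : Q ≤ (frattini ↥S).map S.subtype) :
    ∀ n : ℕ, ∀ R : Subgroup Ω, Nat.card S - Nat.card R = n → Q ≤ R → R ≤ S →
      ∀ ψ ∈ F.Hom R, (∀ x : R, (x : Ω) ∈ Q → ψ x ∈ Q) →
        ∃ g ∈ S, ∀ x : R, ψ x = g * (x : Ω) * g⁻¹ := by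
  classical
  have hQS : Q ≤ S := h2.trans (Subgroup.map_subtype_le _)
  have hQfr : Q.subgroupOf S ≤ frattini ↥S := by
    intro q hq
    obtain ⟨y, hy, hyq⟩ := h2 (Subgroup.mem_subgroupOf.mp hq)
    have e : y = q := Subtype.ext hyq
    rw [← e]; exact hy
  intro n
  induction n using Nat.strong_induction_on with
  | _ n ih =>
    intro R hn hQR hRS ψ hψ hψQ
    by_cases hRtop : R = S
    · subst hRtop
      exact H0 ψ hψ
    have hRn : ∀ g ∈ S, ∀ x ∈ R, g * x * g⁻¹ ∈ R := normal_of_commutator_le hRS (h1.trans hQR)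
    have hNS : S ≤ normalizerIn S R := le_normalizerIn_of_normal hRn
    haveI : Finite ↥R := finite_of_le hRS
    haveI : Finite ↥Q := finite_of_le hQS
    obtain ⟨-, hRa, hRr⟩ := sat_of_fullyNormalized hS F hF (fullyNormalized_of_normal F hRS hRn)
    -- Step 1: `ψ.range = R`
    have hψS : ∀ x : R, ψ x ∈ S := (F.le_of_mem hψ).2
    have hψsurj : ∀ y ∈ Q, ∃ x : R, ψ x = y := by
      intro y hy
      have hinj : Function.Injective
          (fun q : ↥Q => (⟨ψ ⟨q, hQR q.2⟩, hψQ _ q.2⟩ : ↥Q)) := by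
        intro a b hab
        have h3 : ψ ⟨a, hQR a.2⟩ = ψ ⟨b, hQR b.2⟩ := congrArg Subtype.val hab
        have h4 := F.injective_of_mem hψ h3
        have h5 : (a : Ω) = (b : Ω) := congrArg (Subtype.val : ↥R → Ω) h4
        exact Subtype.ext h5
      obtain ⟨q, hq⟩ := Finite.surjective_of_injective hinj ⟨y, hy⟩
      exact ⟨⟨q, hQR q.2⟩, congrArg Subtype.val hq⟩
    have hR'S : ψ.range ≤ S := by rintro _ ⟨x, rfl⟩; exact hψS x
    have hQR' : Q ≤ ψ.range := fun y hy => hψsurj y hy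
    have hR'n : ∀ g ∈ S, ∀ x ∈ ψ.range, g * x * g⁻¹ ∈ ψ.range :=
      normal_of_commutator_le hR'S (h1.trans hQR')
    obtain ⟨-, hR'a, hR'r⟩ :=
      sat_of_fullyNormalized hS F hF (fullyNormalized_of_normal F hR'S hR'n)
    obtain ⟨φ, hφ, e, he, hφe, -⟩ :=
      exists_normalizer_map hS F hR'a hR'r (⟨ψ, hψ, rfl⟩ : F.IsConj R ψ.range)
    obtain ⟨g₀, hg₀, hg₀φ⟩ := H0 _ (fs_restrict F hNS hφ)
    have he_eq : ∀ x : R, ((e x : ψ.range) : Ω) = g₀ * (x : Ω) * g₀⁻¹ := by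
      intro x
      rw [← hφe x (hNS (hRS x.2))]
      exact hg₀φ ⟨x, hRS x.2⟩
    have hrange : ψ.range = R := by
      apply le_antisymm
      · intro y hy
        have h3 := he_eq (e.symm ⟨y, hy⟩)
        rw [MulEquiv.apply_symm_apply] at h3
        have h4 : y = g₀ * ((e.symm ⟨y, hy⟩ : R) : Ω) * g₀⁻¹ := h3
        rw [h4]
        exact hRn g₀ hg₀ _ (e.symm ⟨y, hy⟩).2
      · intro x hx
        have h3 : g₀⁻¹ * x * g₀⁻¹⁻¹ ∈ R := hRn g₀⁻¹ (S.inv_mem hg₀) x hx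
        have h4 : ((e ⟨_, h3⟩ : ψ.range) : Ω) = g₀ * (g₀⁻¹ * x * g₀⁻¹⁻¹) * g₀⁻¹ := he_eq ⟨_, h3⟩
        have e5 : g₀ * (g₀⁻¹ * x * g₀⁻¹⁻¹) * g₀⁻¹ = x := by group
        rw [e5] at h4
        rw [← h4]; exact (e ⟨_, h3⟩).2
    -- Step 2: reduce to an automorphism
    obtain ⟨α, hα, hαψ⟩ := exists_iso_of_hom F hψ hrange
    suffices hαA : α ∈ autInducedBy S R by
      obtain ⟨g, hg, hgα⟩ := (mem_autInducedBy_iff S R α).mp hαA
      exact ⟨g, hg, fun x => by rw [← hαψ x]; exact hgα x⟩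
    have hαQ : ∀ x : R, (x : Ω) ∈ Q → ((α x : R) : Ω) ∈ Q := fun x hx => by
      rw [hαψ]; exact hψQ x hx
    -- the extension principle
    have hEx : ∀ β : MulAut R, β ∈ F.autGroup R →
        (∀ x : R, (x : Ω) ∈ Q → ((β x : R) : Ω) ∈ Q) → ∀ s ∈ S, s ∉ R →
        (∃ h ∈ S, ∀ x y : R, (y : Ω) = s * x * s⁻¹ →
          ((β y : R) : Ω) = h * ((β x : R) : Ω) * h⁻¹) → β ∈ autInducedBy S R := by
      intro β hβ hβQ s hs hsR hex
      have hβiso : IsIso F β := (mem_autGroup_iff F hRS β).mp hβ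
      have hφ₀ : R.subtype.comp β.toMonoidHom ∈ F.Hom R := hβiso.hom_mem (fun x => rfl)
      have hrange₀ : (R.subtype.comp β.toMonoidHom).range = R := by
        ext y; constructor
        · rintro ⟨x, rfl⟩; exact (β x).2
        · intro hy
          refine ⟨β.symm ⟨y, hy⟩, ?_⟩
          show ((β (β.symm ⟨y, hy⟩) : R) : Ω) = y
          rw [MulEquiv.apply_symm_apply]
      obtain ⟨χ, hχ, hχx⟩ := hRr.2 R _ hφ₀ hrange₀
      have hsR₁ : s ∈ extender S R (R.subtype.comp β.toMonoidHom) := by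
        rw [mem_extender_iff']
        refine ⟨hs, (Subgroup.mem_inf.mp (hNS hs)).2, ?_⟩
        obtain ⟨h, hh, hx⟩ := hex
        exact ⟨h, hh, fun x y hxy => hx x y hxy⟩
      have hRR₁ : R ≤ extender S R (R.subtype.comp β.toMonoidHom) := le_extender F hφ₀
      have hR₁S : extender S R (R.subtype.comp β.toMonoidHom) ≤ S :=
        (extender_le_normalizerIn S R _).trans inf_le_left
      have hcard : Nat.card R < Nat.card (extender S R (R.subtype.comp β.toMonoidHom)) :=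
        card_lt_of_mem_not_mem hR₁S hRR₁ hsR₁ hsR
      have hlt : Nat.card S - Nat.card (extender S R (R.subtype.comp β.toMonoidHom)) < n := by
        rw [← hn]
        have h3 : Nat.card (extender S R (R.subtype.comp β.toMonoidHom)) ≤ Nat.card S :=
          Subgroup.card_le_of_le hR₁S
        omega
      obtain ⟨g, hg, hgχ⟩ := ih _ hlt _ rfl (hQR.trans hRR₁) hR₁S χ hχ (fun x hxQ => by
        have hxR : (x : Ω) ∈ R := hQR hxQ
        have h3 : χ x = ((β ⟨x, hxR⟩ : R) : Ω) := hχx (x : Ω) hxR x.2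
        rw [h3]
        exact hβQ ⟨x, hxR⟩ hxQ)
      rw [mem_autInducedBy_iff]
      refine ⟨g, hg, fun x => ?_⟩
      have h3 := hgχ ⟨x, hRR₁ x.2⟩
      have h4 : χ ⟨x, hRR₁ x.2⟩ = ((β x : R) : Ω) := hχx (x : Ω) x.2 (hRR₁ x.2)
      rw [h4] at h3
      exact h3
    obtain ⟨s₀, hs₀N, hs₀R⟩ := exists_normalizerIn_not_mem hS hRS hRtop
    have hs₀S : s₀ ∈ S := (mem_normalizerIn_iff.mp hs₀N).1
    -- the group `Γ` of automorphisms acting trivially on `R / Q`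
    obtain ⟨Γ, hΓ⟩ : ∃ Γ : Subgroup (MulAut R), ∀ β, β ∈ Γ ↔
        β ∈ F.autGroup R ∧ ∀ x : R, (x : Ω)⁻¹ * ((β x : R) : Ω) ∈ Q := by
      refine ⟨{ carrier := {β | β ∈ F.autGroup R ∧ ∀ x : R, (x : Ω)⁻¹ * ((β x : R) : Ω) ∈ Q}
                mul_mem' := ?_
                one_mem' := ?_
                inv_mem' := ?_ }, fun β => Iff.rfl⟩
      · rintro a b ⟨ha, haQ⟩ ⟨hb, hbQ⟩
        refine ⟨(F.autGroup R).mul_mem ha hb, fun x => ?_⟩
        have e1 : (x : Ω)⁻¹ * (((a * b) x : R) : Ω) =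
            ((x : Ω)⁻¹ * ((b x : R) : Ω)) * (((b x : R) : Ω)⁻¹ * ((a (b x) : R) : Ω)) := by
          rw [MulAut.mul_apply]; group
        rw [e1]; exact Q.mul_mem (hbQ x) (haQ (b x))
      · refine ⟨(F.autGroup R).one_mem, fun x => ?_⟩
        rw [MulAut.one_apply, inv_mul_cancel]; exact Q.one_mem
      · rintro a ⟨ha, haQ⟩
        refine ⟨(F.autGroup R).inv_mem ha, fun x => ?_⟩
        have h3 := haQ (a⁻¹ x)
        rw [MulAut.apply_inv_self] at h3
        have e1 : (x : Ω)⁻¹ * ((a⁻¹ x : R) : Ω) = (((a⁻¹ x : R) : Ω)⁻¹ * (x : Ω))⁻¹ := by group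
        rw [e1]; exact Q.inv_mem h3
    have hΓQ : ∀ β ∈ Γ, ∀ x : R, (x : Ω) ∈ Q → ((β x : R) : Ω) ∈ Q := by
      intro β hβ x hx
      have h3 := Q.mul_mem hx (((hΓ β).mp hβ).2 x)
      rwa [mul_inv_cancel_left] at h3
    -- the conjugation homomorphism
    obtain ⟨cR, hcR⟩ : ∃ cR : ↥S →* MulAut ↥R,
        ∀ (s : ↥S) (x : ↥R), ((cR s x : R) : Ω) = s * x * (s : Ω)⁻¹ := by
      refine ⟨{ toFun := fun s => conjAut R s (Subgroup.mem_inf.mp (hNS s.2)).2
                map_one' := ?_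
                map_mul' := ?_ }, fun s x => conjAut_apply R s _ x⟩
      · apply MulEquiv.ext; intro x; apply Subtype.ext
        rw [conjAut_apply]; simp
      · intro a b; apply MulEquiv.ext; intro x; apply Subtype.ext
        rw [MulAut.mul_apply, conjAut_apply, conjAut_apply, conjAut_apply]
        simp [mul_assoc]
    have hcRΓ : ∀ s : ↥S, cR s ∈ Γ := by
      intro s
      rw [hΓ]
      refine ⟨autInducedBy_le_autGroup F hRS
        ((mem_autInducedBy_iff S R _).mpr ⟨s, s.2, hcR s⟩), fun x => ?_⟩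
      rw [hcR]
      have h3 := h1 (comm_mem_map_commutator (S.inv_mem (hRS x.2)) s.2)
      have e1 : (x : Ω)⁻¹ * (s : Ω) * (x : Ω)⁻¹⁻¹ * (s : Ω)⁻¹ =
          (x : Ω)⁻¹ * ((s : Ω) * x * (s : Ω)⁻¹) := by group
      rwa [e1] at h3
    obtain ⟨cΓ, hcΓ⟩ : ∃ cΓ : ↥S →* ↥Γ, ∀ s, ((cΓ s : ↥Γ) : MulAut ↥R) = cR s :=
      ⟨cR.codRestrict Γ hcRΓ, fun _ => rfl⟩
    have hAmem : ∀ γ : ↥Γ, γ ∈ cΓ.range ↔ (γ : MulAut ↥R) ∈ autInducedBy S R := by
      intro γ
      rw [mem_autInducedBy_iff]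
      constructor
      · rintro ⟨s, rfl⟩
        exact ⟨s, s.2, fun x => by rw [hcΓ]; exact hcR s x⟩
      · rintro ⟨g, hg, hgx⟩
        refine ⟨⟨g, hg⟩, Subtype.ext ?_⟩
        rw [hcΓ]
        apply MulEquiv.ext; intro x; apply Subtype.ext
        rw [hcR, hgx]
    have hAΓ : autInducedBy S R ≤ Γ := by
      intro β hβ
      obtain ⟨g, hg, hgx⟩ := (mem_autInducedBy_iff S R β).mp hβ
      have e1 : β = cR ⟨g, hg⟩ := by
        apply MulEquiv.ext; intro x; apply Subtype.ext; rw [hcR, hgx]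
      rw [e1]; exact hcRΓ _
    -- it suffices that `Γ` is induced by `S`
    suffices hΓA : Γ ≤ autInducedBy S R by
      apply hEx α ((mem_autGroup_iff F hRS α).mpr hα) hαQ s₀ hs₀S hs₀R
      have hβ' : α * cR ⟨s₀, hs₀S⟩ * α⁻¹ ∈ Γ := by
        rw [hΓ]
        have hαG : α ∈ F.autGroup R := (mem_autGroup_iff F hRS α).mpr hα
        refine ⟨(F.autGroup R).mul_mem ((F.autGroup R).mul_mem hαG
          ((hΓ _).mp (hcRΓ ⟨s₀, hs₀S⟩)).1) ((F.autGroup R).inv_mem hαG), fun x => ?_⟩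
        have h3 := ((hΓ _).mp (hcRΓ ⟨s₀, hs₀S⟩)).2 (α⁻¹ x)
        have h4 := hαQ ((α⁻¹ x)⁻¹ * cR ⟨s₀, hs₀S⟩ (α⁻¹ x)) h3
        rw [map_mul, map_inv, MulAut.apply_inv_self] at h4
        rw [MulAut.mul_apply, MulAut.mul_apply]
        exact h4
      obtain ⟨h, hh, hhx⟩ := (mem_autInducedBy_iff S R _).mp (hΓA hβ')
      refine ⟨h, hh, fun x y hxy => ?_⟩
      have hy : y = cR ⟨s₀, hs₀S⟩ x := Subtype.ext (by rw [hcR]; exact hxy)
      have h3 := hhx (α x)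
      rw [MulAut.mul_apply, MulAut.mul_apply, MulAut.inv_apply_self] at h3
      rw [hy]; exact h3
    -- hypotheses of the complement lemma, in the group `Γ`
    have hAp : IsPGroup p ↥cΓ.range := by
      rintro ⟨γ, s, rfl⟩
      obtain ⟨k, hk⟩ := hS s
      refine ⟨k, Subtype.ext ?_⟩
      rw [Subgroup.coe_pow, Subgroup.coe_one, ← map_pow, hk, map_one]
    have hAi : ¬ p ∣ (cΓ.range).index := by
      obtain ⟨P₀, hP₀⟩ := hRa.2
      have h3 : ¬ p ∣ (autInducedBy S R).relIndex (F.autGroup R) := by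
        have h4 := P₀.not_dvd_index
        rw [hP₀] at h4
        exact h4
      have hΓle : Γ ≤ F.autGroup R := fun β hβ => ((hΓ β).mp hβ).1
      have h4 : (autInducedBy S R).relIndex Γ ∣ (autInducedBy S R).relIndex (F.autGroup R) :=
        Dvd.intro _ (Subgroup.relIndex_mul_relIndex _ _ _ hAΓ hΓle)
      have h5 : cΓ.range = (autInducedBy S R).subgroupOf Γ := by
        ext γ; rw [hAmem, Subgroup.mem_subgroupOf]
      rw [h5]
      intro hdvd
      exact h3 (hdvd.trans h4)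
    haveI hJn : ((Q.subgroupOf S).map cΓ).Normal := by
      refine ⟨fun j hj γ => ?_⟩
      obtain ⟨q, hq, rfl⟩ := hj
      have hqQ : ((q : ↥S) : Ω) ∈ Q := Subgroup.mem_subgroupOf.mp hq
      have hγq : (((γ : MulAut ↥R) ⟨q, hQR hqQ⟩ : R) : Ω) ∈ Q :=
        hΓQ γ γ.2 ⟨q, hQR hqQ⟩ hqQ
      refine ⟨⟨(((γ : MulAut ↥R) ⟨q, hQR hqQ⟩ : R) : Ω), hQS hγq⟩,
        Subgroup.mem_subgroupOf.mpr hγq, ?_⟩
      apply Subtype.ext
      rw [hcΓ, Subgroup.coe_mul, Subgroup.coe_mul, Subgroup.coe_inv, hcΓ]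
      apply MulEquiv.ext; intro x; apply Subtype.ext
      rw [hcR, MulAut.mul_apply, MulAut.mul_apply]
      have h3 : cR q ((γ : MulAut ↥R)⁻¹ x) =
          ⟨q, hQR hqQ⟩ * ((γ : MulAut ↥R)⁻¹ x) * (⟨q, hQR hqQ⟩ : ↥R)⁻¹ :=
        Subtype.ext (by rw [hcR]; rfl)
      rw [h3, map_mul, map_mul, map_inv, MulAut.apply_inv_self]
      rfl
    have hab : ∀ a ∈ cΓ.range, ∀ b ∈ cΓ.range, a * b * a⁻¹ * b⁻¹ ∈ (Q.subgroupOf S).map cΓ := by
      rintro _ ⟨s, rfl⟩ _ ⟨t, rfl⟩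
      refine ⟨s * t * s⁻¹ * t⁻¹,
        Subgroup.mem_subgroupOf.mpr (h1 (comm_mem_map_commutator s.2 t.2)), ?_⟩
      rw [map_mul, map_mul, map_mul, map_inv, map_inv]
    have hE : ∀ γ : ↥Γ, (∀ a ∈ cΓ.range, γ * a * γ⁻¹ ∈ cΓ.range) → γ ∈ cΓ.range := by
      intro γ hnorm
      obtain ⟨h, hh, hhx⟩ := (mem_autInducedBy_iff S R _).mp
        ((hAmem _).mp (hnorm (cΓ ⟨s₀, hs₀S⟩) ⟨_, rfl⟩))
      apply (hAmem γ).mpr
      apply hEx (γ : MulAut R) ((hΓ _).mp γ.2).1 (hΓQ γ γ.2) s₀ hs₀S hs₀R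
      refine ⟨h, hh, fun x y hxy => ?_⟩
      have hy : y = cR ⟨s₀, hs₀S⟩ x := Subtype.ext (by rw [hcR]; exact hxy)
      have h3 := hhx ((γ : MulAut R) x)
      rw [Subgroup.coe_mul, Subgroup.coe_mul, Subgroup.coe_inv, hcΓ, MulAut.mul_apply,
        MulAut.mul_apply, MulAut.inv_apply_self] at h3
      rw [hy]; exact h3
    have hF2 : ∀ B : Subgroup ↥Γ, B ≤ cΓ.range →
        (∀ a ∈ cΓ.range, ∃ j ∈ (Q.subgroupOf S).map cΓ, j⁻¹ * a ∈ B) → cΓ.range ≤ B := by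
      intro B _ hB
      have hsup : B.comap cΓ ⊔ frattini ↥S = ⊤ := by
        rw [eq_top_iff]
        intro s _
        obtain ⟨j, hj, hjB⟩ := hB (cΓ s) ⟨s, rfl⟩
        obtain ⟨q, hq, rfl⟩ := hj
        have hqF : q ∈ frattini ↥S := hQfr hq
        have h3 : q⁻¹ * s ∈ B.comap cΓ := by
          rw [Subgroup.mem_comap, map_mul, map_inv]; exact hjB
        have h4 : q * (q⁻¹ * s) ∈ frattini ↥S ⊔ B.comap cΓ := Subgroup.mul_mem_sup hqF h3
        rw [mul_inv_cancel_left] at h4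
        rw [sup_comm]; exact h4
      have htop := frattini_nongenerating hsup
      rintro _ ⟨s, rfl⟩
      have h3 : s ∈ B.comap cΓ := by rw [htop]; trivial
      exact h3
    obtain ⟨H, hHnorm, hHcop, hHA⟩ := exists_normalized_complement (p := p) cΓ.range
      ((Q.subgroupOf S).map cΓ) (Subgroup.map_le_range _ _) hAp hAi hab hE hF2
    have hAH : ∀ h : ↥Γ, h ∈ cΓ.range → h ∈ H → h = 1 := by
      intro h hhA hhH
      obtain ⟨k, hk⟩ := hAp ⟨h, hhA⟩
      have hk' : h ^ p ^ k = 1 := congrArg Subtype.val hk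
      have h5 : orderOf h ∣ p ^ k := orderOf_dvd_of_pow_eq_one hk'
      have h6 : orderOf h ∣ Nat.card H := by
        have h7 := orderOf_dvd_natCard (⟨h, hhH⟩ : H)
        rwa [Subgroup.orderOf_mk] at h7
      have hc' : (orderOf h).Coprime (p ^ k) :=
        Nat.Coprime.coprime_dvd_left h6 (Nat.Coprime.pow_right k hHcop)
      exact orderOf_eq_one_iff.mp (Nat.Coprime.eq_one_of_dvd hc' h5)
    -- the transfer lemma
    have hHbot : H.map Γ.subtype = ⊥ := by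
      apply aut_trivial_of_frattini (p := p) hS (Subgroup.inclusion hRS)
        (Subgroup.inclusion_injective hRS) cR
        (fun g r => Subtype.ext (hcR g r)) (H.map Γ.subtype) ?_ ?_ ?_ ?_ (Q.subgroupOf S) hQfr ?_
      · rintro g _ ⟨h, hh, rfl⟩
        refine ⟨cΓ g * h * (cΓ g)⁻¹, hHnorm (cΓ g) ⟨g, rfl⟩ h hh, ?_⟩
        rw [map_mul, map_mul, map_inv, Subgroup.subtype_apply, Subgroup.subtype_apply, hcΓ]
      · rintro g hg _ ⟨h, hh, rfl⟩ heq
        rw [Subgroup.subtype_apply] at heq ⊢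
        have hgR : (g : Ω) ∉ R := fun hgR => hg ⟨⟨g, hgR⟩, Subtype.ext rfl⟩
        have hcomm : cR g * (h : MulAut R) = (h : MulAut R) * cR g := by
          calc cR g * (h : MulAut R) = cR g * (h : MulAut R) * (cR g)⁻¹ * cR g := by group
            _ = (h : MulAut R) * cR g := by rw [heq]
        have h3 : (h : MulAut R) ∈ autInducedBy S R := by
          apply hEx (h : MulAut R) ((hΓ _).mp h.2).1 (hΓQ h h.2) g g.2 hgR
          refine ⟨g, g.2, fun x y hxy => ?_⟩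
          have hy : y = cR g x := Subtype.ext (by rw [hcR]; exact hxy)
          have h4 := congrArg (fun f : MulAut R => ((f x : R) : Ω)) hcomm
          simp only [MulAut.mul_apply] at h4
          rw [hcR] at h4
          rw [hy]; exact h4.symm
        have h4 := hAH h ((hAmem h).mpr h3) hh
        rw [h4]; rfl
      · rintro _ ⟨h, hh, rfl⟩ r r'
        rw [Subgroup.subtype_apply]
        obtain ⟨ρ, hρ⟩ : ∃ ρ : ↥S, (ρ : Ω) = r := ⟨⟨r, hRS r.2⟩, rfl⟩
        have hcRr : ∀ x : ↥R, cR ρ x = r * x * r⁻¹ := by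
          intro x; apply Subtype.ext; rw [hcR, hρ]; rfl
        have hinv : ∀ x : ↥R, (cR ρ)⁻¹ x = r⁻¹ * x * r := by
          intro x
          have h8 : cR ρ (r⁻¹ * x * r) = x := by rw [hcRr]; group
          conv_lhs => rw [← h8]
          rw [MulAut.inv_apply_self]
        have hkH : h * cΓ ρ * h⁻¹ * (cΓ ρ)⁻¹ ∈ H := by
          have h3 := H.mul_mem hh (hHnorm (cΓ ρ) ⟨ρ, rfl⟩ h⁻¹ (H.inv_mem hh))
          have e1 : h * (cΓ ρ * h⁻¹ * (cΓ ρ)⁻¹) = h * cΓ ρ * h⁻¹ * (cΓ ρ)⁻¹ := by group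
          rwa [e1] at h3
        have hkx : ∀ x : ↥R, ((h * cΓ ρ * h⁻¹ * (cΓ ρ)⁻¹ : ↥Γ) : MulAut R) x =
            ((h : MulAut R) r * r⁻¹) * x * ((h : MulAut R) r * r⁻¹)⁻¹ := by
          intro x
          rw [Subgroup.coe_mul, Subgroup.coe_mul, Subgroup.coe_mul, Subgroup.coe_inv,
            Subgroup.coe_inv, hcΓ, MulAut.mul_apply, MulAut.mul_apply, MulAut.mul_apply, hinv,
            hcRr, map_mul, map_mul, map_inv, MulAut.apply_inv_self]
          group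
        have hkA : h * cΓ ρ * h⁻¹ * (cΓ ρ)⁻¹ ∈ cΓ.range := by
          rw [hAmem, mem_autInducedBy_iff]
          refine ⟨(((h : MulAut R) r * r⁻¹ : ↥R) : Ω), hRS ((h : MulAut R) r * r⁻¹).2, fun x => ?_⟩
          rw [hkx]; rfl
        have hk1 := hAH _ hkA hkH
        have hk1x : ∀ x : ↥R, ((h : MulAut R) r * r⁻¹) * x * ((h : MulAut R) r * r⁻¹)⁻¹ = x := by
          intro x
          rw [← hkx, hk1]; rfl
        have hζ : ∀ x : ↥R, ((h : MulAut R) r * r⁻¹) * x = x * ((h : MulAut R) r * r⁻¹) := by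
          intro x
          have h3 := hk1x x
          calc ((h : MulAut R) r * r⁻¹) * x
              = ((h : MulAut R) r * r⁻¹) * x * ((h : MulAut R) r * r⁻¹)⁻¹ *
                  ((h : MulAut R) r * r⁻¹) := by group
            _ = x * ((h : MulAut R) r * r⁻¹) := by rw [h3]
        have e1 : r⁻¹ * (h : MulAut R) r = (h : MulAut R) r * r⁻¹ := by
          have h3 := hζ r
          calc r⁻¹ * (h : MulAut R) r = r⁻¹ * (((h : MulAut R) r * r⁻¹) * r) := by group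
            _ = r⁻¹ * (r * ((h : MulAut R) r * r⁻¹)) := by rw [h3]
            _ = (h : MulAut R) r * r⁻¹ := by group
        rw [e1]; exact hζ r'
      · rw [Subgroup.card_map_of_injective Γ.subtype_injective]; exact hHcop
      · rintro _ ⟨h, hh, rfl⟩ r
        rw [Subgroup.subtype_apply]
        exact Subgroup.mem_subgroupOf.mpr (((hΓ _).mp h.2).2 r)
    have hHbot' : H = ⊥ := (Subgroup.map_eq_bot_iff_of_injective H Γ.subtype_injective).mp hHbot
    intro β hβ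
    obtain ⟨h, hh, a, ha, hβa⟩ := hHA ⟨β, hβ⟩
    rw [hHbot', Subgroup.mem_bot] at hh
    rw [hh, one_mul] at hβa
    have h3 := (hAmem a).mp ha
    rw [← hβa] at h3
    exact h3

end Cfsg.Agent.Helper26
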