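import Mathlib

set_option autoImplicit false

namespace Cfsg.Agent.Helper26

/-- If `f^[r] x = x` with `r` odd and `δ = f x - x` is a fixed point of `f` killed by `2`, then
`f x = x`. -/
theorem fix_of_odd_iter {A : Type*} [AddCommGroup A] (f : A →+ A) (r : ℕ) (hr : Odd r) (x : A)
    (hx : f^[r] x = x) (h2 : (2 : ℕ) • (f x - x) = 0) (hδ : f (f x - x) = f x - x) : f x = x := by
  have key : ∀ k : ℕ, f^[k] x = x + k • (f x - x) := by
    intro k
    induction k with
    | zero => simp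
    | succ k ih =>
      rw [Function.iterate_succ_apply', ih, map_add, map_nsmul, hδ, succ_nsmul]
      abel
  have h1 := key r
  rw [hx] at h1
  have h3 : r • (f x - x) = 0 := add_left_cancel (a := x) (by rw [add_zero]; exact h1.symm)
  obtain ⟨m, rfl⟩ := hr
  have h4 : (2 * m + 1) • (f x - x) = m • ((2 : ℕ) • (f x - x)) + (f x - x) := by
    rw [add_nsmul, one_nsmul, two_mul, add_nsmul, two_nsmul, nsmul_add]
  rw [h4, h2, nsmul_zero, zero_add] at h3
  exact sub_eq_zero.1 h3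

/-- The elements of order dividing `2` in `ℤ/2^a`. -/
theorem zmod_two_torsion (a : ℕ) (ha : 1 ≤ a) (c : ZMod (2 ^ a)) (hc : (2 : ℕ) • c = 0) :
    c = 0 ∨ c = ((2 ^ (a - 1) : ℕ) : ZMod (2 ^ a)) := by
  obtain ⟨b, rfl⟩ : ∃ b, a = b + 1 := ⟨a - 1, by omega⟩
  haveI : NeZero (2 ^ (b + 1)) := ⟨by positivity⟩
  rw [nsmul_eq_mul] at hc
  have h1 : ((2 * c.val : ℕ) : ZMod (2 ^ (b + 1))) = 0 := by
    rw [Nat.cast_mul, ZMod.natCast_zmod_val]
    exact hc
  have h2 : 2 ^ (b + 1) ∣ 2 * c.val := (ZMod.natCast_eq_zero_iff _ _).1 h1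
  have h3 : 2 ^ b ∣ c.val := by
    have h2' : 2 * 2 ^ b ∣ 2 * c.val := by
      rw [← pow_succ']; exact h2
    exact Nat.dvd_of_mul_dvd_mul_left (by norm_num) h2'
  have h4 : c.val < 2 ^ (b + 1) := ZMod.val_lt c
  obtain ⟨t, ht⟩ := h3
  have ht2 : t < 2 := by
    rw [ht, pow_succ] at h4
    exact Nat.lt_of_mul_lt_mul_left h4
  have hc' : ((c.val : ℕ) : ZMod (2 ^ (b + 1))) = c := ZMod.natCast_zmod_val c
  rw [ht] at hc'
  interval_cases t
  · left; rw [← hc']; simp
  · right; rw [← hc']; simp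

section pi

variable {n : ℕ} (a : Fin n → ℕ)

theorem pi_smul_apply_eq_zero
    (g : ((i : Fin n) → ZMod (2 ^ a i)) →+ ((i : Fin n) → ZMod (2 ^ a i)))
    (y : (i : Fin n) → ZMod (2 ^ a i)) (m : ℕ) (i : Fin n) (h : a i ≤ m) :
    (g ((2 ^ m : ℕ) • y)) i = 0 := by
  rw [map_nsmul, Pi.smul_apply, nsmul_eq_mul]
  have h0 : ((2 ^ m : ℕ) : ZMod (2 ^ a i)) = 0 :=
    (ZMod.natCast_eq_zero_iff _ _).2 (pow_dvd_pow 2 h)
  rw [h0, zero_mul]

theorem exists_eq_smul (ha : StrictMono a) (ha1 : ∀ i, 1 ≤ a i)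
    (x : (i : Fin n) → ZMod (2 ^ a i)) (h2 : (2 : ℕ) • x = 0) (jj : Fin n)
    (hx : ∀ i : Fin n, i < jj → x i = 0) :
    ∃ y : (i : Fin n) → ZMod (2 ^ a i), x = (2 ^ (a jj - 1) : ℕ) • y := by
  classical
  refine ⟨fun i => if x i = 0 then 0 else ((2 ^ (a i - a jj) : ℕ) : ZMod (2 ^ a i)), ?_⟩
  funext i
  show x i = (2 ^ (a jj - 1) : ℕ) •
    (if x i = 0 then 0 else ((2 ^ (a i - a jj) : ℕ) : ZMod (2 ^ a i)))
  by_cases hi : x i = 0
  · rw [if_pos hi, hi, nsmul_zero]
  · rw [if_neg hi]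
    have hij : jj ≤ i := not_lt.1 (fun h => hi (hx i h))
    have haij : a jj ≤ a i := ha.monotone hij
    have harith : a i - 1 = a jj - 1 + (a i - a jj) := by
      have := ha1 jj
      omega
    rcases zmod_two_torsion (a i) (ha1 i) (x i) (congrFun h2 i) with h | h
    · exact absurd h hi
    · rw [h, nsmul_eq_mul, ← Nat.cast_mul, ← pow_add, ← harith]

theorem fix_two_torsion (ha : StrictMono a) (ha1 : ∀ i, 1 ≤ a i)
    (f : ((i : Fin n) → ZMod (2 ^ a i)) →+ ((i : Fin n) → ZMod (2 ^ a i))) (r : ℕ) (hr : Odd r)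
    (hfr : ∀ x, f^[r] x = x) :
    ∀ (k j : ℕ), j + k = n → ∀ x : (i : Fin n) → ZMod (2 ^ a i), (2 : ℕ) • x = 0 →
      (∀ i : Fin n, (i : ℕ) < j → x i = 0) → f x = x := by
  have hinj : Function.Injective f := by
    intro u v huv
    obtain ⟨m, rfl⟩ : ∃ m, r = m + 1 := by
      obtain ⟨m, rfl⟩ := hr
      exact ⟨2 * m, rfl⟩
    have h1 := hfr u
    have h2 := hfr v
    rw [Function.iterate_succ_apply] at h1 h2
    rw [← h1, ← h2, huv]
  intro k
  induction k with
  | zero =>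
    intro j hj x _ hx
    have hx0 : x = 0 := by
      funext i
      exact hx i (by have := i.2; omega)
    rw [hx0, map_zero]
  | succ k ih =>
    intro j hj x h2x hx
    have hjn : j < n := by omega
    have IH := ih (j + 1) (by omega)
    have key : ∀ y : (i : Fin n) → ZMod (2 ^ a i), (2 : ℕ) • y = 0 →
        (∀ i : Fin n, (i : ℕ) < j → y i = 0) →
        ((2 : ℕ) • f y = 0) ∧ (∀ i : Fin n, (i : ℕ) < j → (f y) i = 0) := by
      intro y h2y hy
      refine ⟨by rw [← map_nsmul, h2y, map_zero], fun i hi => ?_⟩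
      obtain ⟨z, hz⟩ := exists_eq_smul a ha ha1 y h2y ⟨j, hjn⟩ (fun i' hi' => hy i' hi')
      rw [hz]
      refine pi_smul_apply_eq_zero a f z _ i ?_
      have : a i < a ⟨j, hjn⟩ := ha (show i < ⟨j, hjn⟩ from hi)
      omega
    obtain ⟨h2fx, hfx⟩ := key x h2x hx
    have hstep : ∀ y : (i : Fin n) → ZMod (2 ^ a i), (2 : ℕ) • y = 0 →
        (∀ i : Fin n, (i : ℕ) < j → y i = 0) → y ⟨j, hjn⟩ = 0 → f y = y := by
      intro y h2y hy hyj
      refine IH y h2y (fun i hi => ?_)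
      rcases Nat.lt_succ_iff_lt_or_eq.1 hi with h | h
      · exact hy i h
      · have hij : i = ⟨j, hjn⟩ := Fin.ext h
        rw [hij]; exact hyj
    by_cases hxj : x ⟨j, hjn⟩ = 0
    · exact hstep x h2x hx hxj
    · rcases zmod_two_torsion _ (ha1 ⟨j, hjn⟩) (x ⟨j, hjn⟩) (congrFun h2x _) with h | hc
      · exact absurd h hxj
      · rcases zmod_two_torsion _ (ha1 ⟨j, hjn⟩) ((f x) ⟨j, hjn⟩) (congrFun h2fx _) with h0 | hc'
        · exfalso
          have h5 := hstep (f x) h2fx hfx h0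
          have h6 := hinj h5
          rw [h6] at h0
          exact hxj h0
        · have hδ2 : (2 : ℕ) • (f x - x) = 0 := by rw [nsmul_sub, h2fx, h2x, sub_zero]
          have hδ : f (f x - x) = f x - x := by
            refine hstep _ hδ2 (fun i hi => ?_) ?_
            · show (f x) i - x i = 0
              rw [hfx i hi, hx i hi, sub_zero]
            · show (f x) ⟨j, hjn⟩ - x ⟨j, hjn⟩ = 0
              rw [hc, hc', sub_self]
          exact fix_of_odd_iter f r hr x (hfr x) hδ2 hδ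

theorem fix_all (ha : StrictMono a) (ha1 : ∀ i, 1 ≤ a i)
    (f : ((i : Fin n) → ZMod (2 ^ a i)) →+ ((i : Fin n) → ZMod (2 ^ a i))) (r : ℕ) (hr : Odd r)
    (hfr : ∀ x, f^[r] x = x) (x : (i : Fin n) → ZMod (2 ^ a i)) : f x = x := by
  have hA : ∀ y : (i : Fin n) → ZMod (2 ^ a i), (2 : ℕ) • y = 0 → f y = y := fun y hy =>
    fix_two_torsion a ha ha1 f r hr hfr n 0 (zero_add n) y hy
      (fun i hi => absurd hi (Nat.not_lt_zero _))
  have hB : ∀ k : ℕ, ∀ y : (i : Fin n) → ZMod (2 ^ a i), (2 ^ k : ℕ) • y = 0 → f y = y := by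
    intro k
    induction k with
    | zero =>
      intro y hy
      rw [pow_zero, one_nsmul] at hy
      rw [hy, map_zero]
    | succ k ih =>
      intro y hy
      have h0 : (2 ^ k : ℕ) • ((2 : ℕ) • y) = 0 := by
        rw [smul_smul, ← pow_succ]; exact hy
      have h1 : f ((2 : ℕ) • y) = (2 : ℕ) • y := ih _ h0
      have hδ2 : (2 : ℕ) • (f y - y) = 0 := by
        rw [nsmul_sub, ← map_nsmul, h1, sub_self]
      exact fix_of_odd_iter f r hr y (hfr y) hδ2 (hA _ hδ2)
  refine hB (∑ i, a i) x ?_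
  funext i
  show (2 ^ (∑ i, a i) : ℕ) • x i = 0
  rw [nsmul_eq_mul]
  have h0 : ((2 ^ (∑ i, a i) : ℕ) : ZMod (2 ^ a i)) = 0 :=
    (ZMod.natCast_eq_zero_iff _ _).2
      (pow_dvd_pow 2 (Finset.single_le_sum (fun _ _ => Nat.zero_le _) (Finset.mem_univ i)))
  rw [h0, zero_mul]

/-- An automorphism of odd order of a product of cyclic `2`-groups of pairwise distinct orders is
trivial. -/
theorem mulAut_eq_one_of_odd {G : Type*} [Group G] (ha : StrictMono a) (ha1 : ∀ i, 1 ≤ a i)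
    (e : G ≃* Multiplicative ((i : Fin n) → ZMod (2 ^ a i))) (α : MulAut G)
    (r : ℕ) (hr : Odd r) (hα : α ^ r = 1) : α = 1 := by
  let f : ((i : Fin n) → ZMod (2 ^ a i)) →+ ((i : Fin n) → ZMod (2 ^ a i)) :=
    AddMonoidHom.mk' (fun m => Multiplicative.toAdd (e (α (e.symm (Multiplicative.ofAdd m)))))
      (by
        intro x y
        show Multiplicative.toAdd (e (α (e.symm (Multiplicative.ofAdd (x + y)))))
          = Multiplicative.toAdd (e (α (e.symm (Multiplicative.ofAdd x))))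
            + Multiplicative.toAdd (e (α (e.symm (Multiplicative.ofAdd y))))
        rw [ofAdd_add, map_mul, map_mul, map_mul, toAdd_mul])
  have hf : ∀ m, f m = Multiplicative.toAdd (e (α (e.symm (Multiplicative.ofAdd m)))) :=
    fun m => rfl
  have hiter : ∀ (k : ℕ) (m : (i : Fin n) → ZMod (2 ^ a i)),
      f^[k] m = Multiplicative.toAdd (e ((α ^ k) (e.symm (Multiplicative.ofAdd m)))) := by
    intro k
    induction k with
    | zero => intro m; simp
    | succ k ih =>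
      intro m
      rw [Function.iterate_succ_apply', ih, hf, pow_succ', MulAut.mul_apply]
      simp
  have hfr : ∀ m, f^[r] m = m := by
    intro m
    rw [hiter, hα]
    simp
  have hfix := fix_all a ha ha1 f r hr hfr
  apply MulEquiv.ext
  intro s
  have h1 := hfix (Multiplicative.toAdd (e s))
  rw [hf, ofAdd_toAdd, MulEquiv.symm_apply_apply] at h1
  exact e.injective (Multiplicative.toAdd.injective h1)

end pi

end Cfsg.Agent.Helper26
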