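import Mathlib

namespace Cfsg.Agent.Helper26.S4135b

theorem aux {G : Type*} [Group G] [Finite G] (r : ℕ) [Fact r.Prime] (Cx Cy : Subgroup G)
    (hcard : Nat.card Cx = Nat.card Cy) (x₀ : G) (hx₀ : x₀ ∈ Cx)
    (hcenx : Subgroup.center G ≤ Cx)
    (hxr : IsPGroup r (Subgroup.zpowers x₀))
    (hcon : ∀ w ∈ Cy, (∃ k : ℕ, w ^ r ^ k = 1) → w ∈ Subgroup.center G) :
    x₀ ∈ Subgroup.center G := by
  classical
  have hr : r.Prime := Fact.out
  obtain ⟨Q⟩ : Nonempty (Sylow r Cy) := inferInstance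
  set P : Subgroup G := (Q : Subgroup Cy).map Cy.subtype with hP
  have hPcard : Nat.card P = r ^ (Nat.card Cy).factorization r := by
    rw [hP, Subgroup.card_subtype]
    exact Q.card_eq_multiplicity
  have hPcen : P ≤ Subgroup.center G := by
    intro w hw
    rw [hP] at hw
    obtain ⟨q, hq, rfl⟩ := hw
    obtain ⟨k, hk⟩ := Q.isPGroup' ⟨q, hq⟩
    have hk' : ((q : Cy) : G) ^ r ^ k = 1 := by
      have := congrArg (fun z : (Q : Subgroup Cy) => ((z : Cy) : G)) hk
      simpa using this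
    exact hcon _ q.2 ⟨k, hk'⟩
  have hPn : P.Normal := by
    constructor
    intro n hn g
    have h1 := hPcen hn
    rw [Subgroup.mem_center_iff] at h1
    rw [h1 g, mul_inv_cancel_right]
    exact hn
  have hPp : IsPGroup r P := IsPGroup.of_card hPcard
  have hHp : IsPGroup r (P ⊔ Subgroup.zpowers x₀ : Subgroup G) :=
    IsPGroup.to_sup_of_normal_left hPp hxr
  have hHle : P ⊔ Subgroup.zpowers x₀ ≤ Cx := by
    apply sup_le (hPcen.trans hcenx)
    rw [Subgroup.zpowers_le]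
    exact hx₀
  obtain ⟨n, hn⟩ := IsPGroup.iff_card.mp hHp
  have hdvd : r ^ n ∣ Nat.card Cy := by
    rw [← hn, ← hcard]
    exact Subgroup.card_dvd_of_le hHle
  have hle : n ≤ (Nat.card Cy).factorization r :=
    (hr.pow_dvd_iff_le_factorization (Nat.card_pos.ne')).mp hdvd
  have hcardle : Nat.card ↥(P ⊔ Subgroup.zpowers x₀ : Subgroup G) ≤ Nat.card P := by
    rw [hn, hPcard]
    exact Nat.pow_le_pow_right hr.pos hle
  have hEq : P = P ⊔ Subgroup.zpowers x₀ :=
    Subgroup.eq_of_le_of_card_ge le_sup_left hcardle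
  have hx : x₀ ∈ P := by
    have h2 : x₀ ∈ P ⊔ Subgroup.zpowers x₀ :=
      (le_sup_right : Subgroup.zpowers x₀ ≤ P ⊔ Subgroup.zpowers x₀) (Subgroup.mem_zpowers x₀)
    rw [← hEq] at h2
    exact h2
  exact hPcen hx

theorem lemB {G : Type*} [Group G] [Finite G] (m : ℕ) (r : ℕ) [Fact r.Prime] (R : Sylow r G) (x₀ y : G) (hx₀R : x₀ ∈ (R : Subgroup G)) (hx₀Z : x₀ ∉ Subgroup.center G) (hx₀ : (Subgroup.centralizer ({x₀} : Set G)).index = m) (hy : (Subgroup.centralizer ({y} : Set G)).index = m) : ∃ w, w ∈ Subgroup.centralizer ({y} : Set G) ∧ w ∉ Subgroup.center G ∧ ∃ k : ℕ, w ^ r ^ k = 1 := by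
  classical
  by_contra hcon
  have hcon' : ∀ w ∈ Subgroup.centralizer ({y} : Set G), (∃ k : ℕ, w ^ r ^ k = 1) →
      w ∈ Subgroup.center G := by
    intro w hw hk
    by_contra hwc
    exact hcon ⟨w, hw, hwc, hk⟩
  have hm : 0 < m := by
    rw [← hx₀]; exact Nat.pos_of_ne_zero Subgroup.index_ne_zero_of_finite
  have hcard : Nat.card (Subgroup.centralizer ({x₀} : Set G)) =
      Nat.card (Subgroup.centralizer ({y} : Set G)) := by
    have h1 := (Subgroup.centralizer ({x₀} : Set G)).card_mul_index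
    have h2 := (Subgroup.centralizer ({y} : Set G)).card_mul_index
    rw [hx₀] at h1
    rw [hy] at h2
    exact Nat.eq_of_mul_eq_mul_right hm (h1.trans h2.symm)
  have hxmem : x₀ ∈ Subgroup.centralizer ({x₀} : Set G) := by
    rw [Subgroup.mem_centralizer_iff]
    intro h hh
    rw [Set.mem_singleton_iff] at hh
    rw [hh]
  have hxr : IsPGroup r (Subgroup.zpowers x₀) :=
    R.isPGroup'.to_le (by rw [Subgroup.zpowers_le]; exact hx₀R)
  exact hx₀Z (aux r _ _ hcard x₀ hxmem (Subgroup.center_le_centralizer _) hxr hcon')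

end Cfsg.Agent.Helper26.S4135b
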