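import Mathlib
import Cfsg.Prelude.Def_Local
import Cfsg.Agent.Helper7.Components
import Cfsg.Agent.Helper7.Bender

set_option autoImplicit false

namespace Cfsg.Agent.Helper26.S4172m

open scoped commutatorElement

theorem comm_aux {G : Type*} [Group G] (n₁ n₂ a b : G) (hab : a * b = b * a) :
    n₁ * a * (n₂ * b) * (n₁ * a)⁻¹ * (n₂ * b)⁻¹ =
      n₁ * (a * n₂ * a⁻¹) * (b * n₁⁻¹ * b⁻¹) * n₂⁻¹ := by
  have h : b * a⁻¹ = a⁻¹ * b := by
    rw [eq_inv_mul_iff_mul_eq, ← mul_assoc, hab, mul_assoc, mul_inv_cancel, mul_one]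
  calc n₁ * a * (n₂ * b) * (n₁ * a)⁻¹ * (n₂ * b)⁻¹
      = n₁ * a * n₂ * (b * a⁻¹) * n₁⁻¹ * b⁻¹ * n₂⁻¹ := by group
    _ = n₁ * a * n₂ * (a⁻¹ * b) * n₁⁻¹ * b⁻¹ * n₂⁻¹ := by rw [h]
    _ = n₁ * (a * n₂ * a⁻¹) * (b * n₁⁻¹ * b⁻¹) * n₂⁻¹ := by group

theorem comm_mem {G : Type*} [Group G] (P X : Subgroup G)
    (hXn : P ≤ Subgroup.normalizer (X : Set G))
    (hg : ∃ g ∈ P, ∀ y ∈ P, ∃ n ∈ X, ∃ i : ℤ, y = n * g ^ i) :
    ∀ a ∈ P, ∀ b ∈ P, a * b * a⁻¹ * b⁻¹ ∈ X := by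
  obtain ⟨g, hgP, hy⟩ := hg
  intro a ha b hb
  obtain ⟨n₁, hn₁, i, rfl⟩ := hy a ha
  obtain ⟨n₂, hn₂, j, rfl⟩ := hy b hb
  have hgi : ∀ k : ℤ, ∀ n ∈ X, g ^ k * n * (g ^ k)⁻¹ ∈ X := by
    intro k n hn
    have hk : g ^ k ∈ Subgroup.normalizer (X : Set G) := hXn (P.zpow_mem hgP k)
    exact (Subgroup.mem_normalizer_iff.mp hk n).mp hn
  have h1 := hgi i n₂ hn₂
  have h2 := hgi j n₁⁻¹ (X.inv_mem hn₁)
  have hc : g ^ i * g ^ j = g ^ j * g ^ i := by
    rw [← zpow_add, ← zpow_add, add_comm]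
  rw [comm_aux n₁ n₂ (g ^ i) (g ^ j) hc]
  exact X.mul_mem (X.mul_mem (X.mul_mem hn₁ h1) h2) (X.inv_mem hn₂)

theorem cyclic_map {G : Type*} [Group G] (P K : Subgroup G) [K.Normal]
    (hg : ∃ g ∈ P, ∀ y ∈ P, ∃ n ∈ K, ∃ i : ℤ, y = n * g ^ i) :
    IsCyclic ↥(P.map (QuotientGroup.mk' K)) := by
  obtain ⟨g, hgP, hy⟩ := hg
  have h : P.map (QuotientGroup.mk' K) = Subgroup.zpowers (QuotientGroup.mk' K g) := by
    apply le_antisymm
    · rintro _ ⟨y, hyP, rfl⟩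
      obtain ⟨n, hn, i, rfl⟩ := hy y hyP
      rw [Subgroup.mem_zpowers_iff]
      refine ⟨i, ?_⟩
      have h1 : QuotientGroup.mk' K n = 1 := (QuotientGroup.eq_one_iff n).mpr hn
      rw [map_mul, map_zpow, h1, one_mul]
    · rw [Subgroup.zpowers_le]
      exact Subgroup.mem_map_of_mem _ hgP
  rw [h]
  infer_instance

theorem main {G : Type*} [Group G] [Finite G] (p : ℕ) [Fact p.Prime] (P : Sylow p G)
    (hna : ¬ IsMulCommutative (P : Subgroup G))
    [hFn : (Cfsg.generalizedFittingSubgroup G).Normal]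
    (Φ : Subgroup G)
    (Ha : ∀ X : Subgroup G, (P : Subgroup G) ≤ Subgroup.normalizer (X : Set G) →
      ¬ (X ⊓ (P : Subgroup G) ≤ Φ) →
      ∃ g ∈ (P : Subgroup G), ∀ y ∈ (P : Subgroup G), ∃ n ∈ X, ∃ i : ℤ, y = n * g ^ i)
    (Hb : ∀ K : Subgroup G, K.Normal → K ≠ ⊥ → ¬ (K ⊓ (P : Subgroup G) ≤ Φ))
    (Hcd : ∀ A K : Subgroup G, (P : Subgroup G) ≤ Subgroup.normalizer (A : Set G) →
      Cfsg.IsComponent K → K ≤ A → ¬ (A ⊓ (P : Subgroup G) ≤ Φ))
    (He : ∀ K L : Subgroup G, Cfsg.IsComponent K → Cfsg.IsComponent L →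
      (∀ x ∈ (P : Subgroup G), L ≠ K.map (MulAut.conj x).toMonoidHom) →
      ∃ A B : Subgroup G, K ≤ A ∧ L ≤ B ∧ (P : Subgroup G) ≤ Subgroup.normalizer (A : Set G) ∧
        (P : Subgroup G) ≤ Subgroup.normalizer (B : Set G) ∧
        (∀ a ∈ A, ∀ b ∈ B, a * b = b * a) ∧ A ⊔ B = Cfsg.layer G)
    (Hg : ∀ N : Subgroup G, N.Normal → IsPGroup p ↥N → N ≤ Cfsg.layer G →
      (∀ n ∈ N, ∀ e ∈ Cfsg.layer G, n * e = e * n) → N = ⊥)
    (Hh : ∀ M : Subgroup G, M.Normal → Group.IsNilpotent ↥M → IsPGroup p ↥M)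
    (Hi : ∀ M N : Subgroup G, M.Normal → N.Normal → N ≤ M →
      (∀ a ∈ M, ∀ b ∈ M, a * b = b * a) → IsPGroup p ↥M → ∀ w : G, w ∈ M → w ∉ N →
      (∀ u ∈ (P : Subgroup G), u * w = w * u) →
      (∀ u ∈ (P : Subgroup G), ∀ m ∈ M, u * m * u⁻¹ * m⁻¹ ∈ N) →
      ∃ c ∈ M, c ∉ N ∧ ∃ H : Subgroup G, H.Normal ∧ (P : Subgroup G) ≤ H ∧
        ∀ h ∈ H, h * c = c * h) :
    (Cfsg.generalizedFittingSubgroup G ≠ ⊥ ∧ ∀ K : Subgroup G, K.Normal → K ≠ ⊥ →
        Cfsg.generalizedFittingSubgroup G ≤ K) ∧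
      IsCyclic ↥((P : Subgroup G).map (QuotientGroup.mk' (Cfsg.generalizedFittingSubgroup G))) ∧
      (¬ IsMulCommutative (Cfsg.generalizedFittingSubgroup G) → ∀ K L : Subgroup G,
        Cfsg.IsComponent K → Cfsg.IsComponent L →
        ∃ x ∈ (P : Subgroup G), L = K.map (MulAut.conj x).toMonoidHom) := by
  classical
  have hPne : ∃ a ∈ (P : Subgroup G), ∃ b ∈ (P : Subgroup G), a * b ≠ b * a := by
    by_contra hcon
    push Not at hcon
    exact hna ⟨⟨fun a b => Subtype.ext (hcon a a.2 b b.2)⟩⟩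
  have hnorm : ∀ K : Subgroup G, K.Normal →
      (P : Subgroup G) ≤ Subgroup.normalizer (K : Set G) := by
    intro K hK u _
    rw [Subgroup.mem_normalizer_iff]
    intro n
    constructor
    · intro hn
      exact hK.conj_mem n hn u
    · intro hn
      have h1 := hK.conj_mem _ hn u⁻¹
      have h2 : u⁻¹ * (u * n * u⁻¹) * u⁻¹⁻¹ = n := by group
      rw [h2] at h1
      exact h1
  have hcomm : ∀ X : Subgroup G, (P : Subgroup G) ≤ Subgroup.normalizer (X : Set G) →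
      ¬ (X ⊓ (P : Subgroup G) ≤ Φ) → ∀ a ∈ (P : Subgroup G), ∀ b ∈ (P : Subgroup G),
      a * b * a⁻¹ * b⁻¹ ∈ X := fun X hXn hX => comm_mem _ X hXn (Ha X hXn hX)
  have hinter : ∀ K₁ K₂ : Subgroup G, K₁.Normal → K₂.Normal → K₁ ≠ ⊥ → K₂ ≠ ⊥ →
      K₁ ⊓ K₂ ≠ ⊥ := by
    intro K₁ K₂ h₁ h₂ hn₁ hn₂ hbot
    obtain ⟨a, ha, b, hb, hab⟩ := hPne
    have e1 := hcomm K₁ (hnorm K₁ h₁) (Hb K₁ h₁ hn₁) a ha b hb
    have e2 := hcomm K₂ (hnorm K₂ h₂) (Hb K₂ h₂ hn₂) a ha b hb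
    have e3 : a * b * a⁻¹ * b⁻¹ ∈ K₁ ⊓ K₂ := Subgroup.mem_inf.mpr ⟨e1, e2⟩
    rw [hbot, Subgroup.mem_bot] at e3
    apply hab
    calc a * b = (a * b * a⁻¹ * b⁻¹) * (b * a) := by group
      _ = b * a := by rw [e3, one_mul]
  have htop : (⊤ : Subgroup G) ≠ ⊥ := by
    intro h
    obtain ⟨a, ha, b, hb, hab⟩ := hPne
    have ha1 : a ∈ (⊥ : Subgroup G) := h ▸ Subgroup.mem_top a
    have hb1 : b ∈ (⊥ : Subgroup G) := h ▸ Subgroup.mem_top b
    rw [Subgroup.mem_bot] at ha1 hb1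
    apply hab
    rw [ha1, hb1]
  have hex : ∃ n : ℕ, ∃ K : Subgroup G, K.Normal ∧ K ≠ ⊥ ∧ Nat.card ↥K = n :=
    ⟨_, ⊤, inferInstance, htop, rfl⟩
  obtain ⟨N, hNn, hN1, hNc⟩ := Nat.find_spec hex
  have hNmin : ∀ K : Subgroup G, K.Normal → K ≠ ⊥ → Nat.card ↥N ≤ Nat.card ↥K := by
    intro K hK hK1
    rw [hNc]
    exact Nat.find_min' hex ⟨K, hK, hK1, rfl⟩
  have hmin : ∀ K : Subgroup G, K.Normal → K ≠ ⊥ → N ≤ K := by
    intro K hK hK1
    haveI := hNn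
    haveI := hK
    have h1 : N ⊓ K ≠ ⊥ := hinter N K hNn hK hN1 hK1
    have h2 : Nat.card ↥N ≤ Nat.card ↥(N ⊓ K) := hNmin (N ⊓ K) inferInstance h1
    have h3 : N ⊓ K = N := Subgroup.eq_of_le_of_card_ge inf_le_left h2
    rw [← h3]
    exact inf_le_right
  have hFne : Cfsg.generalizedFittingSubgroup G ≠ ⊥ := by
    intro h
    have hb := Cfsg.Agent.Helper7.bender (G := G)
    rw [h] at hb
    apply htop
    rw [eq_bot_iff]
    intro x _
    apply hb
    rw [Subgroup.mem_centralizer_iff]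
    intro y hy
    rw [Subgroup.coe_bot, Set.mem_singleton_iff] at hy
    rw [hy, one_mul, mul_one]
  -- the layer lies in N
  have hlayerN : Cfsg.layer G ≤ N := by
    show sSup {K : Subgroup G | Cfsg.IsComponent K} ≤ N
    apply sSup_le
    intro L hL
    rcases Cfsg.Agent.Helper7.comp_subnormal hL hNn.isSubnormal with h | h
    · exact h
    · exfalso
      have hLc : L ≤ Subgroup.centralizer (N : Set G) :=
        Subgroup.commutator_eq_bot_iff_le_centralizer.mp h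
      haveI := hNn
      have hCn : (Subgroup.centralizer (N : Set G)).Normal := inferInstance
      have hL1 : L ≠ ⊥ := Cfsg.Agent.Helper7.IsComponent.ne_bot hL
      have hC1 : Subgroup.centralizer (N : Set G) ≠ ⊥ := by
        intro hb
        rw [hb] at hLc
        exact hL1 (le_bot_iff.mp hLc)
      have hNab : ∀ a ∈ N, ∀ b ∈ N, a * b = b * a := by
        intro a ha b hb
        have h3 := hmin _ hCn hC1 ha
        rw [Subgroup.mem_centralizer_iff] at h3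
        exact (h3 b hb).symm
      have hNnil : Group.IsNilpotent ↥N :=
        Cfsg.Agent.Helper7.isNilpotent_of_comm (fun a b : ↥N => Subtype.ext (hNab a a.2 b b.2))
      have hNp : IsPGroup p ↥N := Hh N hNn hNnil
      have hln : (Cfsg.layer G).Normal := Cfsg.Agent.Helper7.layer_normal
      have hl1 : Cfsg.layer G ≠ ⊥ := by
        intro hb
        have h4 := Cfsg.Agent.Helper7.le_layer hL
        rw [hb] at h4
        exact hL1 (le_bot_iff.mp h4)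
      have hNl : N ≤ Cfsg.layer G := hmin _ hln hl1
      have hNfit : N ≤ Cfsg.fittingSubgroup G := by
        show N ≤ sSup {M : Subgroup G | M.Normal ∧ Group.IsNilpotent ↥M}
        exact le_sSup ⟨hNn, hNnil⟩
      have hlf : Cfsg.layer G ≤ Subgroup.centralizer (Cfsg.fittingSubgroup G : Set G) :=
        Subgroup.commutator_eq_bot_iff_le_centralizer.mp
          (Cfsg.Agent.Helper7.layer_commute_fitting (G := G))
      have hcent : ∀ n ∈ N, ∀ e ∈ Cfsg.layer G, n * e = e * n := by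
        intro n hn e he
        have h5 := hlf he
        rw [Subgroup.mem_centralizer_iff] at h5
        exact h5 n (hNfit hn)
      exact hN1 (Hg N hNn hNp hNl hcent)
  -- the Fitting subgroup lies in N
  have hfitN : Cfsg.fittingSubgroup G ≤ N := by
    show sSup {M : Subgroup G | M.Normal ∧ Group.IsNilpotent ↥M} ≤ N
    apply sSup_le
    rintro M ⟨hMn, hMnil⟩
    by_cases hM1 : M = ⊥
    · rw [hM1]
      exact bot_le
    have hNM : N ≤ M := hmin M hMn hM1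
    have hMp : IsPGroup p ↥M := Hh M hMn hMnil
    haveI := hMn
    haveI := hNn
    have hMP : M ≤ (P : Subgroup G) := IsPGroup.le_sylow_of_normal hMp P
    have hZn : (M ⊓ Subgroup.centralizer (M : Set G)).Normal := inferInstance
    have hZ1 : M ⊓ Subgroup.centralizer (M : Set G) ≠ ⊥ := by
      haveI : Nontrivial ↥M := (Subgroup.nontrivial_iff_ne_bot M).mpr hM1
      have hc : Nontrivial ↥(Subgroup.center ↥M) := hMp.center_nontrivial
      obtain ⟨z, hz⟩ := exists_ne (1 : ↥(Subgroup.center ↥M))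
      intro hb
      apply hz
      have hzM : ((z : ↥M) : G) ∈ M ⊓ Subgroup.centralizer (M : Set G) :=
        Subgroup.mem_inf.mpr ⟨(z : ↥M).2, Subgroup.mem_centralizer_iff.mpr (fun m hm =>
          congrArg Subtype.val ((Subgroup.mem_center_iff.mp z.2) ⟨m, hm⟩))⟩
      rw [hb, Subgroup.mem_bot] at hzM
      have h2 : (z : ↥M) = 1 := Subtype.ext hzM
      exact Subtype.ext h2
    have hNZ : N ≤ M ⊓ Subgroup.centralizer (M : Set G) := hmin _ hZn hZ1
    have hNc' : ∀ n ∈ N, ∀ m ∈ M, n * m = m * n := by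
      intro n hn m hm
      have h3 := (Subgroup.mem_inf.mp (hNZ hn)).2
      rw [Subgroup.mem_centralizer_iff] at h3
      exact (h3 m hm).symm
    obtain ⟨g, hgP, hgy⟩ := Ha N (hnorm N hNn) (Hb N hNn hN1)
    have hcommN := hcomm N (hnorm N hNn) (Hb N hNn hN1)
    by_contra hMN
    obtain ⟨y, hyM, hyN⟩ := SetLike.not_le_iff_exists.mp hMN
    obtain ⟨n₀, hn₀, i₀, hy⟩ := hgy y (hMP hyM)
    have hwM : g ^ i₀ ∈ M := by
      have h4 : g ^ i₀ = n₀⁻¹ * y := by rw [hy]; group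
      rw [h4]
      exact M.mul_mem (M.inv_mem (hNM hn₀)) hyM
    have hwN : g ^ i₀ ∉ N := by
      intro hwN'
      apply hyN
      rw [hy]
      exact N.mul_mem hn₀ hwN'
    have hwP : ∀ u ∈ (P : Subgroup G), u * g ^ i₀ = g ^ i₀ * u := by
      intro u hu
      obtain ⟨n, hn, j, rfl⟩ := hgy u hu
      have h1 : n * g ^ i₀ = g ^ i₀ * n := hNc' n hn _ hwM
      have h2 : g ^ j * g ^ i₀ = g ^ i₀ * g ^ j := by
        rw [← zpow_add, ← zpow_add, add_comm]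
      calc n * g ^ j * g ^ i₀ = n * (g ^ j * g ^ i₀) := by rw [mul_assoc]
        _ = n * (g ^ i₀ * g ^ j) := by rw [h2]
        _ = (n * g ^ i₀) * g ^ j := by rw [mul_assoc]
        _ = (g ^ i₀ * n) * g ^ j := by rw [h1]
        _ = g ^ i₀ * (n * g ^ j) := by rw [mul_assoc]
    have hgM : ∀ a ∈ M, ∃ n ∈ N, ∃ i : ℤ, a = n * g ^ i ∧ g ^ i ∈ M := by
      intro a ha
      obtain ⟨n, hn, i, rfl⟩ := hgy a (hMP ha)
      refine ⟨n, hn, i, rfl, ?_⟩
      have h4 : g ^ i = n⁻¹ * (n * g ^ i) := by group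
      rw [h4]
      exact M.mul_mem (M.inv_mem (hNM hn)) ha
    have hMc : ∀ a ∈ M, ∀ b ∈ M, a * b = b * a := by
      intro a ha b hb
      obtain ⟨n₁, hn₁, i, rfl, hi⟩ := hgM a ha
      obtain ⟨n₂, hn₂, j, rfl, hj⟩ := hgM b hb
      have e1 : g ^ i * n₂ = n₂ * g ^ i := (hNc' n₂ hn₂ _ hi).symm
      have e2 : g ^ j * n₁ = n₁ * g ^ j := (hNc' n₁ hn₁ _ hj).symm
      have e3 : n₁ * n₂ = n₂ * n₁ := hNc' n₁ hn₁ n₂ (hNM hn₂)
      have e4 : g ^ i * g ^ j = g ^ j * g ^ i := by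
        rw [← zpow_add, ← zpow_add, add_comm]
      calc n₁ * g ^ i * (n₂ * g ^ j) = n₁ * (g ^ i * n₂) * g ^ j := by group
        _ = n₁ * (n₂ * g ^ i) * g ^ j := by rw [e1]
        _ = (n₁ * n₂) * (g ^ i * g ^ j) := by group
        _ = (n₂ * n₁) * (g ^ j * g ^ i) := by rw [e3, e4]
        _ = n₂ * (n₁ * g ^ j) * g ^ i := by group
        _ = n₂ * (g ^ j * n₁) * g ^ i := by rw [e2]
        _ = n₂ * g ^ j * (n₁ * g ^ i) := by group
    have hPM : ∀ u ∈ (P : Subgroup G), ∀ m ∈ M, u * m * u⁻¹ * m⁻¹ ∈ N :=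
      fun u hu m hm => hcommN u hu m (hMP hm)
    obtain ⟨c, hcM, hcN, H, hHn, hPH, hHc⟩ :=
      Hi M N hMn hNn hNM hMc hMp (g ^ i₀) hwM hwN hwP hPM
    haveI := hHn
    have hCn : (M ⊓ Subgroup.centralizer (H : Set G)).Normal := inferInstance
    have hC1 : M ⊓ Subgroup.centralizer (H : Set G) ≠ ⊥ := by
      intro hb
      have hc : c ∈ M ⊓ Subgroup.centralizer (H : Set G) :=
        Subgroup.mem_inf.mpr ⟨hcM, Subgroup.mem_centralizer_iff.mpr (fun h hh => hHc h hh)⟩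
      rw [hb, Subgroup.mem_bot] at hc
      apply hcN
      rw [hc]
      exact N.one_mem
    have hNC : N ≤ M ⊓ Subgroup.centralizer (H : Set G) := hmin _ hCn hC1
    have hNP : ∀ n ∈ N, ∀ u ∈ (P : Subgroup G), n * u = u * n := by
      intro n hn u hu
      have h3 := (Subgroup.mem_inf.mp (hNC hn)).2
      rw [Subgroup.mem_centralizer_iff] at h3
      exact (h3 u (hPH hu)).symm
    obtain ⟨a, ha, b, hb, hab⟩ := hPne
    apply hab
    obtain ⟨n₁, hn₁, i, rfl⟩ := hgy a ha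
    obtain ⟨n₂, hn₂, j, rfl⟩ := hgy b hb
    have hgi : g ^ i ∈ (P : Subgroup G) := (P : Subgroup G).zpow_mem hgP i
    have hgj : g ^ j ∈ (P : Subgroup G) := (P : Subgroup G).zpow_mem hgP j
    have e1 : n₂ * g ^ i = g ^ i * n₂ := hNP n₂ hn₂ _ hgi
    have e2 : n₁ * g ^ j = g ^ j * n₁ := hNP n₁ hn₁ _ hgj
    have e3 : n₁ * n₂ = n₂ * n₁ := hNc' n₁ hn₁ n₂ (hNM hn₂)
    have e4 : g ^ i * g ^ j = g ^ j * g ^ i := by
      rw [← zpow_add, ← zpow_add, add_comm]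
    calc n₁ * g ^ i * (n₂ * g ^ j) = n₁ * (g ^ i * n₂) * g ^ j := by group
      _ = n₁ * (n₂ * g ^ i) * g ^ j := by rw [e1]
      _ = (n₁ * n₂) * (g ^ i * g ^ j) := by group
      _ = (n₂ * n₁) * (g ^ j * g ^ i) := by rw [e3, e4]
      _ = n₂ * (n₁ * g ^ j) * g ^ i := by group
      _ = n₂ * (g ^ j * n₁) * g ^ i := by rw [e2]
      _ = n₂ * g ^ j * (n₁ * g ^ i) := by group
  have hFN : Cfsg.generalizedFittingSubgroup G ≤ N := by
    show Cfsg.layer G ⊔ Cfsg.fittingSubgroup G ≤ N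
    exact sup_le hlayerN hfitN
  refine ⟨⟨hFne, fun K hK hK1 => hFN.trans (hmin K hK hK1)⟩, ?_, ?_⟩
  · exact cyclic_map (P : Subgroup G) (Cfsg.generalizedFittingSubgroup G)
      (Ha _ (hnorm _ hFn) (Hb _ hFn hFne))
  · intro hFna K L hK hL
    by_contra hcon
    push Not at hcon
    obtain ⟨A, B, hKA, hLB, hPA, hPB, hAB, hABl⟩ := He K L hK hL hcon
    have hA := Hcd A K hPA hK hKA
    have hB := Hcd B L hPB hL hLB
    have cA := hcomm A hPA hA
    have cB := hcomm B hPB hB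
    haveI hln : (Cfsg.layer G).Normal := Cfsg.Agent.Helper7.layer_normal
    have hZn : (Cfsg.layer G ⊓ Subgroup.centralizer (Cfsg.layer G : Set G)).Normal :=
      inferInstance
    have hZ1 : Cfsg.layer G ⊓ Subgroup.centralizer (Cfsg.layer G : Set G) = ⊥ := by
      by_contra hne
      have hNZ := hmin _ hZn hne
      apply hFna
      refine ⟨⟨fun a b => Subtype.ext ?_⟩⟩
      have ha : (a : G) ∈ Cfsg.layer G ⊓ Subgroup.centralizer (Cfsg.layer G : Set G) :=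
        hNZ (hFN a.2)
      have hb : (b : G) ∈ Cfsg.layer G ⊓ Subgroup.centralizer (Cfsg.layer G : Set G) :=
        hNZ (hFN b.2)
      have h3 := (Subgroup.mem_inf.mp ha).2
      rw [Subgroup.mem_centralizer_iff] at h3
      exact (h3 b (Subgroup.mem_inf.mp hb).1).symm
    obtain ⟨a, ha, b, hb, hab⟩ := hPne
    apply hab
    have e1 := cA a ha b hb
    have e2 := cB a ha b hb
    have hAc : A ≤ Subgroup.centralizer ({a * b * a⁻¹ * b⁻¹} : Set G) := by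
      intro x hx
      rw [Subgroup.mem_centralizer_iff]
      intro y hy
      rw [Set.mem_singleton_iff] at hy
      rw [hy]
      exact (hAB x hx _ e2).symm
    have hBc : B ≤ Subgroup.centralizer ({a * b * a⁻¹ * b⁻¹} : Set G) := by
      intro x hx
      rw [Subgroup.mem_centralizer_iff]
      intro y hy
      rw [Set.mem_singleton_iff] at hy
      rw [hy]
      exact hAB _ e1 x hx
    have e3a : a * b * a⁻¹ * b⁻¹ ∈ Cfsg.layer G := by
      rw [← hABl]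
      exact (le_sup_left : A ≤ A ⊔ B) e1
    have e3b : a * b * a⁻¹ * b⁻¹ ∈ Subgroup.centralizer (Cfsg.layer G : Set G) := by
      rw [Subgroup.mem_centralizer_iff, ← hABl]
      intro z hz
      have hz' := (sup_le hAc hBc) hz
      rw [Subgroup.mem_centralizer_iff] at hz'
      exact (hz' _ (Set.mem_singleton _)).symm
    have e3 : a * b * a⁻¹ * b⁻¹ ∈
        Cfsg.layer G ⊓ Subgroup.centralizer (Cfsg.layer G : Set G) :=
      Subgroup.mem_inf.mpr ⟨e3a, e3b⟩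
    rw [hZ1, Subgroup.mem_bot] at e3
    calc a * b = (a * b * a⁻¹ * b⁻¹) * (b * a) := by group
      _ = b * a := by rw [e3, one_mul]

end Cfsg.Agent.Helper26.S4172m
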