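import Mathlib
import Cfsg.Prelude.Def_Transfer
import Cfsg.Agent.Helper26.LargeXS2

/-!
Extraspecial 2-subgroups and transfer (helper26).

`exists_notMem_list`: a subgroup with more elements than a list has an element outside the list.
`card_le_eight`: an extraspecial 2-group (as `XS.Data`) with a commutative "index two" part has at
most 8 elements.  `exists_invol_notMem`: for more than 8 elements, an index-two part misses an
involution.  `sylow_cent`: a 2-subgroup containing a self-centralizing extraspecial `Q`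
centralizes `Z(Q)`.  `no_index_two`: a group with `O^2(G) = G` has no subgroup of index 2.
-/

set_option autoImplicit false

namespace Cfsg.Agent.Helper26.XSTransfer

open Cfsg Cfsg.Agent.Helper14.XS Cfsg.Agent.Helper26.LargeXS Cfsg.Agent.Helper26.LargeXS2

variable {G : Type*} [Group G]

theorem exists_notMem_list (Q : Subgroup G) (L : List G) (h : L.length < Nat.card Q) :
    ∃ x ∈ Q, x ∉ L := by
  classical
  by_contra hcon
  push Not at hcon
  have hsub : (Q : Set G) ⊆ ((L.toFinset : Finset G) : Set G) := by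
    intro x hx
    rw [Finset.mem_coe, List.mem_toFinset]
    exact hcon x hx
  have h1 : Nat.card Q ≤ L.length := by
    calc Nat.card Q = (Q : Set G).ncard := (Nat.card_coe_set_eq _)
      _ ≤ ((L.toFinset : Finset G) : Set G).ncard :=
          Set.ncard_le_ncard hsub (Finset.finite_toSet _)
      _ = L.toFinset.card := Set.ncard_coe_finset _
      _ ≤ L.length := List.toFinset_card_le L
  omega

/-- If the part `M` of "index two" in `Q` is commutative then `Q` has at most 8 elements. -/
theorem card_le_eight {Q : Subgroup G} {z : G} (d : Data Q z) (M : Subgroup G)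
    (hzM : z ∈ M) {e0 : G} (he0 : e0 ∈ Q) (he0M : e0 ∉ M)
    (hidx : ∀ a ∈ Q, ∀ b ∈ Q, a ∉ M → b ∉ M → a⁻¹ * b ∈ M)
    (hab : ∀ a ∈ Q, ∀ b ∈ Q, a ∈ M → b ∈ M → a * b = b * a) : Nat.card Q ≤ 8 := by
  classical
  have d' := d
  obtain ⟨hzQ, hz1, hzz, hcen, hcomm, hsqr, hrad⟩ := d'
  have he01 : e0 ≠ 1 := fun h => he0M (h ▸ M.one_mem)
  have he0z : e0 ≠ z := fun h => he0M (h ▸ hzM)
  obtain ⟨g, hgQ, hg⟩ := exists_moving d he0 he01 he0z
  obtain ⟨m1, hm1Q, hm1M, hm1⟩ : ∃ m1 ∈ Q, m1 ∈ M ∧ SemiconjBy m1 e0 (z * e0) := by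
    by_cases hgM : g ∈ M
    · exact ⟨g, hgQ, hgM, hg⟩
    · refine ⟨e0⁻¹ * g, Q.mul_mem (Q.inv_mem he0) hgQ, hidx e0 he0 g hgQ he0M hgM, ?_⟩
      show e0⁻¹ * g * e0 = z * e0 * (e0⁻¹ * g)
      have h1 : g * e0 = z * e0 * g := hg.eq
      have h2 : e0 * z = z * e0 := hcen e0 he0
      calc e0⁻¹ * g * e0 = e0⁻¹ * (g * e0) := by group
        _ = e0⁻¹ * (z * e0 * g) := by rw [h1]
        _ = e0⁻¹ * (e0 * z) * g := by rw [h2]; group
        _ = z * e0 * (e0⁻¹ * g) := by group
  have key : ∀ m ∈ Q, m ∈ M → m = 1 ∨ m = z ∨ m = m1 ∨ m = z * m1 := by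
    intro m hmQ hmM
    rcases sb_of_comm d hmQ he0 with h | h
    · have hc : ∀ x ∈ Q, x * m = m * x := by
        intro x hxQ
        by_cases hxM : x ∈ M
        · exact hab x hxQ m hmQ hxM hmM
        · have h1 : e0⁻¹ * x ∈ M := hidx e0 he0 x hxQ he0M hxM
          have h2 : (e0⁻¹ * x) * m = m * (e0⁻¹ * x) :=
            hab _ (Q.mul_mem (Q.inv_mem he0) hxQ) m hmQ h1 hmM
          have h3 : m * e0 = e0 * m := h.eq
          calc x * m = e0 * ((e0⁻¹ * x) * m) := by group
            _ = e0 * (m * (e0⁻¹ * x)) := by rw [h2]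
            _ = (e0 * m) * (e0⁻¹ * x) := by group
            _ = (m * e0) * (e0⁻¹ * x) := by rw [h3]
            _ = m * x := by group
      rcases hrad m hmQ hc with h' | h'
      · exact Or.inl h'
      · exact Or.inr (Or.inl h')
    · have hpM : m * m1 ∈ M := M.mul_mem hmM hm1M
      have hpQ : m * m1 ∈ Q := Q.mul_mem hmQ hm1Q
      have hpe : (m * m1) * e0 = e0 * (m * m1) := by
        have h1 : m * e0 = z * e0 * m := h.eq
        have h2 : m1 * e0 = z * e0 * m1 := hm1.eq
        have h3 : m * z = z * m := hcen m hmQ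
        calc (m * m1) * e0 = m * (m1 * e0) := by group
          _ = m * (z * e0 * m1) := by rw [h2]
          _ = (m * z) * e0 * m1 := by group
          _ = (z * m) * e0 * m1 := by rw [h3]
          _ = z * (m * e0) * m1 := by group
          _ = z * (z * e0 * m) * m1 := by rw [h1]
          _ = (z * z) * e0 * (m * m1) := by group
          _ = e0 * (m * m1) := by rw [hzz, one_mul]
      have hp : ∀ x ∈ Q, x * (m * m1) = (m * m1) * x := by
        intro x hxQ
        by_cases hxM : x ∈ M
        · exact hab x hxQ _ hpQ hxM hpM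
        · have h1 : e0⁻¹ * x ∈ M := hidx e0 he0 x hxQ he0M hxM
          have h2 : (e0⁻¹ * x) * (m * m1) = (m * m1) * (e0⁻¹ * x) :=
            hab _ (Q.mul_mem (Q.inv_mem he0) hxQ) _ hpQ h1 hpM
          calc x * (m * m1) = e0 * ((e0⁻¹ * x) * (m * m1)) := by group
            _ = e0 * ((m * m1) * (e0⁻¹ * x)) := by rw [h2]
            _ = (e0 * (m * m1)) * (e0⁻¹ * x) := by group
            _ = ((m * m1) * e0) * (e0⁻¹ * x) := by rw [hpe]
            _ = (m * m1) * x := by group
      have hm1inv : m1⁻¹ = m1 ∨ m1⁻¹ = z * m1 := by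
        rcases hsqr m1 hm1Q with h' | h'
        · left; exact inv_eq_of_mul_eq_one_left h'
        · right
          apply inv_eq_of_mul_eq_one_left
          rw [mul_assoc, h', hzz]
      rcases hrad _ hpQ hp with h' | h'
      · have hm : m = m1⁻¹ := eq_inv_of_mul_eq_one_left h'
        rcases hm1inv with h'' | h''
        · right; right; left; rw [hm, h'']
        · right; right; right; rw [hm, h'']
      · have hm : m = z * m1⁻¹ := by rw [← h']; group
        rcases hm1inv with h'' | h''
        · right; right; right; rw [hm, h'']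
        · right; right; left; rw [hm, h'', ← mul_assoc, hzz, one_mul]
  by_contra hgt
  push Not at hgt
  obtain ⟨x, hxQ, hxL⟩ := exists_notMem_list Q
    [1, z, m1, z * m1, e0, e0 * z, e0 * m1, e0 * (z * m1)] (by show 8 < Nat.card Q; exact hgt)
  apply hxL
  by_cases hxM : x ∈ M
  · rcases key x hxQ hxM with h | h | h | h <;> simp [h]
  · have h1 : e0⁻¹ * x ∈ M := hidx e0 he0 x hxQ he0M hxM
    have h2 : x = e0 * (e0⁻¹ * x) := by group
    rcases key _ (Q.mul_mem (Q.inv_mem he0) hxQ) h1 with h | h | h | h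
    · rw [h2, h]; simp
    · rw [h2, h]; simp
    · rw [h2, h]; simp
    · rw [h2, h]; simp

/-- With more than 8 elements, a part of "index two" misses some involution. -/
theorem exists_invol_notMem {Q : Subgroup G} {z : G} (d : Data Q z) (M : Subgroup G)
    (hzM : z ∈ M) {e0 : G} (he0 : e0 ∈ Q) (he0M : e0 ∉ M)
    (hidx : ∀ a ∈ Q, ∀ b ∈ Q, a ∉ M → b ∉ M → a⁻¹ * b ∈ M) (h8 : 8 < Nat.card Q) :
    ∃ u ∈ Q, u ∉ M ∧ u * u = 1 := by
  by_contra hcon
  push Not at hcon
  have d' := d
  obtain ⟨hzQ, hz1, hzz, hcen, hcomm, hsqr, hrad⟩ := d'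
  have hsq : ∀ x ∈ Q, x ∉ M → x * x = z := by
    intro x hx hxM
    rcases hsqr x hx with h | h
    · exact absurd h (hcon x hx hxM)
    · exact h
  have hinv : ∀ m ∈ Q, m ∈ M → m * e0 * m = e0 := by
    intro m hm hmM
    have h1 : e0 * m ∉ M := fun h => he0M (by
      have h' := M.mul_mem h (M.inv_mem hmM)
      rwa [mul_inv_cancel_right] at h')
    have h2 := hsq (e0 * m) (Q.mul_mem he0 hm) h1
    have h3 := hsq e0 he0 he0M
    apply mul_left_cancel (a := e0)
    calc e0 * (m * e0 * m) = e0 * m * (e0 * m) := by group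
      _ = z := h2
      _ = e0 * e0 := h3.symm
  have hab : ∀ a ∈ Q, ∀ b ∈ Q, a ∈ M → b ∈ M → a * b = b * a := by
    intro a ha b hb haM hbM
    have h1 := hinv (a * b) (Q.mul_mem ha hb) (M.mul_mem haM hbM)
    have h2 := hinv b hb hbM
    have h3 := hinv a ha haM
    have h4 : a * b * e0 * (a * b) = a * b * e0 * (b * a) := by
      have e2 : a * b * e0 * (b * a) = a * (b * e0 * b) * a := by group
      rw [e2, h2, h3]; exact h1
    exact mul_left_cancel h4
  have h := card_le_eight d M hzM he0 he0M hidx hab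
  omega

/-- A 2-subgroup containing `Q` (self-centralizing, extraspecial) centralizes `z`. -/
theorem sylow_cent [Finite G] {Q : Subgroup G} {z : G} (d : Data Q z)
    (hCQ : ∀ c : G, (∀ b ∈ Q, c * b = b * c) → c ∈ Q) (T : Subgroup G) (hT2 : IsPGroup 2 T)
    (hQT : Q ≤ T) : ∀ t ∈ T, t * z = z * t := by
  obtain ⟨hzQ, hz1, hzz, hcen, hcomm, hsqr, hrad⟩ := d
  haveI : Fact (Nat.Prime 2) := ⟨Nat.prime_two⟩
  haveI : Nontrivial T := ⟨⟨⟨z, hQT hzQ⟩, 1, fun h => hz1 (congrArg Subtype.val h)⟩⟩
  haveI := hT2.center_nontrivial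
  obtain ⟨c, hc1⟩ := exists_ne (1 : Subgroup.center T)
  have hcc : ∀ t ∈ T, t * ((c : T) : G) = ((c : T) : G) * t := by
    intro t ht
    have h := Subgroup.mem_center_iff.mp c.2 ⟨t, ht⟩
    exact congrArg Subtype.val h
  have hcQ : ((c : T) : G) ∈ Q := hCQ _ (fun b hb => (hcc b (hQT hb)).symm)
  have hcz : ((c : T) : G) = z := by
    rcases hrad _ hcQ (fun x hx => hcc x (hQT hx)) with h | h
    · exfalso; apply hc1; exact Subtype.ext (Subtype.ext h)
    · exact h
  rw [hcz] at hcc
  exact hcc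

/-- A group generated by its elements of odd order has no subgroup of index 2. -/
theorem no_index_two (hres : Cfsg.pResidual 2 G = ⊤) (N : Subgroup G) (hN : N.index = 2) :
    False := by
  have hle : Cfsg.pResidual 2 G ≤ N := by
    unfold Cfsg.pResidual
    rw [Subgroup.closure_le]
    intro g hg
    have hodd : Odd (orderOf g) := Nat.coprime_two_left.mp (Nat.Coprime.symm hg)
    obtain ⟨k, hk⟩ := hodd
    have h2 : g ^ 2 ∈ N := Subgroup.sq_mem_of_index_two hN g
    have e : g = (g ^ 2) ^ (k + 1) := by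
      rw [← pow_mul]
      have e1 : 2 * (k + 1) = orderOf g + 1 := by omega
      rw [e1, pow_succ, pow_orderOf_eq_one, one_mul]
    rw [e]
    exact N.pow_mem h2 _
  rw [hres] at hle
  have htop : N = ⊤ := top_le_iff.mp hle
  rw [htop, Subgroup.index_top] at hN
  exact absurd hN (by norm_num)

end Cfsg.Agent.Helper26.XSTransfer
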