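import Mathlib

set_option autoImplicit false

namespace Cfsg.Agent.Helper26.Zass

section pure

variable {G : Type*} [Group G]

/-- the conjugate `j t j⁻¹` -/
def cS (t j : G) : G := j * t * j⁻¹

/-- the conjugate `j⁻¹ u j` -/
def cT (u j : G) : G := j⁻¹ * u * j

theorem cS_one (t : G) : cS t 1 = t := by unfold cS; group

theorem cT_one (u : G) : cT u 1 = u := by unfold cT; group

theorem cS_conj (t j l : G) : l * cS t j * l⁻¹ = cS t (l * j) := by unfold cS; group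

theorem cS_mul (t t' j : G) : cS (t * t') j = cS t j * cS t' j := by unfold cS; group

theorem cS_cS (t x y : G) : cS (cS t y) x = cS t (x * y) := by unfold cS; group

theorem cS_swap (t : G) {x y : G} (h : x * y = y * x) : cS (cS t y) x = cS (cS t x) y := by
  rw [cS_cS, cS_cS, h]

theorem cS_sq {t : G} (ht : t * t = 1) (j : G) : cS t j * cS t j = 1 := by
  rw [← cS_mul, ht]; unfold cS; group

theorem cS_pow (t j : G) (n : ℕ) : (cS t j) ^ n = cS (t ^ n) j := by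
  unfold cS; exact conj_pow

theorem cT_eq_cS (u j : G) : cT u j = cS u j⁻¹ := by unfold cT cS; group

theorem cT_pow (u j : G) (n : ℕ) : (cT u j) ^ n = cT (u ^ n) j := by
  rw [cT_eq_cS, cS_pow, ← cT_eq_cS]

theorem conj_mul_eq {x y x' y' : G} (l : G) (h : x * y = x' * y') :
    (l * x * l⁻¹) * (l * y * l⁻¹) = (l * x' * l⁻¹) * (l * y' * l⁻¹) := by
  calc (l * x * l⁻¹) * (l * y * l⁻¹) = l * (x * y) * l⁻¹ := by group
    _ = l * (x' * y') * l⁻¹ := by rw [h]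
    _ = (l * x' * l⁻¹) * (l * y' * l⁻¹) := by group

end pure

section action

variable {G : Type*} [Group G] {Ω : Type*} [MulAction G Ω]

theorem pow_fix {g : G} {x : Ω} (h : g • x = x) (n : ℕ) : g ^ n • x = x := by
  induction n with
  | zero => rw [pow_zero, one_smul]
  | succ n ih => rw [pow_succ, mul_smul, h, ih]

theorem inv_fix {g : G} {x : Ω} (h : g • x = x) : g⁻¹ • x = x := by
  rw [inv_smul_eq_iff]; exact h.symm

theorem swap_pow {g : G} {x y : Ω} (h1 : g • x = y) (h2 : g • y = x) {n : ℕ} (hn : Odd n) :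
    g ^ n • x = y := by
  obtain ⟨m, rfl⟩ := hn
  have hgg : (g ^ 2) • y = y := by rw [pow_two, mul_smul, h2, h1]
  rw [pow_succ, mul_smul, h1, pow_mul]
  exact pow_fix hgg m

theorem fix_unique [Finite Ω]
    (h3 : ∀ g : G, ∀ a b c : Ω, a ≠ b → b ≠ c → a ≠ c → g • a = a → g • b = b → g • c = c → g = 1)
    (hodd : Odd (Nat.card Ω)) (t : G) (ht : t * t = 1) (ht1 : t ≠ 1) : ∃! x : Ω, t • x = x := by
  have hP : IsPGroup 2 (Subgroup.zpowers t) := by
    apply IsPGroup.of_card (n := 1)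
    rw [Nat.card_zpowers, pow_one]
    exact orderOf_eq_prime (by rw [pow_two]; exact ht) ht1
  have hmem : ∀ x : Ω, x ∈ MulAction.fixedPoints (Subgroup.zpowers t) Ω ↔ t • x = x := by
    intro x
    constructor
    · intro hx
      exact hx ⟨t, Subgroup.mem_zpowers t⟩
    · intro hx g
      obtain ⟨g, hg⟩ := g
      obtain ⟨n, rfl⟩ := Subgroup.mem_zpowers_iff.mp hg
      have h1 : t ∈ MulAction.stabilizer G x := hx
      have h2 : t ^ n ∈ MulAction.stabilizer G x := zpow_mem h1 n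
      exact h2
  have hc := hP.card_modEq_card_fixedPoints Ω
  have hodd' : Odd (Nat.card (MulAction.fixedPoints (Subgroup.zpowers t) Ω)) := by
    have hc' : Nat.card Ω % 2 = Nat.card (MulAction.fixedPoints (Subgroup.zpowers t) Ω) % 2 := hc
    rw [Nat.odd_iff] at hodd ⊢
    omega
  have hne : (MulAction.fixedPoints (Subgroup.zpowers t) Ω).Nonempty := by
    rw [Set.nonempty_iff_ne_empty]
    intro h
    rw [h, Nat.card_coe_set_eq, Set.ncard_empty] at hodd'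
    exact absurd hodd' (by decide)
  obtain ⟨x, hx⟩ := hne
  refine ⟨x, (hmem x).mp hx, ?_⟩
  intro y hy
  by_contra hyx
  have hy' := (hmem y).mpr hy
  have hF : MulAction.fixedPoints (Subgroup.zpowers t) Ω = {x, y} := by
    apply Set.Subset.antisymm
    · intro z hz
      by_contra hzz
      simp only [Set.mem_insert_iff, Set.mem_singleton_iff, not_or] at hzz
      exact ht1 (h3 t x y z (Ne.symm hyx) (Ne.symm hzz.2) (Ne.symm hzz.1) ((hmem x).mp hx) hy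
        ((hmem z).mp hz))
    · intro z hz
      rcases Set.mem_insert_iff.mp hz with h | h
      · rw [h]; exact hx
      · rw [Set.mem_singleton_iff.mp h]; exact hy'
  rw [hF, Nat.card_coe_set_eq, Set.ncard_pair (Ne.symm hyx)] at hodd'
  exact absurd hodd' (by decide)

/-- the standing hypotheses: `U` regular on the points other than `a`, `v` an involution swapping `a`, `b` -/
structure Z0 (a b : Ω) (v : G) (U : Subgroup G) : Prop where
  h3 : ∀ g : G, ∀ x y z : Ω, x ≠ y → y ≠ z → x ≠ z → g • x = x → g • y = y → g • z = z → g = 1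
  hfix : ∀ t : G, t * t = 1 → t ≠ 1 → ∃! x : Ω, t • x = x
  hab : a ≠ b
  hva : v • a = b
  hvb : v • b = a
  hvv : v * v = 1
  hUa : ∀ u ∈ U, u • a = a
  hUn : ∀ h : G, h • a = a → ∀ u ∈ U, h * u * h⁻¹ ∈ U
  hreg : ∀ d : Ω, d ≠ a → ∃ u ∈ U, u • b = d
  hinj : ∀ u ∈ U, ∀ u' ∈ U, u • b = u' • b → u = u'
  hUab : ∀ u ∈ U, ∀ u' ∈ U, u * u' = u' * u

namespace Z0

variable {a b : Ω} {v : G} {U : Subgroup G}

theorem v_ne_one (z : Z0 a b v U) : v ≠ 1 := by
  intro h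
  have := z.hva
  rw [h, one_smul] at this
  exact z.hab this

theorem v_inv (z : Z0 a b v U) : v⁻¹ = v := inv_eq_of_mul_eq_one_left z.hvv

theorem U_move (z : Z0 a b v U) {u : G} (hu : u ∈ U) (hub : u • b = b) : u = 1 :=
  z.hinj u hu 1 U.one_mem (by rw [hub, one_smul])

theorem U_mul_pow (z : Z0 a b v U) {x y : G} (hx : x ∈ U) (hy : y ∈ U) (n : ℕ) :
    (x * y) ^ n = x ^ n * y ^ n :=
  Commute.mul_pow (z.hUab x hx y hy) n

theorem H_invol (z : Z0 a b v U) {k : G} (hka : k • a = a) (hkb : k • b = b) (hkk : k * k = 1) :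
    k = 1 := by
  by_contra hk1
  obtain ⟨x, -, huniq⟩ := z.hfix k hkk hk1
  exact z.hab ((huniq a hka).trans (huniq b hkb).symm)

theorem H_odd [Finite G] (z : Z0 a b v U) {k : G} (hka : k • a = a) (hkb : k • b = b) :
    Odd (orderOf k) := by
  by_contra hodd
  rw [Nat.not_odd_iff_even] at hodd
  obtain ⟨m, hm⟩ := hodd
  have hpos : 0 < orderOf k := orderOf_pos k
  have h1 : k ^ m * k ^ m = 1 := by rw [← pow_add, ← hm, pow_orderOf_eq_one]
  have h2 : k ^ m = 1 := z.H_invol (pow_fix hka m) (pow_fix hkb m) h1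
  have h3 : orderOf k ∣ m := orderOf_dvd_of_pow_eq_one h2
  have h4 := Nat.le_of_dvd (by omega) h3
  omega

theorem inv_conj [Finite G] (z : Z0 a b v U) {k : G} (hka : k • a = a) (hkb : k • b = b) :
    v * k * v = k⁻¹ := by
  obtain ⟨g, hg⟩ : ∃ g, g = v * k := ⟨_, rfl⟩
  have hga : g • a = b := by rw [hg, mul_smul, hka, z.hva]
  have hgb : g • b = a := by rw [hg, mul_smul, hkb, z.hvb]
  have hgga : (g * g) • a = a := by rw [mul_smul, hga, hgb]
  have hggb : (g * g) • b = b := by rw [mul_smul, hgb, hga]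
  have hodd := z.H_odd hgga hggb
  obtain ⟨w, hw⟩ : ∃ w, w = g ^ orderOf (g * g) := ⟨_, rfl⟩
  have hww : w * w = 1 := by
    rw [hw, ← pow_add, ← two_mul, pow_mul, pow_two, pow_orderOf_eq_one]
  have hwa : w • a = b := by rw [hw]; exact swap_pow hga hgb hodd
  have hwb : w • b = a := by rw [hw]; exact swap_pow hgb hga hodd
  have hw1 : w ≠ 1 := by
    intro h
    rw [h, one_smul] at hwa
    exact z.hab hwa
  obtain ⟨x, hx, huniq⟩ := z.hfix w hww hw1
  have hcomm : w * g = g * w := by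
    rw [hw]; exact (Commute.pow_self g _).eq
  have hgx : g • x = x := by
    apply huniq
    rw [← mul_smul, hcomm, mul_smul, hx]
  have hxa : a ≠ x := by
    intro h
    rw [← h, hwa] at hx
    exact z.hab hx.symm
  have hxb : b ≠ x := by
    intro h
    rw [← h, hwb] at hx
    exact z.hab hx
  have hgg1 : g * g = 1 :=
    z.h3 (g * g) a b x z.hab hxb hxa hgga hggb (by rw [mul_smul, hgx, hgx])
  rw [hg] at hgg1
  rw [eq_inv_iff_mul_eq_one]
  calc v * k * v * k = v * k * (v * k) := by group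
    _ = 1 := hgg1

theorem H_comm [Finite G] (z : Z0 a b v U) {k l : G} (hka : k • a = a) (hkb : k • b = b)
    (hla : l • a = a) (hlb : l • b = b) : k * l = l * k := by
  have h1 := z.inv_conj hka hkb
  have h2 := z.inv_conj hla hlb
  have h3 := z.inv_conj (k := k * l) (by rw [mul_smul, hla, hka]) (by rw [mul_smul, hlb, hkb])
  have h4 : v * (k * l) * v = (v * k * v) * (v * l * v) := by
    calc v * (k * l) * v = v * k * 1 * l * v := by group
      _ = v * k * (v * v) * l * v := by rw [z.hvv]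
      _ = (v * k * v) * (v * l * v) := by group
  rw [h4, h1, h2, mul_inv_rev] at h3
  have h5 := congrArg (fun x => x⁻¹) h3
  simp only [mul_inv_rev, inv_inv] at h5
  exact h5.symm

theorem mem_of_invol (z : Z0 a b v U) {g : G} (hga : g • a = a) (hgg : g * g = 1) : g ∈ U := by
  have hgb : g • b ≠ a := by
    intro h
    have : g • b = g • a := by rw [h, hga]
    exact z.hab (smul_left_cancel g this).symm
  obtain ⟨u, hu, hub⟩ := z.hreg (g • b) hgb
  obtain ⟨k, hk⟩ : ∃ k, k = u⁻¹ * g := ⟨_, rfl⟩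
  have hka : k • a = a := by rw [hk, mul_smul, hga, inv_smul_eq_iff, z.hUa u hu]
  have hkb : k • b = b := by rw [hk, mul_smul, inv_smul_eq_iff, hub]
  have hgk : g = u * k := by rw [hk]; group
  have hkkU : k * k ∈ U := by
    have h0 : u * (k * u * k⁻¹) * (k * k) = 1 := by
      calc u * (k * u * k⁻¹) * (k * k) = (u * k) * (u * k) := by group
        _ = 1 := by rw [← hgk]; exact hgg
    have h1 : k * k = (u * (k * u * k⁻¹))⁻¹ := eq_inv_of_mul_eq_one_right h0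
    rw [h1]
    exact U.inv_mem (U.mul_mem hu (z.hUn k hka u hu))
  have hkk : k * k = 1 := z.U_move hkkU (by rw [mul_smul, hkb, hkb])
  have hk1 : k = 1 := z.H_invol hka hkb hkk
  rw [hgk, hk1, mul_one]
  exact hu

theorem sqrt [Finite G] (z : Z0 a b v U) {k : G} (hka : k • a = a) (hkb : k • b = b) :
    ∃ j : G, j • a = a ∧ j • b = b ∧ j * j = k := by
  obtain ⟨i, hi⟩ := z.H_odd hka hkb
  refine ⟨k ^ (i + 1), pow_fix hka _, pow_fix hkb _, ?_⟩
  rw [← pow_add, show i + 1 + (i + 1) = orderOf k + 1 by omega, pow_succ, pow_orderOf_eq_one,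
    one_mul]

theorem comm_eq_one (z : Z0 a b v U) {x t : G} (hxa : x • a = a) (hxb : x • b = b) (ht : t ∈ U)
    (ht1 : t ≠ 1) (hxt : x * t = t * x) : x = 1 := by
  have hta : t • a = a := z.hUa t ht
  have h1 : t • b ≠ b := fun h => ht1 (z.U_move ht h)
  have h2 : t • b ≠ a := by
    intro h
    have : t • b = t • a := by rw [h, hta]
    exact z.hab (smul_left_cancel t this).symm
  have h3 : x • (t • b) = t • b := by rw [← mul_smul, hxt, mul_smul, hxb]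
  exact z.h3 x a b (t • b) z.hab (Ne.symm h1) (Ne.symm h2) hxa hxb h3

theorem cS_inj (z : Z0 a b v U) {t : G} (ht : t ∈ U) (ht1 : t ≠ 1) {j j' : G} (hja : j • a = a)
    (hjb : j • b = b) (hj'a : j' • a = a) (hj'b : j' • b = b) (h : cS t j = cS t j') : j = j' := by
  have hx : (j'⁻¹ * j) * t = t * (j'⁻¹ * j) := by
    unfold cS at h
    calc (j'⁻¹ * j) * t = j'⁻¹ * (j * t * j⁻¹) * j := by group
      _ = j'⁻¹ * (j' * t * j'⁻¹) * j := by rw [h]
      _ = t * (j'⁻¹ * j) := by group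
  have h1 := z.comm_eq_one (x := j'⁻¹ * j) (by rw [mul_smul, hja, inv_fix hj'a])
    (by rw [mul_smul, hjb, inv_fix hj'b]) ht ht1 hx
  calc j = j' * (j'⁻¹ * j) := by group
    _ = j' := by rw [h1, mul_one]

theorem mul_invol (z : Z0 a b v U) {t t' : G} (ht : t ∈ U) (ht' : t' ∈ U) (htt : t * t = 1)
    (htt' : t' * t' = 1) : (t * t') * (t * t') = 1 := by
  calc (t * t') * (t * t') = t * (t' * t) * t' := by group
    _ = t * (t * t') * t' := by rw [z.hUab t' ht' t ht]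
    _ = (t * t) * (t' * t') := by group
    _ = 1 := by rw [htt, htt', one_mul]

theorem horb_aux [Finite G] (z : Z0 a b v U) {c : Ω} {u₀ s : G} (hvc : v • c = c) (hu₀ : u₀ ∈ U)
    (hu₀b : u₀ • b = c) (hvsv : v * s * v = u₀⁻¹ * v * u₀) {t : G} (ht : t ∈ U) (htt : t * t = 1)
    (ht1 : t ≠ 1) : ∃ j : G, j • a = a ∧ j • b = b ∧ t = cS s j := by
  have hta : t • a = a := z.hUa t ht
  have htb : t • b ≠ b := fun h => ht1 (z.U_move ht h)
  have hvtb : v • t • b ≠ a := by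
    intro h
    apply htb
    have h' : v • v • t • b = v • a := by rw [h]
    rw [← mul_smul, z.hvv, one_smul, z.hva] at h'
    exact h'
  obtain ⟨y, hy, hyb⟩ := z.hreg (v • t • b) hvtb
  have hya : y • a = a := z.hUa y hy
  obtain ⟨w, hw⟩ : ∃ w, w = y⁻¹ * (v * t * v) * y := ⟨_, rfl⟩
  have hww : w * w = 1 := by
    calc w * w = y⁻¹ * (v * t * (v * v) * t * v) * y := by rw [hw]; group
      _ = y⁻¹ * (v * t * 1 * t * v) * y := by rw [z.hvv]
      _ = y⁻¹ * (v * (t * t) * v) * y := by group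
      _ = y⁻¹ * (v * 1 * v) * y := by rw [htt]
      _ = y⁻¹ * (v * v) * y := by group
      _ = y⁻¹ * 1 * y := by rw [z.hvv]
      _ = 1 := by group
  have hwa : w • a = b := by
    rw [hw, mul_smul, mul_smul, mul_smul, mul_smul, hya, z.hva, ← hyb, inv_smul_smul]
  have hwb : w • b = a := by
    have h' : w • w • a = a := by rw [← mul_smul, hww, one_smul]
    rw [hwa] at h'
    exact h'
  have hw1 : w ≠ 1 := by
    intro h
    rw [h, one_smul] at hwa
    exact z.hab hwa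
  have hk'a : (v * w) • a = a := by rw [mul_smul, hwa, z.hvb]
  have hk'b : (v * w) • b = b := by rw [mul_smul, hwb, z.hva]
  obtain ⟨j, hja, hjb, hjj⟩ := z.sqrt hk'a hk'b
  have hvj : v * j = j⁻¹ * v := by
    have h := z.inv_conj hja hjb
    calc v * j = v * j * (v * v) := by rw [z.hvv, mul_one]
      _ = (v * j * v) * v := by group
      _ = j⁻¹ * v := by rw [h]
  have hwj : w = j⁻¹ * v * j := by
    calc w = (v * v) * w := by rw [z.hvv, one_mul]
      _ = v * (v * w) := by group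
      _ = v * (j * j) := by rw [hjj]
      _ = (v * j) * j := by group
      _ = j⁻¹ * v * j := by rw [hvj]
  have hja' : j⁻¹ • a = a := inv_fix hja
  have hjb' : j⁻¹ • b = b := inv_fix hjb
  obtain ⟨x, hx, huniq⟩ := z.hfix w hww hw1
  have h1 : w • (j⁻¹ • c) = j⁻¹ • c := by
    rw [hwj, mul_smul, mul_smul, smul_inv_smul, hvc]
  have h2 : w • (y⁻¹ • b) = y⁻¹ • b := by
    rw [hw, mul_smul, mul_smul, mul_smul, mul_smul, smul_inv_smul, z.hvb, hta, z.hva]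
  have h3 : j⁻¹ • c = y⁻¹ • b := (huniq _ h1).trans (huniq _ h2).symm
  have hcT : cT u₀ j ∈ U := by
    have h' := z.hUn j⁻¹ hja' u₀ hu₀
    rw [inv_inv] at h'
    exact h'
  have hy' : y⁻¹ = cT u₀ j := by
    apply z.hinj _ (U.inv_mem hy) _ hcT
    rw [← h3]
    unfold cT
    rw [mul_smul, mul_smul, hjb, hu₀b]
  refine ⟨j, hja, hjb, ?_⟩
  have hvj' : v * j⁻¹ = j * v := by
    calc v * j⁻¹ = j * (j⁻¹ * v) * j⁻¹ := by group
      _ = j * (v * j) * j⁻¹ := by rw [hvj]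
      _ = j * v := by group
  have hvtv : v * t * v = (cT u₀ j)⁻¹ * w * cT u₀ j := by
    rw [← hy', hw]; group
  have e1 : (cT u₀ j)⁻¹ * w * cT u₀ j = j⁻¹ * (u₀⁻¹ * v * u₀) * j := by
    rw [hwj]; unfold cT; group
  have e2 : t = v * (v * t * v) * v := by
    calc t = 1 * t * 1 := by group
      _ = (v * v) * t * (v * v) := by rw [z.hvv]
      _ = v * (v * t * v) * v := by group
  unfold cS
  calc t = v * (v * t * v) * v := e2
    _ = v * (j⁻¹ * (v * s * v) * j) * v := by rw [hvtv, e1, hvsv]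
    _ = (v * j⁻¹) * v * s * v * (j * v) := by group
    _ = (j * v) * v * s * v * (v * j⁻¹) := by rw [hvj']
    _ = j * (v * v) * s * (v * v) * j⁻¹ := by group
    _ = j * 1 * s * 1 * j⁻¹ := by rw [z.hvv]
    _ = j * s * j⁻¹ := by group

end Z0

/-- the hypotheses for the key claim -/
structure Z (a b c : Ω) (v u₀ s : G) (U : Subgroup G) : Prop where
  z0 : Z0 a b v U
  hvc : v • c = c
  hu₀ : u₀ ∈ U
  hu₀b : u₀ • b = c
  hs : s ∈ U
  hss : s * s = 1
  hs1 : s ≠ 1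
  hvsv : v * s * v = u₀⁻¹ * v * u₀
  hinv : ∀ k : G, k • a = a → k • b = b → v * k * v = k⁻¹
  hcomm : ∀ k l : G, k • a = a → k • b = b → l • a = a → l • b = b → k * l = l * k
  horb : ∀ t ∈ U, t * t = 1 → t ≠ 1 → ∃ j : G, j • a = a ∧ j • b = b ∧ t = cS s j

theorem Z0.toZ [Finite G] {a b : Ω} {v : G} {U : Subgroup G} (z : Z0 a b v U) {c : Ω} {u₀ s : G}
    (hvc : v • c = c) (hu₀ : u₀ ∈ U) (hu₀b : u₀ • b = c) (hsdef : s = v * u₀⁻¹ * v * u₀ * v) :
    Z a b c v u₀ s U := by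
  have hvsv : v * s * v = u₀⁻¹ * v * u₀ := by
    calc v * s * v = (v * v) * u₀⁻¹ * v * u₀ * (v * v) := by rw [hsdef]; group
      _ = 1 * u₀⁻¹ * v * u₀ * 1 := by rw [z.hvv]
      _ = u₀⁻¹ * v * u₀ := by group
  have hsa : s • a = a := by
    rw [hsdef, mul_smul, mul_smul, mul_smul, mul_smul, z.hva, hu₀b, hvc, ← hu₀b, inv_smul_smul,
      z.hvb]
  have hss : s * s = 1 := by
    calc s * s = v * u₀⁻¹ * v * u₀ * (v * v) * u₀⁻¹ * v * u₀ * v := by rw [hsdef]; group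
      _ = v * u₀⁻¹ * v * u₀ * 1 * u₀⁻¹ * v * u₀ * v := by rw [z.hvv]
      _ = v * u₀⁻¹ * (v * v) * u₀ * v := by group
      _ = v * u₀⁻¹ * 1 * u₀ * v := by rw [z.hvv]
      _ = v * v := by group
      _ = 1 := z.hvv
  have hs : s ∈ U := z.mem_of_invol hsa hss
  have hs1 : s ≠ 1 := by
    intro h
    have h1 : u₀⁻¹ * v * u₀ = 1 := by rw [← hvsv, h, mul_one, z.hvv]
    apply z.v_ne_one
    calc v = u₀ * (u₀⁻¹ * v * u₀) * u₀⁻¹ := by group
      _ = u₀ * 1 * u₀⁻¹ := by rw [h1]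
      _ = 1 := by group
  exact ⟨z, hvc, hu₀, hu₀b, hs, hss, hs1, hvsv, fun k hka hkb => z.inv_conj hka hkb,
    fun k l hka hkb hla hlb => z.H_comm hka hkb hla hlb,
    fun t ht htt ht1 => z.horb_aux hvc hu₀ hu₀b hvsv ht htt ht1⟩

namespace Z

variable {a b c : Ω} {v u₀ s : G} {U : Subgroup G}

theorem cS_mem (z : Z a b c v u₀ s U) {t : G} (ht : t ∈ U) {j : G} (hja : j • a = a) :
    cS t j ∈ U :=
  z.z0.hUn j hja t ht

theorem cT_mem (z : Z a b c v u₀ s U) {u : G} (hu : u ∈ U) {j : G} (hja : j • a = a) :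
    cT u j ∈ U := by
  have h' := z.z0.hUn j⁻¹ (inv_fix hja) u hu
  rw [inv_inv] at h'
  exact h'

theorem exists_orb_mul (z : Z a b c v u₀ s U) {j j' : G} (hja : j • a = a) (hjb : j • b = b)
    (hj'a : j' • a = a) (hj'b : j' • b = b) (hne : j ≠ j') :
    ∃ l : G, l • a = a ∧ l • b = b ∧ cS s j * cS s j' = cS s l := by
  have h1 : cS s j ∈ U := z.cS_mem z.hs hja
  have h2 : cS s j' ∈ U := z.cS_mem z.hs hj'a
  have h3 : cS s j * cS s j = 1 := cS_sq z.hss j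
  have h4 : cS s j' * cS s j' = 1 := cS_sq z.hss j'
  have h5 := z.z0.mul_invol h1 h2 h3 h4
  have h6 : cS s j * cS s j' ≠ 1 := by
    intro h
    apply hne
    apply z.z0.cS_inj z.hs z.hs1 hja hjb hj'a hj'b
    calc cS s j = cS s j * (cS s j' * cS s j') := by rw [h4, mul_one]
      _ = (cS s j * cS s j') * cS s j' := by rw [mul_assoc]
      _ = cS s j' := by rw [h, one_mul]
  exact z.horb _ (U.mul_mem h1 h2) h5 h6

theorem E0_aux (z : Z a b c v u₀ s U) {k : G} (hka : k • a = a) (hkb : k • b = b) :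
    v * cS s k * v = (cT u₀ k)⁻¹ * (v * k * k) * cT u₀ k := by
  have h1 : v * k * v = k⁻¹ := z.hinv k hka hkb
  have h2 : v * k⁻¹ * v = k := by
    have h' := z.hinv k⁻¹ (inv_fix hka) (inv_fix hkb)
    rw [inv_inv] at h'
    exact h'
  have h3 : k * v * k = v := by
    calc k * v * k = k * (v * k * v) * v⁻¹ := by group
      _ = k * k⁻¹ * v⁻¹ := by rw [h1]
      _ = v⁻¹ := by group
      _ = v := z.z0.v_inv
  unfold cS cT
  calc v * (k * s * k⁻¹) * v = (v * k * 1) * s * (1 * k⁻¹ * v) := by group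
    _ = (v * k * (v * v)) * s * ((v * v) * k⁻¹ * v) := by rw [z.z0.hvv]
    _ = (v * k * v) * (v * s * v) * (v * k⁻¹ * v) := by group
    _ = k⁻¹ * (u₀⁻¹ * v * u₀) * k := by rw [h1, h2, z.hvsv]
    _ = k⁻¹ * u₀⁻¹ * v * u₀ * k := by group
    _ = k⁻¹ * u₀⁻¹ * (k * v * k) * u₀ * k := by rw [h3]
    _ = (k⁻¹ * u₀ * k)⁻¹ * (v * k * k) * (k⁻¹ * u₀ * k) := by group

theorem Phi (z : Z a b c v u₀ s U) {k l m : G} (hka : k • a = a) (hkb : k • b = b)
    (hla : l • a = a) (hlb : l • b = b) (hma : m • a = a) (hmb : m • b = b)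
    (h : cS s k * cS s l = cS s m) :
    v • ((cT u₀ k * (cT u₀ m)⁻¹) • b) = (cT u₀ k⁻¹ * (cT u₀ (l * k⁻¹ * k⁻¹))⁻¹) • b := by
  obtain ⟨Tk, hTk⟩ : ∃ T, T = cT u₀ k := ⟨_, rfl⟩
  obtain ⟨Tl, hTl⟩ : ∃ T, T = cT u₀ l := ⟨_, rfl⟩
  obtain ⟨Tm, hTm⟩ : ∃ T, T = cT u₀ m := ⟨_, rfl⟩
  have hvk : v * cS s k * v = Tk⁻¹ * (v * k * k) * Tk := by rw [hTk]; exact z.E0_aux hka hkb
  have hvl : v * cS s l * v = Tl⁻¹ * (v * l * l) * Tl := by rw [hTl]; exact z.E0_aux hla hlb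
  have hvm : v * cS s m * v = Tm⁻¹ * (v * m * m) * Tm := by rw [hTm]; exact z.E0_aux hma hmb
  have hTla : Tl • a = a := by rw [hTl]; exact z.z0.hUa _ (z.cT_mem z.hu₀ hla)
  have hTma : Tm • a = a := by rw [hTm]; exact z.z0.hUa _ (z.cT_mem z.hu₀ hma)
  have hel : cT u₀ k⁻¹ * (cT u₀ (l * k⁻¹ * k⁻¹))⁻¹ = (k * k) * (Tk * Tl⁻¹) * (k * k)⁻¹ := by
    rw [hTk, hTl]; unfold cT; group
  rw [hel, ← hTk, ← hTm]
  have hE : (Tk⁻¹ * (v * k * k) * Tk) * (Tl⁻¹ * (v * l * l) * Tl) = Tm⁻¹ * (v * m * m) * Tm := by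
    rw [← hvk, ← hvl, ← hvm, ← h]
    calc v * cS s k * v * (v * cS s l * v) = v * cS s k * (v * v) * cS s l * v := by group
      _ = v * cS s k * 1 * cS s l * v := by rw [z.z0.hvv]
      _ = v * (cS s k * cS s l) * v := by group
  have hEa := congrArg (fun g : G => g • a) hE
  simp only [mul_smul] at hEa
  rw [hTla, hla, hla, hTma, hma, hma, z.z0.hva] at hEa
  have hkkb : (k * k)⁻¹ • b = b := inv_fix (by rw [mul_smul, hkb, hkb])
  rw [mul_smul (k * k * (Tk * Tl⁻¹)) ((k * k)⁻¹) b, hkkb]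
  simp only [mul_smul]
  rw [← hEa, smul_inv_smul, ← mul_smul v v, z.z0.hvv, one_smul]

theorem Q (z : Z a b c v u₀ s U) {k l m : G} (hka : k • a = a) (hkb : k • b = b)
    (hla : l • a = a) (hlb : l • b = b) (hma : m • a = a) (hmb : m • b = b)
    (h1 : cS s k * cS s (k * k) = cS s l) (h2 : cS s k * s = cS s m) :
    s * cT u₀ k * (cT u₀ l)⁻¹ = cT u₀ k⁻¹ * (cT u₀ (m * k⁻¹ * k⁻¹))⁻¹ := by
  obtain ⟨Tk, hTk⟩ : ∃ T, T = cT u₀ k := ⟨_, rfl⟩
  obtain ⟨Tl, hTl⟩ : ∃ T, T = cT u₀ l := ⟨_, rfl⟩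
  obtain ⟨Tk', hTk'⟩ : ∃ T, T = cT u₀ k⁻¹ := ⟨_, rfl⟩
  obtain ⟨Tmk, hTmk⟩ : ∃ T, T = cT u₀ (m * k⁻¹ * k⁻¹) := ⟨_, rfl⟩
  have hkka : (k * k) • a = a := by rw [mul_smul, hka, hka]
  have hkkb : (k * k) • b = b := by rw [mul_smul, hkb, hkb]
  have hk'a : k⁻¹ • a = a := inv_fix hka
  have hk'b : k⁻¹ • b = b := inv_fix hkb
  have hTkU : Tk ∈ U := by rw [hTk]; exact z.cT_mem z.hu₀ hka
  have hTlU : Tl ∈ U := by rw [hTl]; exact z.cT_mem z.hu₀ hla
  have hTk'U : Tk' ∈ U := by rw [hTk']; exact z.cT_mem z.hu₀ hk'a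
  have hTmkU : Tmk ∈ U := by
    rw [hTmk]; exact z.cT_mem z.hu₀ (by rw [mul_smul, mul_smul, hk'a, hk'a, hma])
  have P1 : v • ((Tk * Tl⁻¹) • b) = (Tk' * u₀⁻¹) • b := by
    have h' := z.Phi hka hkb hkka hkkb hla hlb h1
    rw [show k * k * k⁻¹ * k⁻¹ = 1 by group, cT_one, ← hTk, ← hTl, ← hTk'] at h'
    exact h'
  have h2' : cS s k * cS s m = cS s 1 := by
    rw [cS_one, ← h2, ← mul_assoc, cS_sq z.hss k, one_mul]
  have P2 : v • ((Tk * u₀⁻¹) • b) = (Tk' * Tmk⁻¹) • b := by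
    have h' := z.Phi hka hkb hma hmb (one_smul G a) (one_smul G b) h2'
    rw [cT_one, ← hTk, ← hTk', ← hTmk] at h'
    exact h'
  rw [← hTk, ← hTl, ← hTk', ← hTmk]
  have hLU : s * Tk * Tl⁻¹ ∈ U := U.mul_mem (U.mul_mem z.hs hTkU) (U.inv_mem hTlU)
  have hRU : Tk' * Tmk⁻¹ ∈ U := U.mul_mem hTk'U (U.inv_mem hTmkU)
  apply z.z0.hinj _ hLU _ hRU
  rw [← P2]
  have P1' : (Tk * Tl⁻¹) • b = v • ((Tk' * u₀⁻¹) • b) := by
    rw [← P1, ← mul_smul, z.z0.hvv, one_smul]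
  have F1 : s * v = v * u₀⁻¹ * v * u₀ := by
    calc s * v = (v * v) * s * v := by rw [z.z0.hvv, one_mul]
      _ = v * (v * s * v) := by group
      _ = v * (u₀⁻¹ * v * u₀) := by rw [z.hvsv]
      _ = v * u₀⁻¹ * v * u₀ := by group
  have F2 : u₀ * (Tk' * u₀⁻¹) = Tk' := by
    rw [z.z0.hUab Tk' hTk'U u₀⁻¹ (U.inv_mem z.hu₀)]; group
  have F3 : v • Tk' • b = Tk • b := by
    have hvk : v * k = k⁻¹ * v := by
      have h := z.hinv k hka hkb
      calc v * k = v * k * (v * v) := by rw [z.z0.hvv, mul_one]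
        _ = (v * k * v) * v := by group
        _ = k⁻¹ * v := by rw [h]
    rw [hTk', hTk]
    unfold cT
    rw [inv_inv, mul_smul, mul_smul, hk'b, z.hu₀b, ← mul_smul, hvk, mul_smul, z.hvc, mul_smul,
      mul_smul, hkb, z.hu₀b]
  have F4 : u₀⁻¹ * Tk = Tk * u₀⁻¹ := z.z0.hUab _ (U.inv_mem z.hu₀) _ hTkU
  calc (s * Tk * Tl⁻¹) • b = s • (Tk * Tl⁻¹) • b := by rw [mul_assoc, mul_smul]
    _ = s • v • (Tk' * u₀⁻¹) • b := by rw [P1']
    _ = (s * v) • (Tk' * u₀⁻¹) • b := by rw [mul_smul s v]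
    _ = (v * u₀⁻¹ * v * u₀) • (Tk' * u₀⁻¹) • b := by rw [F1]
    _ = v • u₀⁻¹ • v • (u₀ * (Tk' * u₀⁻¹)) • b := by simp only [mul_smul]
    _ = v • u₀⁻¹ • v • Tk' • b := by rw [F2]
    _ = v • u₀⁻¹ • Tk • b := by rw [F3]
    _ = v • (u₀⁻¹ * Tk) • b := by rw [mul_smul]
    _ = v • (Tk * u₀⁻¹) • b := by rw [F4]

theorem final [Finite G] (z : Z a b c v u₀ s U) (hU2 : IsPGroup 2 U) (hne : u₀ * u₀ ≠ 1)
    {k : G} (hka : k • a = a) (hkb : k • b = b) (hk1 : k ≠ 1) : False := by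
  have hkka : (k * k) • a = a := by rw [mul_smul, hka, hka]
  have hkkb : (k * k) • b = b := by rw [mul_smul, hkb, hkb]
  have hkkk : k ≠ k * k := by
    intro h
    apply hk1
    calc k = k⁻¹ * (k * k) := by group
      _ = k⁻¹ * k := by rw [← h]
      _ = 1 := by group
  obtain ⟨l, hla, hlb, h1⟩ := z.exists_orb_mul hka hkb hkka hkkb hkkk
  obtain ⟨m, hma, hmb, h2⟩ := z.exists_orb_mul hka hkb (one_smul G a) (one_smul G b) hk1
  rw [cS_one] at h2
  have hskU : cS s k ∈ U := z.cS_mem z.hs hka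
  have hlkm : l = k * m := by
    apply z.z0.cS_inj z.hs z.hs1 hla hlb (by rw [mul_smul, hma, hka]) (by rw [mul_smul, hmb, hkb])
    rw [← h1, ← cS_conj s m k, ← h2, z.z0.hUab _ hskU _ z.hs]
    unfold cS; group
  have hc : k * m = m * k := z.hcomm k m hka hkb hma hmb
  have hc' : k * m⁻¹ = m⁻¹ * k := z.hcomm k m⁻¹ hka hkb (inv_fix hma) (inv_fix hmb)
  have hQ := z.Q hka hkb hla hlb hma hmb h1 h2
  obtain ⟨r, hr⟩ := (IsPGroup.iff_orderOf.mp hU2) ⟨u₀, z.hu₀⟩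
  have hr' : orderOf u₀ = 2 ^ r := by rw [← hr]; exact (Subgroup.orderOf_mk u₀ z.hu₀).symm
  have hr2 : 2 ≤ r := by
    by_contra hlt
    have h21 : 2 ^ r ∣ 2 ^ 1 := pow_dvd_pow 2 (by omega)
    rw [pow_one, ← hr'] at h21
    apply hne
    rw [← pow_two]
    exact orderOf_dvd_iff_pow_eq_one.mp h21
  obtain ⟨r', rfl⟩ : ∃ r', r = r' + 2 := ⟨r - 2, by omega⟩
  obtain ⟨N, hN⟩ : ∃ N, N = 2 ^ (r' + 1) := ⟨_, rfl⟩
  have hNpos : 0 < N := by rw [hN]; positivity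
  have hNN : N + N = orderOf u₀ := by rw [hr', hN]; ring
  have hN2 : N = 2 * 2 ^ r' := by rw [hN]; ring
  obtain ⟨t₀, ht₀⟩ : ∃ t, t = u₀ ^ N := ⟨_, rfl⟩
  have ht₀U : t₀ ∈ U := by rw [ht₀]; exact U.pow_mem z.hu₀ N
  have ht₀t₀ : t₀ * t₀ = 1 := by rw [ht₀, ← pow_add, hNN, pow_orderOf_eq_one]
  have ht₀1 : t₀ ≠ 1 := by
    rw [ht₀]
    intro h
    have h1 := orderOf_dvd_of_pow_eq_one h
    have h2 := Nat.le_of_dvd hNpos h1
    omega
  have hsN : s ^ N = 1 := by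
    rw [hN2, pow_mul, pow_two, z.hss, one_pow]
  have hA : cT u₀ k ∈ U := z.cT_mem z.hu₀ hka
  have hB : cT u₀ l ∈ U := z.cT_mem z.hu₀ hla
  have hC : cT u₀ k⁻¹ ∈ U := z.cT_mem z.hu₀ (inv_fix hka)
  have hD : cT u₀ (m * k⁻¹ * k⁻¹) ∈ U :=
    z.cT_mem z.hu₀ (by rw [mul_smul, mul_smul, inv_fix hka, inv_fix hka, hma])
  have hQN : (s * cT u₀ k * (cT u₀ l)⁻¹) ^ N = (cT u₀ k⁻¹ * (cT u₀ (m * k⁻¹ * k⁻¹))⁻¹) ^ N := by
    rw [hQ]
  rw [z.z0.U_mul_pow (U.mul_mem z.hs hA) (U.inv_mem hB), z.z0.U_mul_pow z.hs hA,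
    z.z0.U_mul_pow hC (U.inv_mem hD), inv_pow, inv_pow, cT_pow, cT_pow, cT_pow, cT_pow, hsN,
    one_mul, ← ht₀] at hQN
  have hinvS : ∀ x : G, (cS t₀ x)⁻¹ = cS t₀ x := fun x =>
    inv_eq_of_mul_eq_one_left (cS_sq ht₀t₀ x)
  rw [cT_eq_cS, cT_eq_cS, cT_eq_cS, cT_eq_cS, hinvS, hinvS, inv_inv] at hQN
  have hconj := conj_mul_eq l hQN
  rw [cS_conj, cS_conj, cS_conj, cS_conj] at hconj
  have i1 : l * k⁻¹ = m := by
    rw [hlkm]
    calc k * m * k⁻¹ = m * k * k⁻¹ := by rw [hc]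
      _ = m := by group
  have i3 : l * k = k * k * m := by
    rw [hlkm]
    calc k * m * k = k * (m * k) := by group
      _ = k * (k * m) := by rw [hc]
      _ = k * k * m := by group
  have i4 : l * (m * k⁻¹ * k⁻¹)⁻¹ = k * k * k := by
    rw [hlkm]
    calc k * m * (m * k⁻¹ * k⁻¹)⁻¹ = k * m * k * (k * m⁻¹) := by
          simp only [mul_inv_rev, inv_inv, mul_assoc]
      _ = k * m * k * (m⁻¹ * k) := by rw [hc']
      _ = k * m * (k * m⁻¹) * k := by group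
      _ = k * m * (m⁻¹ * k) * k := by rw [hc']
      _ = k * k * k := by group
  rw [i1, mul_inv_cancel, cS_one, i3, i4] at hconj
  obtain ⟨k₀, hk₀a, hk₀b, hk₀⟩ := z.horb t₀ ht₀U ht₀t₀ ht₀1
  have hck₀m : m * k₀ = k₀ * m := z.hcomm m k₀ hma hmb hk₀a hk₀b
  have hck₀k : k₀ * k = k * k₀ := z.hcomm k₀ k hk₀a hk₀b hka hkb
  have r1 : cS t₀ m = cS t₀ k * t₀ := by
    rw [hk₀, cS_swap s hck₀m, ← h2, cS_mul, cS_swap s hck₀k]
  have hStk : cS t₀ k ∈ U := z.cS_mem ht₀U hka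
  have hL : cS t₀ m * t₀ = cS t₀ k := by
    rw [r1, mul_assoc, ht₀t₀, mul_one]
  have hR : cS t₀ (k * k * m) * cS t₀ (k * k * k) = cS t₀ (k * k) := by
    rw [← cS_conj t₀ m (k * k), ← cS_conj t₀ k (k * k), r1]
    have e : cS t₀ k * t₀ * cS t₀ k = t₀ := by
      rw [mul_assoc, z.z0.hUab t₀ ht₀U _ hStk, ← mul_assoc, cS_sq ht₀t₀ k, one_mul]
    calc k * k * (cS t₀ k * t₀) * (k * k)⁻¹ * (k * k * cS t₀ k * (k * k)⁻¹)
        = k * k * (cS t₀ k * t₀ * cS t₀ k) * (k * k)⁻¹ := by group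
      _ = k * k * t₀ * (k * k)⁻¹ := by rw [e]
      _ = cS t₀ (k * k) := rfl
  have hfin : cS t₀ k = cS t₀ (k * k) := by rw [← hL, hconj, hR]
  exact hkkk (z.z0.cS_inj ht₀U ht₀1 hka hkb hkka hkkb hfin)

end Z

end action

end Cfsg.Agent.Helper26.Zass
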